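import Mathlib
import Cfsg.Agent.Lib.DSC.C1

/-! Classes of elements of odd prime order with 2-group lines: definitions
(blueprint/CYB/README.md). -/

set_option autoImplicit false
set_option linter.unusedSectionVars false

namespace H83.CYB

open Subgroup H69 H45.DSC
open scoped commutatorElement

variable {G : Type} [Group G]

/-- `x⁻¹ y` lies in the derived group of `⟨x, y⟩` -/
def Par (x y : G) : Prop := x⁻¹ * y ∈ W (gn x y)

/-- the subgroup generated by the points in `L` -/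
def gen (D : Set G) (L : Subgroup G) : Subgroup G := closure (D ∩ (L : Set G))

/-- its derived group -/
def P (D : Set G) (L : Subgroup G) : Subgroup G := W (gen D L)

/-- the central part of the derived group -/
def Z (D : Set G) (L : Subgroup G) : Subgroup G := P D L ⊓ 𝐂(gen D L)

/-- the derived group is a 2-group -/
def Good (D : Set G) (L : Subgroup G) : Prop := IsPGroup 2 (P D L)

/-- trivial holonomy inside `L` -/
def Triv (D : Set G) (L : Subgroup G) : Prop :=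
  ∀ x ∈ D, ∀ y ∈ D, ∀ w ∈ D, x ∈ L → y ∈ L → w ∈ L → Par x y → Par x w → Par y w

/-- the centraliser of an element -/
abbrev ce (u : G) : Subgroup G := 𝐂(zpowers u)

/-- squares of elements of order 4 of lines -/
def ZZ (D : Set G) (u : G) : Prop := ∃ x ∈ D, ∃ y ∈ D, x ≠ y ∧ Par x y ∧ u = (x⁻¹ * y) ^ 2

/-- `⟨x, y⟩` is a line containing a square root of `u` in its derived group -/
def UL (D : Set G) (u x y : G) : Prop :=
  x ∈ D ∧ y ∈ D ∧ y ∉ zpowers x ∧ ∃ a ∈ W (gn x y), a ^ 2 = u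

/-- `L` is a block modulo `E` -/
structure Bk (D : Set G) (E L : Subgroup G) : Prop where
  good : Good D L
  le : gen D L ≤ 𝐂(E)
  max : ∀ v ∈ Z D L, v ∉ E → gen D (𝐂(E) ⊓ ce v) = gen D L

structure BS0 (D : Set G) (p : ℕ) : Prop where
  pp : p.Prime
  od : Odd p
  ord : ∀ x ∈ D, orderOf x = p
  conj : ∀ x ∈ D, ∀ g : G, g * x * g⁻¹ ∈ D
  pow : ∀ x ∈ D, ∀ y ∈ zpowers x, y ≠ 1 → y ∈ D
  two : ∀ x ∈ D, ∀ y ∈ D, IsPGroup 2 (W (gn x y))
  par : ∀ x ∈ D, ∀ y ∈ D, ∃ y' ∈ zpowers y, y' ∈ D ∧ Par x y'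
  sq : ∀ x ∈ D, ∀ y ∈ D, ∀ r ∈ W (gn x y), Commute (r ^ 2) x
  o4 : ∀ x ∈ D, ∀ y ∈ D, ∀ r ∈ W (gn x y), r ^ 2 = 1 → Commute r x
  nn : ∀ x ∈ D, ∀ y ∈ D, x ∈ 𝐍(zpowers y) → x ∈ zpowers y
  line : ∀ x ∈ D, ∀ y ∈ D, ∀ x' ∈ D, ∀ y' ∈ D, x' ∈ gn x y → y' ∈ gn x y → y' ∉ zpowers x' →
    gn x' y' = gn x y

structure BS (D : Set G) (p : ℕ) : Prop extends BS0 D p where
  sy : ∀ x ∈ D, ∀ y ∈ D, ∃ S : Subgroup G, IsSylowIn 2 S (ce x) ∧ S ≤ ce y
  faith : ∀ g : G, (∀ x ∈ D, Commute g x) → g = 1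

variable {D : Set G} {L L' : Subgroup G} {x y u g : G}

theorem mem_ce : g ∈ ce u ↔ Commute g u := by
  constructor
  · intro h; exact (h u (mem_zpowers u)).symm
  · rintro h _ ⟨n, rfl⟩; exact ((h.zpow_right n).symm : Commute _ _)

theorem gen_le : gen D L ≤ L := (closure_le _).2 fun _ h => h.2

theorem mem_gen (hx : x ∈ D) (h : x ∈ L) : x ∈ gen D L := subset_closure ⟨hx, h⟩

theorem gen_le_iff : gen D L ≤ L' ↔ ∀ x ∈ D, x ∈ L → x ∈ L' :=
  ⟨fun h _ hx hl => h (mem_gen hx hl), fun h => (closure_le _).2 fun x hx => h x hx.1 hx.2⟩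

theorem gen_mono (h : L ≤ L') : gen D L ≤ gen D L' :=
  gen_le_iff.2 fun _ hx hl => mem_gen hx (h hl)

theorem gen_le_gen (h : gen D L ≤ L') : gen D L ≤ gen D L' :=
  gen_le_iff.2 fun _ hx hl => mem_gen hx (h (mem_gen hx hl))

theorem gen_gen : gen D (gen D L) = gen D L := le_antisymm gen_le (gen_le_gen le_rfl)

theorem gen_sup : gen D (gen D L ⊔ gen D L') = gen D L ⊔ gen D L' :=
  le_antisymm gen_le (sup_le (gen_le_gen le_sup_left) (gen_le_gen le_sup_right))

theorem gen_gn (hx : x ∈ D) (hy : y ∈ D) : gen D (gn x y) = gn x y :=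
  le_antisymm gen_le (sup_le (zpowers_le.2 (mem_gen hx (le_sup_left (a := zpowers x) (mem_zpowers x))))
    (zpowers_le.2 (mem_gen hy (le_sup_right (b := zpowers y) (mem_zpowers y)))))

theorem left_mem_gn (x y : G) : x ∈ gn x y := le_sup_left (a := zpowers x) (mem_zpowers x)

theorem right_mem_gn (x y : G) : y ∈ gn x y := le_sup_right (b := zpowers y) (mem_zpowers y)

theorem gn_le (hx : x ∈ L) (hy : y ∈ L) : gn x y ≤ L := sup_le (zpowers_le.2 hx) (zpowers_le.2 hy)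

theorem gn_comm (x y : G) : gn x y = gn y x := sup_comm _ _

theorem P_congr (h : gen D L = gen D L') : P D L = P D L' := by unfold P; rw [h]

theorem Z_congr (h : gen D L = gen D L') : Z D L = Z D L' := by unfold Z P; rw [h]

theorem Good.congr (h : gen D L = gen D L') (hg : Good D L) : Good D L' := by
  unfold Good at *; rwa [← P_congr h]

theorem P_gn (hx : x ∈ D) (hy : y ∈ D) : P D (gn x y) = W (gn x y) := by
  unfold P; rw [gen_gn hx hy]

theorem P_le_gen : P D L ≤ gen D L := W_le _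

theorem Z_le_P : Z D L ≤ P D L := inf_le_left

theorem Z_le_cent : Z D L ≤ 𝐂(gen D L) := inf_le_right

theorem P_le_P (h : gen D L ≤ L') : P D L ≤ P D L' :=
  commutator_mono (gen_le_gen h) (gen_le_gen h)

theorem Good.of_le (hg : Good D L') (h : gen D L ≤ L') : Good D L :=
  IsPGroup.to_le hg (P_le_P h)

theorem norm_P : 𝐍(gen D L) ≤ 𝐍(P D L) := norm_W _

theorem Par.mem_P (hx : x ∈ D) (hy : y ∈ D) (h1 : x ∈ L) (h2 : y ∈ L) (h : Par x y) :
    x⁻¹ * y ∈ P D L :=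
  commutator_mono (gn_le (mem_gen hx h1) (mem_gen hy h2)) (gn_le (mem_gen hx h1) (mem_gen hy h2)) h

theorem mem_Z {z : G} : z ∈ Z D L ↔ z ∈ P D L ∧ ∀ x ∈ D, x ∈ L → Commute z x := by
  refine and_congr_right fun _ => ⟨fun h x hx hl => (h x (mem_gen hx hl)).symm, fun h => ?_⟩
  have : gen D L ≤ ce z := gen_le_iff.2 fun x hx hl => mem_ce.2 (h x hx hl).symm
  exact fun a ha => mem_ce.1 (this ha)

end H83.CYB
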