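import Mathlib
import Cfsg.Agent.Lib.CYB.Defs

/-! See `blueprint/CYB/README.md`. -/

set_option autoImplicit false
set_option linter.unusedSectionVars false
set_option linter.unusedVariables false

namespace H83.CYB

open Subgroup H69 H45.DSC
open scoped commutatorElement

variable {G : Type} [Group G] [Finite G] {D : Set G} {p : ℕ} {L L' M M' E X N : Subgroup G}
  {x y w v u z t c g a b r : G}

private theorem W_sup_le (hn : x ∈ 𝐍(X)) : W (X ⊔ zpowers x) ≤ X := by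
  have hl : zpowers x ≤ 𝐍(X) := zpowers_le.2 hn
  have d : ∀ g ∈ X ⊔ zpowers x, ∃ a ∈ X, ∃ s ∈ zpowers x, a * s = g := fun g hg => by
    have : g ∈ ((X ⊔ zpowers x : Subgroup G) : Set G) := hg
    rw [coe_mul_of_right_le_normalizer_left _ _ hl] at this
    exact this
  refine commutator_le.2 fun g hg k hk => ?_
  obtain ⟨a, ha, s, hs, rfl⟩ := d g hg
  obtain ⟨b, hb, t, ht, rfl⟩ := d k hk
  have c : s * t * s⁻¹ = t := by
    obtain ⟨n, rfl⟩ := hs
    obtain ⟨m, rfl⟩ := ht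
    rw [(Commute.zpow_zpow_self x n m).eq, mul_inv_cancel_right]
  have e : ⁅a * s, b * t⁆ = a * (s * b * s⁻¹) * (s * t * s⁻¹ * a⁻¹ * t⁻¹) * b⁻¹ := by
    rw [commutatorElement_def]; group
  rw [e, c]
  exact mul_mem (mul_mem (mul_mem ha ((mem_normalizer_iff.1 (hl hs) b).1 hb))
    ((mem_normalizer_iff.1 (hl ht) _).1 (inv_mem ha))) (inv_mem hb)

theorem Par.refl (x : G) : Par x x := by
  unfold Par; rw [inv_mul_cancel]; exact one_mem _

theorem Par.symm (h : Par x y) : Par y x := by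
  unfold Par at h ⊢
  rw [gn_comm]
  simpa using inv_mem h

theorem Par.cj (h : Par x y) (g : G) : Par (g * x * g⁻¹) (g * y * g⁻¹) := by
  have := cj_mem g h
  rw [cj_W, cj_sup, cj_zpowers, cj_zpowers] at this
  unfold Par
  convert this using 1
  group

theorem cj_gn (x y g : G) : gn x y ^ᶜ g = gn (g * x * g⁻¹) (g * y * g⁻¹) := by
  rw [cj_sup, cj_zpowers, cj_zpowers]

theorem BS0.cj_gen (h : BS0 D p) (L : Subgroup G) (g : G) : gen D L ^ᶜ g = gen D (L ^ᶜ g) := by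
  refine le_antisymm (map_le_iff_le_comap.2 (gen_le_iff.2 fun x hx hl => ?_)) (gen_le_iff.2 fun x hx hl => ?_)
  · exact mem_gen (h.conj x hx g) (cj_mem g hl)
  · refine mem_cj.2 (mem_gen ?_ (mem_cj.1 hl))
    simpa using h.conj x hx g⁻¹

theorem BS0.norm_gen (h : BS0 D p) : 𝐍(L) ≤ 𝐍(gen D L) := by
  intro g hg
  rw [← cj_eq_self_iff, h.cj_gen, cj_eq_of_mem_normalizer hg]

theorem norm_Z : 𝐍(gen D L) ≤ 𝐍(Z D L) := by
  intro g hg
  rw [← cj_eq_self_iff]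
  unfold Z
  rw [cj_inf, cj_centralizer, cj_eq_of_mem_normalizer hg, cj_eq_of_mem_normalizer (norm_P hg)]

theorem BS0.good_cj (h : BS0 D p) (hg : Good D L) (g : G) : Good D (L ^ᶜ g) := by
  unfold Good P at hg ⊢
  rw [← h.cj_gen, ← cj_W]
  exact isPGroup_cj hg g

theorem BS0.ZZ_cj (h : BS0 D p) (hu : ZZ D u) (g : G) : ZZ D (g * u * g⁻¹) := by
  obtain ⟨x, hx, y, hy, ne, hp, rfl⟩ := hu
  refine ⟨_, h.conj x hx g, _, h.conj y hy g, fun e => ne (by simpa using e), hp.cj g, ?_⟩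
  rw [pow_two, pow_two]; group

theorem BS0.UL_cj (h : BS0 D p) (hl : UL D u x y) (g : G) :
    UL D (g * u * g⁻¹) (g * x * g⁻¹) (g * y * g⁻¹) := by
  obtain ⟨hx, hy, ne, a, ha, rfl⟩ := hl
  refine ⟨h.conj x hx g, h.conj y hy g, ?_, g * a * g⁻¹, ?_, conj_pow⟩
  · rwa [← cj_zpowers, cj_mem_iff]
  · rw [← cj_gn, ← cj_W]; exact cj_mem g ha

theorem BS0.odd_ord (h : BS0 D p) (hx : x ∈ D) : Odd (orderOf x) := by
  rw [h.ord x hx]; exact h.od

theorem BS0.ne_one (h : BS0 D p) (hx : x ∈ D) : x ≠ 1 := by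
  rintro rfl
  exact h.pp.one_lt.ne (orderOf_one.symm.trans (h.ord 1 hx))

theorem BS0.zp_eq (h : BS0 D p) (hx : x ∈ D) (hy : y ∈ zpowers x) (h1 : y ≠ 1) :
    zpowers y = zpowers x := by
  refine eq_of_le_of_card_ge (zpowers_le.2 hy) ?_
  rw [Nat.card_zpowers, Nat.card_zpowers, h.ord x hx, h.ord y (h.pow x hx y hy h1)]

theorem BS0.eq_one_of_two (h : BS0 D p) (hx : x ∈ D) (hy : y ∈ zpowers x) (hX : IsPGroup 2 X)
    (hm : y ∈ X) : y = 1 := by
  by_contra h1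
  obtain ⟨k, hk⟩ := hX ⟨y, hm⟩
  have := orderOf_dvd_of_pow_eq_one (show y ^ 2 ^ k = 1 from congrArg Subtype.val hk)
  rw [h.ord y (h.pow x hx y hy h1)] at this
  have e := (Nat.prime_dvd_prime_iff_eq h.pp Nat.prime_two).1 (h.pp.dvd_of_dvd_pow this)
  exact absurd (e ▸ h.od) (by decide)

theorem BS0.par_uniq (h : BS0 D p) (hx : x ∈ D) (hy : y ∈ D) (hw : w ∈ D) (hm : w ∈ zpowers y)
    (h1 : Par x y) (h2 : Par x w) : y = w := by
  unfold Par at h1 h2
  rw [gn, h.zp_eq hy hm (h.ne_one hw)] at h2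
  have := mul_mem (inv_mem h1) h2
  rw [mul_inv_rev, inv_inv, mul_assoc, mul_inv_cancel_left] at this
  exact inv_mul_eq_one.1 (h.eq_one_of_two hy (mul_mem (inv_mem (mem_zpowers y)) hm) (h.two x hx y hy) this)

theorem BS0.not_mem_of_par (h : BS0 D p) (hx : x ∈ D) (hy : y ∈ D) (hp : Par x y) (hne : x ≠ y) :
    y ∉ zpowers x := by
  exact fun hm => hne (h.par_uniq hx hx hy hm (Par.refl x) hp)

theorem BS0.par_of_two (h : BS0 D p) (hx : x ∈ D) (hy : y ∈ D) (hX : IsPGroup 2 X)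
    (hn : x ∈ 𝐍(X)) (hm : x⁻¹ * y ∈ X) : Par x y := by
  obtain ⟨y', m, hy', hp⟩ := h.par x hx y hy
  have k : y ∈ X ⊔ zpowers x := by
    simpa using mul_mem (mem_sup_right (mem_zpowers x) : x ∈ X ⊔ zpowers x) (mem_sup_left hm)
  have l : gn x y' ≤ X ⊔ zpowers x := gn_le (mem_sup_right (mem_zpowers x)) (zpowers_le.2 k m)
  have := mul_mem (inv_mem hm) (W_sup_le hn (commutator_mono l l hp))
  rw [mul_inv_rev, inv_inv, mul_assoc, mul_inv_cancel_left] at this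
  rwa [inv_mul_eq_one.1 (h.eq_one_of_two hy (mul_mem (inv_mem (mem_zpowers y)) m) hX this)]

theorem BS0.comm_of_norm (h : BS0 D p) (hx : x ∈ D) (hy : y ∈ D) (hc : Commute g x)
    (hn : g ∈ 𝐍(zpowers y)) : Commute g y := by
  obtain ⟨y', m, hy', hp⟩ := h.par x hx y hy
  have e := h.zp_eq hy m (h.ne_one hy')
  have k := hp.cj g
  rw [hc.eq, mul_inv_cancel_right] at k
  have := h.par_uniq hx hy' (h.conj y' hy' g) (e ▸ (mem_normalizer_iff.1 hn y').1 m) hp k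
  obtain ⟨n, rfl⟩ : y ∈ zpowers y' := e ▸ mem_zpowers y
  exact Commute.zpow_right (eq_mul_inv_iff_mul_eq.1 this).symm n

theorem BS0.good_gn (h : BS0 D p) (hx : x ∈ D) (hy : y ∈ D) : Good D (gn x y) := by
  unfold Good; rw [P_gn hx hy]; exact h.two x hx y hy

theorem good_of_norm (hX : IsPGroup 2 X) (hn : x ∈ 𝐍(X)) (hL : gen D L ≤ X ⊔ zpowers x) :
    Good D L := by
  exact hX.to_le ((commutator_mono hL hL).trans (W_sup_le hn))

theorem norm_of_comm_mem (hg : g ∈ 𝐂(E)) (hv : ⁅g, v⁆ ∈ E) : g ∈ 𝐍(𝐂(E) ⊓ ce v) := by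
  refine mem_normalizer_of_cj_le ?_
  rintro _ ⟨a, ⟨h1, h2⟩, rfl⟩
  have k : g * a * g⁻¹ ∈ 𝐂(E) := mul_mem (mul_mem hg h1) (inv_mem hg)
  refine ⟨k, mem_ce.2 ?_⟩
  have c1 : Commute (g * a * g⁻¹) ⁅g, v⁆ := (mem_centralizer_iff.1 k _ hv).symm
  have c2 : Commute (g * a * g⁻¹) (g * v * g⁻¹) := (mem_ce.1 h2).map (MulAut.conj g)
  have := c1.inv_right.mul_right c2
  rwa [show ⁅g, v⁆⁻¹ * (g * v * g⁻¹) = v by rw [commutatorElement_def]; group] at this

theorem cent_sup (E : Subgroup G) (v : G) : 𝐂(E ⊔ zpowers v) = 𝐂(E) ⊓ ce v := by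
  refine le_antisymm (le_inf (centralizer_le (SetLike.coe_subset_coe.2 le_sup_left))
    (centralizer_le (SetLike.coe_subset_coe.2 le_sup_right))) ?_
  exact le_centralizer_iff.1 (sup_le (le_centralizer_iff.1 inf_le_left) (le_centralizer_iff.1 inf_le_right))

theorem BS0.par_conj (h : BS0 D p) (hg : Good D L) (hx : x ∈ D) (hl : x ∈ L) (hm : g ∈ gen D L) :
    Par x (g * x * g⁻¹) := by
  refine h.par_of_two hx (h.conj x hx g) hg (norm_P (le_normalizer (mem_gen hx hl))) ?_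
  have := commutator_mem_commutator (inv_mem (mem_gen hx hl)) hm
  rw [commutatorElement_def, inv_inv] at this
  unfold P
  simpa only [mul_assoc] using this

end H83.CYB
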