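import Mathlib
import Cfsg.Agent.Lib.CYB.A0

/-! See `blueprint/CYB/README.md`. -/

set_option autoImplicit false
set_option linter.unusedSectionVars false
set_option linter.unusedVariables false

namespace H83.CYB

open Subgroup H69 H45.DSC
open scoped commutatorElement

variable {G : Type} [Group G] [Finite G] {D : Set G} {p : ℕ} {L L' M M' E X N : Subgroup G}
  {x y w v u z t c g a b r : G}

theorem BS0.conj_of_par (h : BS0 D p) (hx : x ∈ D) (hy : y ∈ D) (hp : Par x y) :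
    ∃ r ∈ W (gn x y), y = r * x * r⁻¹ :=
  C1.conj (h.odd_ord hx) (h.odd_ord hy) (h.two x hx y hy) (norm_W _ (le_normalizer (left_mem_gn x y))) hp

theorem BS0.na (h : BS0 D p) (hx : x ∈ D) (hy : y ∈ D) (hm : y ∉ zpowers x) :
    ¬ W (gn x y) ≤ 𝐂(W (gn x y)) := by
  intro ab
  obtain ⟨y', m, hy', hp⟩ := h.par x hx y hy
  have e : gn x y' = gn x y := by unfold gn; rw [h.zp_eq hy m (h.ne_one hy')]
  obtain ⟨r, hr, e1⟩ := h.conj_of_par hx hy' hp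
  rw [e] at hr
  have o := h.odd_ord hx
  have t2 := h.two x hx y hy
  have n : x ∈ 𝐍(W (gn x y)) := norm_W _ (le_normalizer (left_mem_gn x y))
  obtain ⟨b, hb, c, -, cx, rfl⟩ := cm_split o t2 n hr
  have bW := cm_le n hb
  have b2 : b ^ 2 ∈ ⁅cm (W (gn x y)) x, cm (W (gn x y)) x⁆ :=
    H2.inf_centralizer_le_commutator (zpowers_le.2 (norm_cm n)) (C1.cop o (t2.to_le (cm_le n)))
      (cm_cm o t2 n).ge ⟨pow_mem hb 2, mem_ce.2 (h.sq x hx y hy b bW)⟩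
  have b3 : b ^ 2 = 1 := mem_bot.1 ((commutator_eq_bot_of_le_centralizer ab).le
    (commutator_mono (cm_le n) (cm_le n) b2))
  rw [((h.o4 x hx y hy b bW b3).mul_left cx).eq, mul_inv_cancel_right] at e1
  rw [e1] at m
  exact hm (h.zp_eq hy m (h.ne_one hx) ▸ mem_zpowers y)

theorem BS0.sq_ne (h : BS0 D p) (hx : x ∈ D) (hy : y ∈ D) (hp : Par x y) (hne : x ≠ y) :
    (x⁻¹ * y) ^ 2 ≠ 1 := fun e => by
  have c : Commute y x := by
    simpa using (Commute.refl x).mul_left (h.o4 x hx y hy _ hp e)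
  exact h.not_mem_of_par hx hy hp hne (h.nn y hy x hx (centralizer_le_normalizer _ (mem_ce.2 c)))

theorem BS0.gen_eq (h : BS0 D p) (hx : x ∈ D) (hl : x ∈ L) : gen D L = P D L ⊔ zpowers x := by
  refine le_antisymm (gen_le_iff.2 fun y hy k => ?_) (sup_le P_le_gen (zpowers_le.2 (mem_gen hx hl)))
  obtain ⟨y', m, hy', hp⟩ := h.par x hx y hy
  have e : y' ∈ P D L ⊔ zpowers x := by
    have := mul_mem (mem_sup_right (S := P D L) (mem_zpowers x))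
      (mem_sup_left (hp.mem_P hx hy' hl (zpowers_le.2 k m)))
    rwa [mul_inv_cancel_left] at this
  exact zpowers_le.2 e (h.zp_eq hy m (h.ne_one hy') ▸ mem_zpowers y)

private theorem BS0.a1_dec (h : BS0 D p) (hx : x ∈ D) (hl : x ∈ L) (hm : g ∈ gen D L) :
    ∃ k : ℕ, ∃ π ∈ P D L, g = x ^ k * π := by
  rw [h.gen_eq hx hl, sup_comm] at hm
  obtain ⟨a, ha, b, hb, e⟩ := (mem_sup_of_le_normalizer_right
    (zpowers_le.2 (norm_P (le_normalizer (mem_gen hx hl))))).1 hm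
  obtain ⟨k, rfl⟩ := (mem_powers_iff_mem_zpowers.2 ha)
  exact ⟨k, b, hb, e⟩

theorem BS0.pt_pow (h : BS0 D p) (hg : Good D L) (hm : g ∈ gen D L) (hn : g ∉ P D L) :
    ∃ k : ℕ, Even k ∧ g ^ k ∈ D := by
  obtain ⟨x, hx, hl⟩ : ∃ x ∈ D, x ∈ L := by
    by_contra k
    have : gen D L ≤ ⊥ := gen_le_iff.2 fun x hx hl => absurd ⟨x, hx, hl⟩ k
    exact hn (mem_bot.1 (this hm) ▸ one_mem _)
  obtain ⟨i, π, hπ, e⟩ := h.a1_dec hx hl hm
  have n : x ∈ 𝐍(P D L) := norm_P (le_normalizer (mem_gen hx hl))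
  have d1 : x ^ i ∈ D := h.pow x hx _ (pow_mem (mem_zpowers x) i) fun k => hn (by rwa [e, k, one_mul])
  obtain ⟨a, m, om, e1⟩ := Nat.exists_eq_two_pow_mul_odd (orderOf_pos g).ne'
  have d2 : (x ^ i) ^ 2 ^ (a + 1) ∈ D := h.pow _ d1 _ (pow_mem (mem_zpowers _) _) fun k => by
    have := orderOf_dvd_of_pow_eq_one k
    rw [h.ord _ d1] at this
    have := (Nat.prime_dvd_prime_iff_eq h.pp Nat.prime_two).1 (h.pp.dvd_of_dvd_pow this)
    exact absurd (this ▸ h.od) (by decide)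
  have o : Odd (orderOf (g ^ 2 ^ (a + 1))) := om.of_dvd_nat (orderOf_dvd_of_pow_eq_one (by
    rw [← pow_mul, show 2 ^ (a + 1) * m = 2 ^ a * m * 2 by ring, ← e1, pow_mul, pow_orderOf_eq_one, one_pow]))
  obtain ⟨r, -, e2⟩ := C1.conj (h.odd_ord d2) o hg (pow_mem (pow_mem n i) _)
    (C1.pow_mem (pow_mem n i) (by rwa [e, inv_mul_cancel_left]) _)
  exact ⟨_, ⟨2 ^ a, by ring⟩, e2 ▸ h.conj _ d2 r⟩

theorem BS0.pm (h : BS0 D p) (hg : Good D L) (hx : x ∈ D) (hl : x ∈ L) (hn : g ∈ 𝐍(gen D L))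
    (h2 : x⁻¹ * (g ^ 2 * x * (g ^ 2)⁻¹) ∈ P D L) :
    x⁻¹ * (g * x * g⁻¹) ∈ P D L ∨ x * (g * x * g⁻¹) ∈ P D L := by
  obtain ⟨k, π, hπ, e⟩ := h.a1_dec hx hl (conj_mem_of_mem_normalizer hn (mem_gen hx hl))
  have n : x ∈ 𝐍(P D L) := norm_P (le_normalizer (mem_gen hx hl))
  have m1 := C1.pow_mem (pow_mem n k) (y' := x ^ k * π) (by rwa [inv_mul_cancel_left]) k
  have m2 := mul_mem m1 (conj_mem_of_mem_normalizer (norm_P hn) hπ)
  have e2 : g ^ 2 * x * (g ^ 2)⁻¹ = (x ^ k * π) ^ k * (g * π * g⁻¹) := by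
    calc _ = g * (g * x * g⁻¹) * g⁻¹ := by rw [pow_two]; group
      _ = g * (x ^ k * π) * g⁻¹ := by rw [e]
      _ = (g * x * g⁻¹) ^ k * (g * π * g⁻¹) := by rw [conj_pow, conj_mul]
      _ = _ := by rw [e]
  rw [mul_assoc, ← e2] at m2
  have m3 := mul_mem h2 (inv_mem m2)
  have e3 : x ^ ((k : ℤ) * k - 1) = 1 := h.eq_one_of_two hx (zpow_mem (mem_zpowers x) _) hg (by
    convert m3 using 1
    rw [sub_eq_neg_add, zpow_add, zpow_mul, zpow_natCast, zpow_natCast]; group)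
  rw [← orderOf_dvd_iff_zpow_eq_one, h.ord x hx, show (k : ℤ) * k - 1 = (k - 1) * (k + 1) by ring] at e3
  rcases (Nat.prime_iff_prime_int.1 h.pp).dvd_or_dvd e3 with d | d <;>
    rw [← h.ord x hx, orderOf_dvd_iff_zpow_eq_one] at d
  · rw [zpow_sub_one, zpow_natCast, mul_inv_eq_one] at d
    exact Or.inl (by rwa [e, d, inv_mul_cancel_left])
  · rw [add_comm, zpow_add, zpow_one, zpow_natCast] at d
    exact Or.inr (by rwa [e, ← mul_assoc, d, one_mul])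

theorem two_of_class2 {S : Set G} (h4 : ∀ a ∈ S, a ^ 4 = 1)
    (hc : ∀ a ∈ S, ∀ b ∈ S, ⁅a, b⁆ ^ 2 = 1 ∧ ∀ c ∈ S, Commute ⁅a, b⁆ c) :
    IsPGroup 2 (closure S) := by
  have key : ∀ b, (∀ a ∈ S, ⁅a, b⁆ ^ 2 = 1 ∧ ⁅a, b⁆ ∈ 𝐂(closure S) ∧ ⁅a, b⁆ ∈ closure S) →
      ∀ a ∈ closure S, ⁅a, b⁆ ^ 2 = 1 ∧ ⁅a, b⁆ ∈ 𝐂(closure S) ∧ ⁅a, b⁆ ∈ closure S := fun b hb a ha => by
    induction ha using closure_induction with
    | mem x hx => exact hb x hx
    | one => simp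
    | mul x y hx hy h1 h2 =>
      rw [commutatorElement_mul_left_eq_conj_mul, h2.2.1 x hx, mul_inv_cancel_right]
      exact ⟨by rw [Commute.mul_pow (h1.2.1 _ h2.2.2), h1.1, h2.1, mul_one], mul_mem h2.2.1 h1.2.1,
        mul_mem h2.2.2 h1.2.2⟩
    | inv x hx h1 =>
      have : ⁅x⁻¹, b⁆ = ⁅x, b⁆⁻¹ := by
        calc _ = x⁻¹ * ⁅x, b⁆⁻¹ * x := by simp only [commutatorElement_def]; group
          _ = _ := by rw [inv_mem h1.2.1 _ (inv_mem hx), inv_mul_cancel_right]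
      rw [this]
      exact ⟨by rw [inv_pow, h1.1, inv_one], inv_mem h1.2.1, inv_mem h1.2.2⟩
  have sw : ∀ {a b : G}, ⁅a, b⁆ ^ 2 = 1 ∧ ⁅a, b⁆ ∈ 𝐂(closure S) ∧ ⁅a, b⁆ ∈ closure S →
      ⁅b, a⁆ ^ 2 = 1 ∧ ⁅b, a⁆ ∈ 𝐂(closure S) ∧ ⁅b, a⁆ ∈ closure S := fun {a b} h1 => by
    rw [← commutatorElement_inv]
    exact ⟨by rw [inv_pow, h1.1, inv_one], inv_mem h1.2.1, inv_mem h1.2.2⟩
  have all : ∀ b ∈ closure S, ∀ a ∈ closure S, ⁅a, b⁆ ^ 2 = 1 ∧ ⁅a, b⁆ ∈ 𝐂(closure S) ∧ ⁅a, b⁆ ∈ closure S :=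
    fun b hb => key b fun a ha => sw (key a (fun c hcS => ⟨(hc c hcS a ha).1, le_centralizer_iff.1
      ((closure_le (ce ⁅c, a⁆)).2 fun d hd => mem_ce.2 ((hc c hcS a ha).2 d hd).symm) (mem_zpowers _),
      commutator_le_of_le le_rfl le_rfl (commutator_mem_commutator (subset_closure hcS) (subset_closure ha))⟩) b hb)
  have ex : ∀ g ∈ closure S, g ^ 4 = 1 := fun g hg => by
    induction hg using closure_induction with
    | mem x hx => exact h4 x hx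
    | one => exact one_pow _
    | inv x _ h1 => rw [inv_pow, h1, inv_one]
    | mul a b ha hb h1 h2 =>
      obtain ⟨c2, cc, -⟩ := all a ha b hb
      have e : b * a = ⁅b, a⁆ * (a * b) := by simp only [commutatorElement_def]; group
      generalize ⁅b, a⁆ = c at c2 cc e
      have ca : Commute a c := cc a ha
      have cb : Commute b c := cc b hb
      have k1 : Commute (a ^ 2) b := by
        calc a ^ 2 * b = c ^ 2 * (a * (a * b)) := by rw [c2, pow_two]; group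
          _ = c * (a * (c * (a * b))) := by rw [← mul_assoc a c, ca.eq, pow_two]; group
          _ = b * a ^ 2 := by rw [← e, ← mul_assoc a, ← mul_assoc c, ← e, pow_two, mul_assoc]
      have k2 : (a * b) ^ 2 = c * (a ^ 2 * b ^ 2) := by
        calc _ = a * (b * a) * b := by rw [pow_two]; group
          _ = _ := by rw [e, ← mul_assoc a c, ca.eq, pow_two, pow_two]; group
      rw [show 4 = 2 * 2 from rfl, pow_mul, k2,
        Commute.mul_pow ((ca.pow_left 2).mul_left (cb.pow_left 2)).symm, c2, one_mul,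
        Commute.mul_pow (k1.pow_right 2), ← pow_mul, ← pow_mul, h1, h2, one_mul]
  exact isPGroup_iff_mem.2 fun g hg => ⟨2, ex g hg⟩

theorem nn_zero {Y : Subgroup G} (hY : ∀ a ∈ Y, a ^ 2 = 1) (hr : r ∈ 𝐍(Y)) (h4 : r ^ 4 = 1)
    (hk : ∀ a ∈ Y, ⁅r ^ 2, a⁆ ∈ E → ⁅r, a⁆ ∈ E) : ∀ a ∈ Y, ⁅r, a⁆ ∈ E := by
  have iv : ∀ a ∈ Y, a⁻¹ = a := fun a ha => inv_eq_of_mul_eq_one_left (by rw [← pow_two, hY a ha])
  have cm : ∀ a ∈ Y, ∀ b ∈ Y, a * b = b * a := fun a ha b hb => by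
    rw [← iv _ (mul_mem ha hb), mul_inv_rev, iv a ha, iv b hb]
  have m : ∀ s ∈ 𝐍(Y), ∀ a ∈ Y, ⁅s, a⁆ ∈ Y := fun s hs a ha =>
    mul_mem (conj_mem_of_mem_normalizer hs ha) (inv_mem ha)
  have d : ∀ s ∈ 𝐍(Y), ∀ a ∈ Y, ⁅s, ⁅s, a⁆⁆ = ⁅s ^ 2, a⁆ := fun s hs a ha => by
    have h1 := conj_mem_of_mem_normalizer hs ha
    calc _ = s ^ 2 * a * (s ^ 2)⁻¹ * ((s * a * s⁻¹)⁻¹ * (a * (s * a * s⁻¹)⁻¹)) := by
          simp only [commutatorElement_def, pow_two]; group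
      _ = _ := by
          rw [cm a ha _ (inv_mem h1), ← mul_assoc (s * a * s⁻¹)⁻¹, ← pow_two (s * a * s⁻¹)⁻¹, hY _ (inv_mem h1),
            one_mul, commutatorElement_def, iv a ha]
  intro a ha
  have r2 := pow_mem hr 2
  have e1 := hk _ (m _ r2 a ha) (by
    rw [d _ r2 a ha, ← pow_mul, h4, commutatorElement_one_left]; exact one_mem _)
  rw [← d r hr a ha, d r hr _ (m r hr a ha)] at e1
  have e2 := hk _ (m r hr a ha) e1
  rw [d r hr a ha] at e2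
  exact hk a ha e2

end H83.CYB
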