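import Mathlib
import Cfsg.Agent.Lib.CYB.A1
import Cfsg.Agent.Lib.DSC.AB
import Cfsg.Agent.Lib.DSC.C2
import Cfsg.Agent.Lib.DSC.P6
import Cfsg.Agent.Lib.DSC.FW

/-! See `blueprint/CYB/README.md`. -/

set_option autoImplicit false
set_option linter.unusedSectionVars false
set_option linter.unusedVariables false

namespace H83.CYB

open Subgroup H69 H45.DSC
open scoped commutatorElement

variable {G : Type} [Group G] [Finite G] {D : Set G} {p : ℕ} {L L' M M' E X N : Subgroup G}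
  {x y w v u z t c g a b r : G}

private theorem W_sup_le (hn : x ∈ 𝐍(X)) : W (X ⊔ zpowers x) ≤ X := by
  have dec : ∀ g ∈ X ⊔ zpowers x, ∃ d ∈ X, ∃ n : ℤ, g = d * x ^ n := by
    intro g hg
    rw [← SetLike.mem_coe, coe_mul_of_right_le_normalizer_left X _ (zpowers_le.2 hn)] at hg
    obtain ⟨d, hd, _, ⟨n, rfl⟩, rfl⟩ := hg
    exact ⟨d, hd, n, rfl⟩
  rw [commutator_le]
  intro g hg g' hg'
  obtain ⟨d, hd, n, rfl⟩ := dec g hg
  obtain ⟨d', hd', m, rfl⟩ := dec g' hg'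
  have := X.mul_mem (X.mul_mem (X.mul_mem hd ((mem_normalizer_iff.1 (zpow_mem hn n) _).1 hd'))
    ((mem_normalizer_iff.1 (zpow_mem hn m) _).1 (X.inv_mem hd))) (X.inv_mem hd')
  convert this using 1
  rw [commutatorElement_def]
  group

private theorem gen_le_of (h : BS0 D p) (hx : x ∈ D) (hl : x ∈ L)
    (hX : ∀ r ∈ P D L, ⁅r, x⁆ ∈ X) : gen D L ≤ X ⊔ zpowers x := by
  refine gen_le_iff.2 fun y hy hyl => ?_
  obtain ⟨y', hm, hy', hp⟩ := h.par x hx y hy
  have hl' : y' ∈ L := zpowers_le.2 hyl hm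
  obtain ⟨r, hr, e⟩ := h.conj_of_par hx hy' hp
  have hrP : r ∈ P D L :=
    commutator_mono (gn_le (mem_gen hx hl) (mem_gen hy' hl')) (gn_le (mem_gen hx hl) (mem_gen hy' hl')) hr
  have h1 : y' ∈ X ⊔ zpowers x := by
    have := mul_mem (mem_sup_left (T := zpowers x) (hX r hrP)) (mem_sup_right (mem_zpowers x))
    rwa [commutatorElement_def, inv_mul_cancel_right, ← e] at this
  have h2 : y ∈ zpowers y' := by
    rw [h.zp_eq hy hm (h.ne_one hy')]
    exact mem_zpowers y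
  exact zpowers_le.2 h1 h2

private theorem P_eq_bot (hn : ¬ ∃ x ∈ D, x ∈ L) : P D L = ⊥ :=
  le_bot_iff.1 (P_le_gen.trans (gen_le_iff.2 fun x hx hl => absurd ⟨x, hx, hl⟩ hn))

theorem BS0.triv_of_good (h : BS0 D p) (hg : Good D L) : Triv D L := by
  intro x hx y hy w hw xl yl wl h1 h2
  refine h.par_of_two hy hw hg (norm_P (le_normalizer (mem_gen hy yl))) ?_
  have := mul_mem (inv_mem (h1.mem_P hx hy xl yl)) (h2.mem_P hx hw xl wl)
  convert this using 1
  group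

theorem BS0.cls_of_triv (h : BS0 D p) (ht : Triv D L) (hx : x ∈ D) (hl : x ∈ L) :
    Cls {y : gen D L | (y : G) ∈ D ∧ Par x y} := by
  have hpar : ∀ y ∈ {y : gen D L | (y : G) ∈ D ∧ Par x y},
      ∀ y' ∈ {y : gen D L | (y : G) ∈ D ∧ Par x y}, Par (y : G) y' := fun y hy y' hy' =>
    ht x hx y hy.1 y' hy'.1 hl (gen_le y.2) (gen_le y'.2) hy.2 hy'.2
  have hpt : ∀ v ∈ D, v ∈ L → ∀ y ∈ D, y ∈ gen D L → Par x y → Par x (v * y * v⁻¹) := by
    intro v hv vl y hy yl hp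
    refine ht y hy x hx _ (h.conj y hy v) (gen_le yl) hl
      (mul_mem (mul_mem vl (gen_le yl)) (inv_mem vl)) hp.symm ?_
    exact h.par_conj (h.good_gn hy hv) hy (left_mem_gn y v) (mem_gen hv (right_mem_gn y v))
  have hcj : ∀ g ∈ gen D L, ∀ y ∈ D, y ∈ gen D L → Par x y → Par x (g * y * g⁻¹) := by
    intro g hg
    induction hg using closure_induction'' with
    | mem v hv => exact hpt v hv.1 hv.2
    | inv_mem v hv =>
      exact hpt v⁻¹ (h.pow v hv.1 _ (inv_mem (mem_zpowers v)) (inv_ne_one.2 (h.ne_one hv.1)))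
        (inv_mem hv.2)
    | one => intro y _ _ hp; simpa using hp
    | mul a b ha hb iha ihb =>
      intro y hy yl hp
      have := iha _ (h.conj y hy b) (mul_mem (mul_mem hb yl) (inv_mem hb)) (ihb y hy yl hp)
      convert this using 1
      group
  refine Cls0.cls ⟨fun y hy => ?_, fun y hy g => ⟨h.conj _ hy.1 _, hcj g g.2 y hy.1 y.2 hy.2⟩,
    fun y hy y' hy' => ?_, fun y hy y' hy' => ?_, fun y hy y' hy' => ?_⟩ fun y hy y' hy' hne hle => ?_
  · rw [← Subgroup.orderOf_coe]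
    exact h.odd_ord hy.1
  · obtain ⟨r, hr, e⟩ := h.conj_of_par hy.1 hy'.1 (hpar y hy y' hy')
    exact ⟨⟨r, gn_le y.2 y'.2 (W_le _ hr)⟩, Subtype.ext e⟩
  · exact ⟨(W (gn (y : G) y')).comap (gen D L).subtype,
      (h.two _ hy.1 _ hy'.1).comap_subtype,
      C2.norm_comap _ (norm_W _ (le_normalizer (left_mem_gn _ _))), hpar y hy y' hy'⟩
  · exact Subtype.ext (h.sq _ hy.1 _ hy'.1 _ (hpar y hy y' hy'))
  · refine h.na hy.1 hy'.1 (h.not_mem_of_par hy.1 hy'.1 (hpar y hy y' hy')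
      fun e => hne (Subtype.ext e)) ?_
    have e : W (gn (y : G) y') = (W (gn y y')).map (gen D L).subtype := by
      rw [map_commutator, Subgroup.map_sup, MonoidHom.map_zpowers, MonoidHom.map_zpowers]
      rfl
    rw [e]
    rintro _ ⟨a, ha, rfl⟩ _ ⟨b, hb, rfl⟩
    exact congrArg Subtype.val (hle ha b hb)

private theorem not_min' (G : Type) [Group G] [Finite G] (D : Set G) : ¬ Min D := fun hm => by
  obtain ⟨Q, Q', hp⟩ := hm.exists_pr
  exact hm.p6 hp

theorem BS0.good_of_triv (h : BS0 D p) (ht : Triv D L) : Good D L := by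
  by_cases hn : ∃ x ∈ D, x ∈ L
  · obtain ⟨x, hx, hl⟩ := hn
    have h2 : IsPGroup 2 (cm (⊤ : Subgroup (gen D L)) ⟨x, mem_gen hx hl⟩) :=
      Cls.main_of not_min' (h.cls_of_triv ht hx hl) ⟨hx, Par.refl x⟩
    refine good_of_norm (x := x) (h2.map (gen D L).subtype)
      (C2.norm_map (gen D L).subtype (y := ⟨x, mem_gen hx hl⟩) (le_norm_cm (mem_top _) (mem_top _)))
      (gen_le_of h hx hl fun r hr => ?_)
    exact ⟨⁅⟨r, P_le_gen hr⟩, ⟨x, mem_gen hx hl⟩⁆,
      commutator_mem_commutator (mem_top _) (mem_zpowers _), rfl⟩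
  · unfold Good
    rw [P_eq_bot hn]
    exact IsPGroup.of_bot

theorem BS0.cm_P (h : BS0 D p) (hg : Good D L) (hx : x ∈ D) (hl : x ∈ L) :
    cm (P D L) x = P D L := by
  have hn : x ∈ 𝐍(P D L) := norm_P (le_normalizer (mem_gen hx hl))
  refine le_antisymm (cm_le hn) ?_
  have := gen_le_of (X := cm (P D L) x) h hx hl fun r hr =>
    commutator_mem_commutator hr (mem_zpowers x)
  exact (commutator_mono this this).trans (W_sup_le (norm_cm hn))

private theorem cm_sub (h : BS0 D p) (hg : Good D L) (hx : x ∈ D) (hl : x ∈ L) :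
    cm ((P D L).subgroupOf (gen D L)) ⟨x, mem_gen hx hl⟩ = (P D L).subgroupOf (gen D L) := by
  apply map_injective (gen D L).subtype_injective
  rw [C2.map_cm, subgroupOf_map_subtype, inf_eq_left.2 P_le_gen]
  exact h.cm_P hg hx hl

theorem BS0.cz (h : BS0 D p) (hg : Good D L) (hx : x ∈ D) (hl : x ∈ L) (ha : a ∈ P D L)
    (hc : Commute a x) : a ∈ Z D L := by
  have h1 := (h.cls_of_triv (h.triv_of_good hg) hx hl).cz ⟨x, mem_gen hx hl⟩ ⟨hx, Par.refl x⟩
    ((P D L).subgroupOf (gen D L)) (IsPGroup.comap_subtype hg)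
    (C2.norm_comap _ (norm_P (le_normalizer (mem_gen hx hl)))) ⟨a, P_le_gen ha⟩
    (by rw [cm_sub h hg hx hl]; exact ha) (Subtype.ext hc)
  rw [cm_sub h hg hx hl] at h1
  have h2 : gen D L ≤ ce a := by
    rw [h.gen_eq hx hl]
    refine sup_le (fun b hb => mem_ce.2 (Commute.symm ?_)) (zpowers_le.2 (mem_ce.2 hc.symm))
    exact congrArg Subtype.val (h1 ⟨b, P_le_gen hb⟩ hb)
  exact mem_Z.2 ⟨ha, fun y hy hyl => (mem_ce.1 (h2 (mem_gen hy hyl))).symm⟩

theorem BS0.sq_mem (h : BS0 D p) (hg : Good D L) (ha : a ∈ P D L) : a ^ 2 ∈ Z D L := by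
  by_cases hn : ∃ x ∈ D, x ∈ L
  · obtain ⟨x, hx, hl⟩ := hn
    have h1 := (h.cls_of_triv (h.triv_of_good hg) hx hl).sq_comm (y := ⟨x, mem_gen hx hl⟩)
      ⟨hx, Par.refl x⟩ (X := (P D L).subgroupOf (gen D L)) (IsPGroup.comap_subtype hg)
      (C2.norm_comap _ (norm_P (le_normalizer (mem_gen hx hl)))) (a := ⟨a, P_le_gen ha⟩)
      (by rw [cm_sub h hg hx hl]; exact ha)
    exact h.cz hg hx hl (pow_mem ha 2) (congrArg Subtype.val h1)
  · rw [P_eq_bot hn, mem_bot] at ha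
    rw [ha, one_pow]
    exact one_mem _

end H83.CYB
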