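import Mathlib
import Cfsg.Agent.Lib.CYB.A2
import Cfsg.Agent.Lib.Core.CoprimeAbelian

/-! See `blueprint/CYB/README.md`. -/

set_option autoImplicit false
set_option linter.unusedSectionVars false
set_option linter.unusedVariables false

namespace H83.CYB

open Subgroup H69 H45.DSC
open scoped commutatorElement

variable {G : Type} [Group G] [Finite G] {D : Set G} {p : ℕ} {L L' M M' E X N : Subgroup G}
  {x y w v u z t c g a b r : G}

private theorem comm_sq (a b : G) : ⁅a, b⁆ = a ^ 2 * (a⁻¹ * b) ^ 2 * b⁻¹ ^ 2 := by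
  simp only [commutatorElement_def, pow_two]; group

private theorem Z_comm (hz : z ∈ Z D L) (hg : g ∈ gen D L) : Commute z g :=
  (Z_le_cent hz g hg).symm

theorem BS0.comm_mem (h : BS0 D p) (hg : Good D L) (ha : a ∈ P D L) (hb : b ∈ P D L) :
    ⁅a, b⁆ ∈ Z D L := by
  rw [comm_sq]
  exact mul_mem (mul_mem (h.sq_mem hg ha) (h.sq_mem hg (mul_mem (inv_mem ha) hb)))
    (h.sq_mem hg (inv_mem hb))

theorem BS0.Z_eq (h : BS0 D p) (hg : Good D L) : Z D L = W (P D L) := by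
  refine le_antisymm ?_ (commutator_le.2 fun a ha b hb => h.comm_mem hg ha hb)
  by_cases hx : ∃ x ∈ D, x ∈ L
  · obtain ⟨x, hx, hl⟩ := hx
    refine le_trans ?_ (H2.inf_centralizer_le_commutator (A := zpowers x) (K := P D L)
      (zpowers_le.2 (norm_P (le_normalizer (mem_gen hx hl)))) (C1.cop (h.odd_ord hx) hg)
      (h.cm_P hg hx hl).ge)
    exact fun z hz => ⟨Z_le_P hz, mem_ce.2 (Z_comm hz (mem_gen hx hl))⟩
  · have : gen D L ≤ ⊥ := gen_le_iff.2 fun x h1 h2 => absurd ⟨x, h1, h2⟩ hx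
    exact Z_le_P.trans (P_le_gen.trans (this.trans bot_le))

theorem BS0.Z_sq (h : BS0 D p) (hg : Good D L) (hz : z ∈ Z D L) : z ^ 2 = 1 := by
  let U : Subgroup G :=
    { carrier := {z | z ∈ Z D L ∧ z ^ 2 = 1}
      one_mem' := ⟨one_mem _, one_pow _⟩
      mul_mem' := fun {a b} ha hb => ⟨mul_mem ha.1 hb.1, by
        rw [(Z_comm ha.1 (P_le_gen (Z_le_P hb.1))).mul_pow, ha.2, hb.2, one_mul]⟩
      inv_mem' := fun {a} ha => ⟨inv_mem ha.1, by rw [inv_pow, ha.2, inv_one]⟩ }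
  have : W (P D L) ≤ U := commutator_le.2 fun a ha b hb => by
    refine ⟨h.comm_mem hg ha hb, ?_⟩
    have h1 : ⁅a, b⁆ * a = a * ⁅a, b⁆ := Z_comm (h.comm_mem hg ha hb) (P_le_gen ha)
    have h2 : a ^ 2 * b = b * a ^ 2 := Z_comm (h.sq_mem hg ha) (P_le_gen hb)
    calc ⁅a, b⁆ ^ 2 = ⁅a, b⁆ * a * (b * a⁻¹ * b⁻¹) := by
          rw [pow_two]; nth_rewrite 2 [commutatorElement_def]; group
      _ = a ^ 2 * b * (a ^ 2)⁻¹ * b⁻¹ := by
          rw [h1, commutatorElement_def, pow_two]; group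
      _ = 1 := by rw [h2]; group
  exact (this (h.Z_eq hg ▸ hz)).2

theorem BS0.pow4 (h : BS0 D p) (hg : Good D L) (ha : a ∈ P D L) : a ^ 4 = 1 := by
  rw [← h.Z_sq hg (h.sq_mem hg ha), ← pow_mul]

theorem BS0.fpf (h : BS0 D p) (hg : Good D L) (hx : x ∈ D) (hl : x ∈ L) (ha : a ∈ P D L)
    (hc : ⁅x, a⁆ ∈ Z D L) : a ∈ Z D L := by
  have h1 : Commute x⁻¹ ⁅x, a⁆ := (Z_comm hc (inv_mem (mem_gen hx hl))).symm
  have h2 : a * x⁻¹ * a⁻¹ = x⁻¹ * ⁅x, a⁆ := by rw [commutatorElement_def]; group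
  have h3 : x⁻¹ ^ p = 1 := by rw [inv_pow, ← h.ord x hx, pow_orderOf_eq_one, inv_one]
  have h4 : ⁅x, a⁆ ^ p = 1 := by
    have := congrArg (· ^ p) h2
    simp only [conj_pow, h1.mul_pow, h3, mul_one, mul_inv_cancel, one_mul] at this
    exact this.symm
  obtain ⟨k, hk⟩ := h.od
  rw [hk, pow_succ, pow_mul, h.Z_sq hg hc, one_pow, one_mul] at h4
  exact h.cz hg hx hl ha (commutatorElement_eq_one_iff_commute.1 h4).symm

theorem BS0.dec_P (h : BS0 D p) (hg : Good D L) (hx : x ∈ D) (hl : x ∈ L) (ha : a ∈ P D L) :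
    ∃ y ∈ D, y ∈ L ∧ Par x y ∧ ∃ z ∈ Z D L, a = x⁻¹ * y * z := by
  have hxg := mem_gen hx hl
  have hx' : x⁻¹ ∈ D := h.pow x hx _ (inv_mem (mem_zpowers x)) (inv_ne_one.2 (h.ne_one hx))
  have hf : ∀ r ∈ P D L, x⁻¹ * (r * x * r⁻¹) ∈ P D L := fun r hr => by
    have := mul_mem (conj_mem_of_mem_normalizer' (norm_P (le_normalizer hxg)) hr) (inv_mem hr)
    simpa only [mul_assoc] using this
  let F : P D L ⧸ (Z D L).subgroupOf (P D L) → P D L ⧸ (Z D L).subgroupOf (P D L) :=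
    fun q => QuotientGroup.mk ⟨_, hf q.out q.out.2⟩
  have hF : Function.Injective F := fun q q' e => by
    rw [← q.out_eq', ← q'.out_eq']
    have e1 := QuotientGroup.eq.1 e
    rw [mem_subgroupOf] at e1
    refine QuotientGroup.eq.2 (mem_subgroupOf.2 ?_)
    generalize q.out = r at *
    generalize q'.out = r' at *
    obtain ⟨r, hr⟩ := r
    obtain ⟨r', hr'⟩ := r'
    have e2 : (x⁻¹ * (r * x * r⁻¹))⁻¹ * (x⁻¹ * (r' * x * r'⁻¹)) ∈ Z D L := e1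
    refine h.fpf hg hx' (inv_mem hl) (mul_mem (inv_mem hr) hr') ?_
    have e3 : ⁅x⁻¹, r⁻¹ * r'⁆ =
        r⁻¹ * ((x⁻¹ * (r * x * r⁻¹))⁻¹ * (x⁻¹ * (r' * x * r'⁻¹)) * r) := by
      rw [commutatorElement_def]; group
    show ⁅x⁻¹, r⁻¹ * r'⁆ ∈ Z D L
    rw [e3, (Z_comm e2 (P_le_gen hr)).eq, inv_mul_cancel_left]
    exact e2
  obtain ⟨q, e⟩ := Finite.injective_iff_surjective.1 hF (QuotientGroup.mk ⟨a, ha⟩)
  have e1 := QuotientGroup.eq.1 e
  rw [mem_subgroupOf] at e1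
  have hr : (q.out : G) ∈ gen D L := P_le_gen q.out.2
  refine ⟨_, h.conj x hx q.out, gen_le (mul_mem (mul_mem hr hxg) (inv_mem hr)), h.par_conj hg hx hl hr,
    _, e1, ?_⟩
  exact (mul_inv_cancel_left _ a).symm

theorem BS0.Z_le_of_sq (h : BS0 D p) (hg : Good D L) (hX : ∀ a ∈ P D L, a ^ 2 ∈ X) :
    Z D L ≤ X := by
  rw [h.Z_eq hg]
  refine commutator_le.2 fun a ha b hb => ?_
  rw [comm_sq]
  exact mul_mem (mul_mem (hX _ ha) (hX _ (mul_mem (inv_mem ha) hb))) (hX _ (inv_mem hb))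

end H83.CYB
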