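import Mathlib
import Cfsg.Agent.Lib.CYB.A3

/-! See `blueprint/CYB/README.md`. -/

set_option autoImplicit false
set_option linter.unusedSectionVars false
set_option linter.unusedVariables false

namespace H83.CYB

open Subgroup H69 H45.DSC
open scoped commutatorElement

variable {G : Type} [Group G] [Finite G] {D : Set G} {p : ℕ} {L L' M M' E X N : Subgroup G}
  {x y w v u z t c g a b r : G}

private theorem ex_pt (ha : a ∈ P D L) (h1 : a ≠ 1) : ∃ x ∈ D, x ∈ L := by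
  by_contra hn
  exact h1 (mem_bot.1 (gen_le_iff.2 (fun x hx hl => absurd ⟨x, hx, hl⟩ hn) (P_le_gen ha)))

private theorem gen_le_ce (hz : z ∈ Z D L) : gen D L ≤ ce z :=
  gen_le_iff.2 fun x hx hl => mem_ce.2 ((mem_Z.1 hz).2 x hx hl).symm

theorem BS0.ZZ_sq (h : BS0 D p) (hg : Good D L) (ha : a ∈ P D L) (hn : a ∉ Z D L) :
    ZZ D (a ^ 2) := by
  obtain ⟨x, hx, hl⟩ := ex_pt ha fun e => hn (e ▸ one_mem _)
  obtain ⟨y, hy, hyl, hp, z, hz, rfl⟩ := h.dec_P hg hx hl ha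
  refine ⟨x, hx, y, hy, fun e => hn ?_, hp, ?_⟩
  · rwa [e, inv_mul_cancel, one_mul]
  · have c : Commute (x⁻¹ * y) z :=
      (((mem_Z.1 hz).2 x hx hl).inv_right.mul_right ((mem_Z.1 hz).2 y hy hyl)).symm
    rw [c.mul_pow, h.Z_sq hg hz, mul_one]

theorem BS0.ZZ_ne (h : BS0 D p) (hu : ZZ D u) : u ≠ 1 ∧ u ^ 2 = 1 := by
  obtain ⟨x, hx, y, hy, hne, hp, rfl⟩ := hu
  refine ⟨h.sq_ne hx hy hp hne, ?_⟩
  rw [← pow_mul]
  exact h.pow4 (h.good_gn hx hy) (hp.mem_P hx hy (left_mem_gn x y) (right_mem_gn x y))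

theorem BS0.om1 (h : BS0 D p) (hg : Good D L) (ha : a ∈ P D L) (h2 : a ^ 2 = 1) : a ∈ Z D L := by
  by_contra hn
  exact (h.ZZ_ne (h.ZZ_sq hg ha hn)).1 h2

theorem BS0.Z_mono (h : BS0 D p) (hg : Good D L') (hl : gen D L ≤ L') : Z D L ≤ Z D L' := by
  intro z hz
  by_cases h1 : z = 1
  · rw [h1]; exact one_mem _
  obtain ⟨x, hx, hxl⟩ := ex_pt (Z_le_P hz) h1
  exact h.cz hg hx (hl (mem_gen hx hxl)) (P_le_P hl (Z_le_P hz)) ((mem_Z.1 hz).2 x hx hxl)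

theorem BS0.cm_le_P (h : BS0 D p) (hx : x ∈ D) (hl : x ∈ L) (hX : IsPGroup 2 X) (hn : x ∈ 𝐍(X))
    (hXL : X ≤ L) : cm X x ≤ P D L := by
  have h1 : zpowers x ≤ gen D L := zpowers_le.2 (mem_gen hx hl)
  have h2 : cm X x ≤ gen D L := (commutator_mono le_rfl h1).trans
    (commutator_le_right_of_le_normalizer ((hXL.trans le_normalizer).trans h.norm_gen))
  rw [← cm_cm (h.odd_ord hx) hX hn]
  exact commutator_mono h2 h1

theorem BS0.cent_of_comm_Z (h : BS0 D p) (hg : Good D L) (hx : x ∈ D) (hl : x ∈ L)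
    (hc : Commute g x) (hz : ∀ a ∈ P D L, ⁅g, a⁆ ∈ Z D L) : g ∈ 𝐂(gen D L) := by
  have key : gen D L ≤ ce g := by
    refine gen_le_iff.2 fun y hy hyl => ?_
    obtain ⟨y', hy1, hy', hp⟩ := h.par x hx y hy
    have hl' : y' ∈ L := zpowers_le.2 hyl hy1
    obtain ⟨r, hr, e⟩ := h.conj_of_par hx hy' hp
    have hrP : r ∈ P D L :=
      P_le_P (gen_le.trans (gn_le hl hl')) (by rw [P_gn hx hy']; exact hr)
    have c := ((mem_Z.1 (hz r hrP)).2 y' hy' hl').eq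
    have c' : y' ∈ ce g := by
      refine mem_ce.2 (show y' * g = g * y' from ?_)
      calc y' * g = ⁅g, r⁆ * y' * ⁅g, r⁆⁻¹ * g := by rw [c, mul_inv_cancel_right]
        _ = g * r * (g⁻¹ * (x * g)) * r⁻¹ := by rw [e, commutatorElement_def]; group
        _ = g * y' := by rw [← hc.eq, e]; group
    have h3 := zpowers_le.2 c'
    rw [h.zp_eq hy hy1 (h.ne_one hy')] at h3
    exact h3 (mem_zpowers y)
  exact fun a ha => (mem_ce.1 (key ha)).eq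

theorem BS0.bk (h : BS0 D p) (hg : Good D (𝐂(E) ⊓ ce c)) (hc : c ∈ Z D (𝐂(E) ⊓ ce c))
    (hm : ∀ v ∈ Z D (𝐂(E) ⊓ ce c), v ∉ E → Good D (𝐂(E) ⊓ ce v)) : Bk D E (𝐂(E) ⊓ ce c) := by
  refine ⟨hg, gen_le.trans inf_le_left, fun v hv hE => ?_⟩
  have h1 : gen D (𝐂(E) ⊓ ce c) ≤ 𝐂(E) ⊓ ce v := le_inf (gen_le.trans inf_le_left) (gen_le_ce hv)
  exact le_antisymm (gen_le_gen (le_inf (gen_le.trans inf_le_left)
    (gen_le_ce (h.Z_mono (hm v hv hE) h1 hc)))) (gen_le_gen h1)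

end H83.CYB
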