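import Mathlib
import Cfsg.Agent.Lib.CYB.Defs
import Cfsg.Agent.Lib.CYN.Bas2

/-! See `blueprint/CYB/README.md`. -/

set_option autoImplicit false
set_option linter.unusedSectionVars false
set_option linter.unusedVariables false

namespace H83.CYB

open Subgroup H69 H45.DSC
open scoped commutatorElement

variable {G : Type} [Group G] [Finite G] {D : Set G} {p : ℕ} {L L' M M' E X N : Subgroup G}
  {x y w v u z t c g a b r : G}

open H97.CYN MulAction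

variable {Ω : Type} [MulAction G Ω] [Finite Ω] {Q : Ω → Subgroup G}

/-- the generators of the groups `Q a` -/
def DQ (Q : Ω → Subgroup G) : Set G := {x | x ≠ 1 ∧ ∃ a, x ∈ Q a}

private theorem gn_eq (h : Fam p Q) {a b : Ω} (hx : x ∈ Q a) (x1 : x ≠ 1) (hy : y ∈ Q b) (y1 : y ≠ 1) :
    gn x y = Kg Q a b := by
  unfold Kg
  rw [h.gen hx x1, h.gen hy y1]

private theorem W_same (h : Fam p Q) (a : Ω) : W (Kg Q a a) = ⊥ := by
  unfold Kg
  rw [sup_idem, eq_bot_iff, commutator_le]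
  intro x hx y hy
  rw [mem_bot, commutatorElement_eq_one_iff_mul_comm]
  exact h.comm hx hy

private theorem W_eq (h : Fam p Q) {a b : Ω} {R : Subgroup G} (A : Af Q a b R) : W (Kg Q a b) = R := by
  have qa : Q a ≤ Ng Q a b := (left_mem_Li Q a b).trans (Kg_le_Ng Q a b)
  apply le_antisymm
  · rw [commutator_le]
    intro k1 h1 k2 h2
    obtain ⟨x1, hx1, r1⟩ := A.sup a (left_mem_Li Q a b) k1 h1
    obtain ⟨x2, hx2, r2⟩ := A.sup a (left_mem_Li Q a b) k2 h2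
    have c := h.comm hx1 hx2
    have e : ⁅k1, k2⁆ = x1 * (x1⁻¹ * k1) * x1⁻¹ * ((x1 * x2) * ((x2⁻¹ * k2) * (x1⁻¹ * k1)⁻¹) * (x1 * x2)⁻¹) *
        (x2 * (x2⁻¹ * k2)⁻¹ * x2⁻¹) := by
      calc ⁅k1, k2⁆ = k1 * k2 * k1⁻¹ * (x1 * (x2 * x1)⁻¹ * x2) * k2⁻¹ := by
            rw [commutatorElement_def]; group
        _ = _ := by
            rw [← c]
            group
    rw [e]
    exact R.mul_mem (R.mul_mem (A.nrm _ (qa hx1) _ r1)
      (A.nrm _ (qa ((Q a).mul_mem hx1 hx2)) _ (R.mul_mem r2 (R.inv_mem r1)))) (A.nrm _ (qa hx2) _ (R.inv_mem r2))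
  · intro r hr
    let f : Kg Q a b →* Abelianization (Kg Q a b) := (powMonoidHom p).comp Abelianization.of
    have k : ∀ c ∈ Li Q a b, Q c ≤ f.ker.map (Kg Q a b).subtype := fun c hc v hv =>
      ⟨⟨v, hc hv⟩, by
        change Abelianization.of (⟨v, hc hv⟩ : Kg Q a b) ^ p = 1
        rw [← map_pow, show (⟨v, hc hv⟩ : Kg Q a b) ^ p = 1 from Subtype.ext (h.pow_eq hv), map_one], rfl⟩
    obtain ⟨s, hs, rfl⟩ := sup_le (k a (left_mem_Li Q a b)) (k b (right_mem_Li Q a b)) (A.le hr)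
    obtain ⟨n, hn⟩ := A.two ⟨_, hr⟩
    have e1 : Abelianization.of s ^ p = 1 := hs
    have e2 : Abelianization.of s ^ 2 ^ n = 1 := by
      rw [← map_pow, show s ^ 2 ^ n = 1 from Subtype.ext (by simpa using congrArg Subtype.val hn), map_one]
    have e3 : Abelianization.of s = 1 := by
      have := pow_gcd_eq_one.2 ⟨e1, e2⟩
      rwa [(Nat.Coprime.pow_right n h.odd.coprime_two_right).gcd_eq_one, pow_one] at this
    change _ ∈ ⁅Kg Q a b, Kg Q a b⁆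
    rw [← map_subtype_commutator]
    exact ⟨s, by rw [← Abelianization.ker_of]; exact e3, rfl⟩

private theorem cases_W (h : St p Q) (hB : CaseB Q) (a b : Ω) :
    IsPGroup 2 (W (Kg Q a b)) ∧ (∀ r ∈ W (Kg Q a b), r * r ∈ Wg Q a b) ∧
      ∀ r ∈ W (Kg Q a b), r * r = 1 → r ∈ Wg Q a b := by
  by_cases e : a = b
  · subst e
    rw [W_same h.toFam]
    refine ⟨IsPGroup.of_bot, fun r hr => ?_, fun r hr _ => ?_⟩ <;> rw [mem_bot.1 hr]
    · rw [mul_one]; exact one_mem _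
    · exact one_mem _
  · obtain ⟨R, A, hR⟩ := hB a b e
    rw [W_eq h.toFam A]
    exact ⟨A.two, A.sq, hR⟩

theorem bs0_of (h : St p Q) (hB : CaseB Q) : BS0 (DQ Q) p := by
  have f := h.toFam
  refine ⟨f.pr, f.odd, ?_, ?_, ?_, ?_, ?_, ?_, ?_, ?_, ?_⟩
  · rintro x ⟨x1, a, hx⟩
    exact f.orderOf_eq hx x1
  · rintro x ⟨x1, a, hx⟩ g
    exact ⟨fun e => x1 (conj_eq_one_iff.1 e), g • a, f.cj g a x hx⟩
  · rintro x ⟨x1, a, hx⟩ y hy y1
    exact ⟨y1, a, zpowers_le.2 hx hy⟩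
  · rintro x ⟨x1, a, hx⟩ y ⟨y1, b, hy⟩
    rw [gn_eq f hx x1 hy y1]
    exact (cases_W h hB a b).1
  · rintro x ⟨x1, a, hx⟩ y ⟨y1, b, hy⟩
    rw [← f.gen hy y1]
    by_cases e : a = b
    · subst e
      refine ⟨x, hx, ⟨x1, a, hx⟩, ?_⟩
      unfold Par
      rw [inv_mul_cancel]; exact one_mem _
    · obtain ⟨R, A, -⟩ := hB a b e
      obtain ⟨y', hy', hr⟩ := A.sup b (right_mem_Li Q a b) x (left_mem_Li Q a b hx)
      have y1' : y' ≠ 1 := by
        rintro rfl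
        rw [inv_one, one_mul] at hr
        obtain ⟨n, hn⟩ := A.two ⟨_, hr⟩
        have e2 : x ^ 2 ^ n = 1 := congrArg Subtype.val hn
        have := pow_gcd_eq_one.2 ⟨f.pow_eq hx, e2⟩
        rw [(Nat.Coprime.pow_right n f.odd.coprime_two_right).gcd_eq_one, pow_one] at this
        exact x1 this
      refine ⟨y', hy', ⟨y1', b, hy'⟩, ?_⟩
      unfold Par
      rw [gn_eq f hx x1 hy' y1', W_eq f A]
      simpa using R.inv_mem hr
  · rintro x ⟨x1, a, hx⟩ y ⟨y1, b, hy⟩ r hr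
    rw [gn_eq f hx x1 hy y1] at hr
    rw [sq]
    exact (mem_Wg.1 ((cases_W h hB a b).2.1 r hr) x (left_mem_Li Q a b hx)).symm
  · rintro x ⟨x1, a, hx⟩ y ⟨y1, b, hy⟩ r hr h2
    rw [gn_eq f hx x1 hy y1] at hr
    rw [sq] at h2
    exact (mem_Wg.1 ((cases_W h hB a b).2.2 r hr h2) x (left_mem_Li Q a b hx)).symm
  · rintro x ⟨x1, a, hx⟩ y ⟨y1, b, hy⟩ hn
    rw [← f.gen hy y1] at hn ⊢
    have e1 : x * y * x⁻¹ ∈ Q b := (mem_normalizer_iff.1 hn y).1 hy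
    have e2 := f.eq_of_mem (f.cj x b y hy) e1 (fun e => y1 (conj_eq_one_iff.1 e))
    by_cases e : b = a
    · rwa [e]
    · exact absurd (f.sr a b e x hx e2) x1
  · rintro x ⟨x1, a, hx⟩ y ⟨y1, b, hy⟩ x' ⟨x1', c, hx'⟩ y' ⟨y1', d, hy'⟩ m1 m2 hn
    rw [gn_eq f hx x1 hy y1] at m1 m2 ⊢
    rw [gn_eq f hx' x1' hy' y1']
    rw [← f.gen hx' x1'] at hn
    have cd : c ≠ d := by rintro rfl; exact hn hy'
    have ab : a ≠ b := by
      rintro rfl
      unfold Kg at m1 m2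
      rw [sup_idem] at m1 m2
      exact cd ((f.eq_of_mem hx' m1 x1').trans (f.eq_of_mem m2 hy' y1'))
    refine h.K_eq ab ?_ ?_ cd
    · rw [mem_Li, f.gen hx' x1']; exact zpowers_le.2 m1
    · rw [mem_Li, f.gen hy' y1']; exact zpowers_le.2 m2

end H83.CYB
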