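import Mathlib
import Cfsg.Agent.Lib.CYB.A4

/-! See `blueprint/CYB/README.md`. -/

set_option autoImplicit false
set_option linter.unusedSectionVars false
set_option linter.unusedVariables false

namespace H83.CYB

open Subgroup H69 H45.DSC
open scoped commutatorElement

variable {G : Type} [Group G] [Finite G] {D : Set G} {p : ℕ} {L L' M M' E X N : Subgroup G}
  {x y w v u z t c g a b r : G}

private theorem norm_zp (hm : g * v * g⁻¹ ∈ zpowers v) : g ∈ 𝐍(zpowers v) :=
  mem_normalizer_of_cj_le (by rw [cj_zpowers]; exact zpowers_le.2 hm)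

private theorem nofix' (h : BS0 D p) (hx : x ∈ D) (hy : y ∈ D) (hp : Par x y) (hne : x ≠ y)
    (hv : v ∈ D) : x⁻¹ * y ∉ 𝐍(zpowers v) := by
  intro hn
  have m : x⁻¹ * y * v * (x⁻¹ * y)⁻¹ ∈ zpowers v := conj_mem_of_mem_normalizer hn (mem_zpowers v)
  have vK : v ∈ gn x y := by
    by_cases k : y * v * y⁻¹ ∈ zpowers v
    · have := h.zp_eq hv (h.nn y hy v hv (norm_zp k)) (h.ne_one hy)
      exact mem_sup_right (this ▸ mem_zpowers v)
    have d := h.conj v hv y
    have m1 : y * v * y⁻¹ ∈ gn x v := by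
      have := mul_mem (mul_mem (left_mem_gn x v) (mem_sup_right m)) (inv_mem (left_mem_gn x v))
      convert this using 1
      group
    have e1 := h.line x hx v hv v hv _ d (right_mem_gn x v) m1 k
    have e2 := h.line y hy v hv v hv _ d (right_mem_gn y v)
      (mul_mem (mul_mem (left_mem_gn y v) (right_mem_gn y v)) (inv_mem (left_mem_gn y v))) k
    rw [h.line x hx v hv x hx y hy (left_mem_gn x v) (e1 ▸ e2 ▸ left_mem_gn y v) (h.not_mem_of_par hx hy hp hne)]
    exact right_mem_gn x v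
  have c : ⁅x⁻¹ * y, v⁆ = 1 := h.eq_one_of_two hv (mul_mem m (inv_mem (mem_zpowers v))) (h.two x hx y hy)
    (commutator_mem_commutator (mul_mem (inv_mem (left_mem_gn x y)) (right_mem_gn x y)) vK)
  exact h.sq_ne hx hy hp hne (h.Z_sq (h.good_gn hx hy) (h.cz (h.good_gn hx hy) hv vK
    (hp.mem_P hx hy (left_mem_gn x y) (right_mem_gn x y)) (commutatorElement_eq_one_iff_commute.1 c)))

theorem BS0.no_inv (h : BS0 D p) (hx : x ∈ D) (hy : y ∈ D) (hp : Par x y) (hv : v ∈ D) :
    (x⁻¹ * y) * v * (x⁻¹ * y)⁻¹ ≠ v⁻¹ := by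
  intro e
  by_cases hne : x = y
  · rw [hne, inv_mul_cancel, one_mul, inv_one, mul_one, eq_inv_iff_mul_eq_one, ← pow_two] at e
    exact h.ne_one hv (orderOf_eq_one_iff.1 (Nat.Coprime.eq_one_of_dvd (Nat.coprime_two_right.2 (h.odd_ord hv))
      (orderOf_dvd_of_pow_eq_one e)))
  · exact nofix' h hx hy hp hne hv (norm_zp (e ▸ inv_mem (mem_zpowers v)))

theorem BS0.nofix (h : BS0 D p) (hx : x ∈ D) (hy : y ∈ D) (hp : Par x y) (hne : x ≠ y)
    (hv : v ∈ D) : x⁻¹ * y ∉ 𝐍(zpowers v) :=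
  nofix' h hx hy hp hne hv

end H83.CYB
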