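import Mathlib
import Cfsg.Agent.Lib.CYB.BR1
import Cfsg.Agent.Lib.CYB.H

/-! See `blueprint/CYB/README.md`. -/

set_option autoImplicit false
set_option linter.unusedSectionVars false
set_option linter.unusedVariables false

namespace H83.CYB

open Subgroup H69 H45.DSC
open scoped commutatorElement

variable {G : Type} [Group G] [Finite G] {D : Set G} {p : ℕ} {L L' M M' E X N : Subgroup G}
  {x y w v u z t c g a b r : G}

open H97.CYN MulAction

variable {Ω : Type} [MulAction G Ω] [Finite Ω] {Q : Ω → Subgroup G}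

private theorem zp_Q (h : St p Q) {α : Ω} (hx : x ∈ Q α) (h1 : x ≠ 1) : zpowers x = Q α := by
  haveI := Fact.mk h.pr
  refine eq_of_le_of_card_ge (zpowers_le.2 hx) ?_
  rw [h.card, Nat.card_zpowers]
  have := (Nat.dvd_prime h.pr).1 (h.card α ▸ orderOf_dvd_natCard _ hx)
  exact (this.resolve_left (mt orderOf_eq_one_iff.1 h1)).ge

private theorem ex_Q (h : St p Q) (α : Ω) : ∃ x ∈ Q α, x ≠ 1 := by
  by_contra hn
  push Not at hn
  have := h.card α
  rw [(eq_bot_iff_forall _).2 hn, card_bot] at this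
  exact h.pr.one_lt.ne this

private theorem fix_of_comm (h : St p Q) {α : Ω} (hx : x ∈ Q α) (h1 : x ≠ 1) (hc : Commute g x) :
    g • α = α := by
  by_contra hn
  refine h1 (h.sr α _ hn x hx ?_)
  rw [← mul_smul, ← hc.eq, mul_smul, h.fix α x hx]

private theorem norm_of_fix (h : St p Q) {α : Ω} (hx : x ∈ Q α) (h1 : x ≠ 1) (hg : g • α = α) :
    g ∈ 𝐍(zpowers x) := by
  rw [zp_Q h hx h1, mem_normalizer_iff]
  refine fun k => ⟨fun hk => by simpa only [hg] using h.cj g α k hk, fun hk => ?_⟩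
  have := h.cj g⁻¹ α _ hk
  rwa [inv_smul_eq_iff.2 hg.symm, show g⁻¹ * (g * k * g⁻¹) * g⁻¹⁻¹ = k by group] at this

theorem bs_of (h : St p Q) (hB : CaseB Q) : BS (DQ Q) p := by
  have h0 := bs0_of h hB
  refine ⟨h0, ?_, fun g hg => h.faith g fun α => ?_⟩
  · rintro x hx y hy
    obtain ⟨hx1, α, hxa⟩ := id hx
    obtain ⟨hy1, β, hyb⟩ := id hy
    obtain ⟨T⟩ := (inferInstance : Nonempty (Sylow 2 (ce x)))
    have hS := isSylowIn_map_subtype T
    generalize (T : Subgroup (ce x)).map (ce x).subtype = S at hS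
    by_cases hab : α = β
    · subst hab
      refine ⟨S, hS, hS.le.trans (le_of_eq ?_)⟩
      show 𝐂(zpowers x) = 𝐂(zpowers y)
      rw [zp_Q h hxa hx1, zp_Q h hyb hy1]
    obtain ⟨y', hy', hy'D, hp⟩ := h0.par x hx y hy
    have hne : x ≠ y' := fun e => by
      rw [zp_Q h hyb hy1, ← e] at hy'
      exact hx1 (h.sr α β (Ne.symm hab) x hxa (h.fix β x hy'))
    have he : IsPGroup 2 (zpowers (x⁻¹ * y')) := (h0.two x hx y' hy'D).to_le (zpowers_le.2 hp)
    have hev : 2 ∣ Nat.card Ω := by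
      have hm := he.card_modEq_card_fixedPoints Ω
      haveI : IsEmpty (fixedPoints (zpowers (x⁻¹ * y')) Ω) := ⟨fun γ => by
        obtain ⟨v, hv, hv1⟩ := ex_Q h γ.1
        exact h0.nofix hx hy'D hp hne ⟨hv1, _, hv⟩
          (norm_of_fix h hv hv1 (γ.2 ⟨_, mem_zpowers _⟩))⟩
      rw [Nat.card_of_isEmpty (α := fixedPoints _ Ω)] at hm
      exact (Nat.modEq_zero_iff_dvd).1 hm
    obtain ⟨γ, hγ, hγa⟩ := hS.isP.exists_fixed_point_of_prime_dvd_card_of_fixed_point Ω hev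
      (a := α) fun s => fix_of_comm h hxa hx1 (mem_ce.1 (hS.le s.2))
    obtain ⟨g, hg1, hg2⟩ := h.two α γ α β hγa hab
    have hS' := hS.cj_of_mem_normalizer
      (normalizer_le_normalizer_centralizer _ (norm_of_fix h hxa hx1 hg1))
    refine ⟨_, hS', fun s hs => mem_ce.2 (h0.comm_of_norm hx hy (mem_ce.1 (hS'.le hs))
      (norm_of_fix h hyb hy1 ?_))⟩
    obtain ⟨s0, hs0, rfl⟩ := mem_cj'.1 hs
    rw [mul_smul, mul_smul, ← hg2, inv_smul_smul, show s0 • γ = γ from hγ ⟨s0, hs0⟩]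
  · obtain ⟨x, hx, hx1⟩ := ex_Q h α
    exact fix_of_comm h hx hx1 (hg x ⟨hx1, α, hx⟩)

end H83.CYB
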