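import Mathlib
import Cfsg.Agent.Lib.CYB.H

/-! See `blueprint/CYB/README.md`. -/

set_option autoImplicit false
set_option linter.unusedSectionVars false
set_option linter.unusedVariables false

namespace H83.CYB

open Subgroup H69 H45.DSC
open scoped commutatorElement

variable {G : Type} [Group G] [Finite G] {D : Set G} {p : ℕ} {L L' M M' E X N : Subgroup G}
  {x y w v u z t c g a b r : G}

namespace PL

theorem calc1 {e f : G} (he : Commute (e ^ 2) f) (hf : Commute (f ^ 2) e) (e4 : e ^ 4 = 1)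
    (f4 : f ^ 4 = 1) : e * (e⁻¹ * f) ^ 2 * e⁻¹ = ((e⁻¹ * f) ^ 2)⁻¹ ∧
      ⁅e, f⁆ = f ^ 2 * (e ^ 2)⁻¹ * (e⁻¹ * f) ^ 2 := by
  have h1 : e * (e⁻¹ * f) * e⁻¹ = (e⁻¹ * f)⁻¹ * (f ^ 2 * (e ^ 2)⁻¹) :=
    calc e * (e⁻¹ * f) * e⁻¹ = f⁻¹ * (f ^ 2 * e) * (e ^ 2)⁻¹ := by group
      _ = f⁻¹ * (e * f ^ 2) * (e ^ 2)⁻¹ := by rw [hf.eq]
      _ = _ := by group
  have ke : Commute (f ^ 2 * (e ^ 2)⁻¹) e := hf.mul_left ((Commute.refl e).pow_left 2).inv_left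
  have kf : Commute (f ^ 2 * (e ^ 2)⁻¹) f := ((Commute.refl f).pow_left 2).mul_left he.inv_left
  have k2 : (f ^ 2 * (e ^ 2)⁻¹) ^ 2 = 1 := by
    rw [(hf.pow_right 2).inv_right.mul_pow, inv_pow, ← pow_mul, ← pow_mul, e4, f4, inv_one, mul_one]
  have km : Commute (f ^ 2 * (e ^ 2)⁻¹) (e⁻¹ * f) := ke.inv_right.mul_right kf
  have h0 : ⁅e, f⁆ = e * (e * (e⁻¹ * f) * e⁻¹ * (e⁻¹ * f)⁻¹) * e⁻¹ := by
    rw [commutatorElement_def]; group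
  generalize f ^ 2 * (e ^ 2)⁻¹ = k at h1 ke k2 km ⊢
  generalize e⁻¹ * f = m at h1 km h0 ⊢
  have h2 : e * m ^ 2 * e⁻¹ = (m ^ 2)⁻¹ := by
    rw [← conj_pow, h1, km.inv_right.symm.mul_pow, k2, mul_one, inv_pow]
  refine ⟨h2, ?_⟩
  rw [h0, h1, ← km.inv_right.eq]
  calc e * (k * m⁻¹ * m⁻¹) * e⁻¹ = e * k * e⁻¹ * (e * m ^ 2 * e⁻¹)⁻¹ := by rw [pow_two]; group
    _ = k * m ^ 2 := by rw [h2, inv_inv, ke.symm.mul_inv_cancel]

theorem cl {s a b : G} (h1 : Commute s a) (h2 : Commute s b) : ⁅s * a, b⁆ = ⁅a, b⁆ := by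
  have e := ((h1.mul_right h2).mul_right h1.inv_right).mul_inv_cancel
  calc ⁅s * a, b⁆ = s * (a * b * a⁻¹) * s⁻¹ * b⁻¹ := by rw [commutatorElement_def]; group
    _ = ⁅a, b⁆ := by rw [e, commutatorElement_def]

theorem cr {s a b : G} (h1 : Commute s a) (h2 : Commute s b) : ⁅a, s * b⁆ = ⁅a, b⁆ := by
  rw [← commutatorElement_inv, cl h2 h1, commutatorElement_inv]

end PL

theorem BS0.c1 (h : BS0 D p) (hx : x ∈ D) (hy : y ∈ D) (hw : w ∈ D) (h1 : Par x y) (h2 : Par x w)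
    (he : Commute ((x⁻¹ * y) ^ 2) w) (hf : Commute ((x⁻¹ * w) ^ 2) y) :
    Commute ⁅x⁻¹ * y, x⁻¹ * w⁆ x ∧ Commute ⁅x⁻¹ * y, x⁻¹ * w⁆ y ∧
      Commute ⁅x⁻¹ * y, x⁻¹ * w⁆ w := by
  have m1 : x⁻¹ * y ∈ P D (gn x y) := (P_gn hx hy).symm ▸ h1
  have m2 : x⁻¹ * w ∈ P D (gn x w) := (P_gn hx hw).symm ▸ h2
  have z1 := (mem_Z.1 (h.sq_mem (h.good_gn hx hy) m1)).2
  have z2 := (mem_Z.1 (h.sq_mem (h.good_gn hx hw) m2)).2
  have ex := z1 x hx (left_mem_gn x y)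
  have ey := z1 y hy (right_mem_gn x y)
  have fx := z2 x hx (left_mem_gn x w)
  have fw := z2 w hw (right_mem_gn x w)
  obtain ⟨k1, k2⟩ := PL.calc1 (ex.inv_right.mul_right he) (fx.inv_right.mul_right hf)
    (h.pow4 (h.good_gn hx hy) m1) (h.pow4 (h.good_gn hx hw) m2)
  have em : (x⁻¹ * y)⁻¹ * (x⁻¹ * w) = y⁻¹ * w := by group
  rw [em] at k1 k2
  have m3 : y⁻¹ * w ∈ P D (gn y w) := by
    by_contra hn
    obtain ⟨k, ⟨j, rfl⟩, hk⟩ := h.pt_pow (h.good_gn hy hw)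
      (mul_mem (inv_mem (mem_gen hy (left_mem_gn y w))) (mem_gen hw (right_mem_gn y w))) hn
    refine h.no_inv hx hy h1 hk ?_
    rw [← two_mul, pow_mul, ← conj_pow, k1, inv_pow]
  have z3 := (mem_Z.1 (h.sq_mem (h.good_gn hy hw) m3)).2
  have my := z3 y hy (left_mem_gn y w)
  have mw := z3 w hw (right_mem_gn y w)
  have m4 : ((y⁻¹ * w) ^ 2)⁻¹ = (y⁻¹ * w) ^ 2 := by
    rw [inv_eq_iff_mul_eq_one, ← pow_add, h.pow4 (h.good_gn hy hw) m3]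
  have me : Commute ((y⁻¹ * w) ^ 2) (x⁻¹ * y) := (mul_inv_eq_iff_eq_mul.1 (k1.trans m4)).symm
  have mx : Commute ((y⁻¹ * w) ^ 2) x := by
    have := my.mul_right me.inv_right
    rwa [mul_inv_rev, inv_inv, mul_inv_cancel_left] at this
  rw [k2]
  exact ⟨(fx.mul_left ex.inv_left).mul_left mx, (hf.mul_left ey.inv_left).mul_left my,
    (fw.mul_left he.inv_left).mul_left mw⟩

namespace PL

variable {K K' : Subgroup G} {e e' f : G}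

/-- `e = x⁻¹ y` for a point `y` parallel to `x` on the line `K`, and `e ^ 2` centralises `K'` -/
def Pt (D : Set G) (x : G) (K K' : Subgroup G) (e : G) : Prop :=
  ∃ y ∈ D, Par x y ∧ gn x y = K ∧ e = x⁻¹ * y ∧ K' ≤ ce (e ^ 2)

theorem Pt.facts (h : BS0 D p) (hx : x ∈ D) (he : Pt D x K K' e) :
    Good D K ∧ e ∈ P D K ∧ gen D K = K ∧ e ∈ K := by
  obtain ⟨y, hy, h1, rfl, rfl, -⟩ := he
  exact ⟨h.good_gn hx hy, (P_gn hx hy).symm ▸ h1, gen_gn hx hy,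
    mul_mem (inv_mem (left_mem_gn x y)) (right_mem_gn x y)⟩

theorem Pt.cj (h : BS0 D p) (hx' : x ∈ K') (he : Pt D x K K' e) : Pt D x K K' (x * e * x⁻¹) := by
  obtain ⟨y, hy, h1, rfl, rfl, h2⟩ := he
  have e1 : x * x * x⁻¹ = x := mul_inv_cancel_right x x
  refine ⟨x * y * x⁻¹, h.conj y hy x, ?_, ?_, by group, ?_⟩
  · have := h1.cj x
    rwa [e1] at this
  · have := cj_gn x y x
    rw [e1, cj_eq_of_mem (left_mem_gn x y)] at this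
    exact this.symm
  · rwa [conj_pow, (mem_ce.1 (h2 hx')).mul_inv_cancel]

theorem Pt.mix (h : BS0 D p) (hx : x ∈ D) (he : Pt D x K K' e) (hf : Pt D x K' K f) :
    ⁅e, f⁆ ^ 2 = 1 ∧ K ≤ ce ⁅e, f⁆ ∧ K' ≤ ce ⁅e, f⁆ := by
  have eK := (he.facts h hx).2.2.2
  have fK := (hf.facts h hx).2.2.2
  obtain ⟨y, hy, h1, rfl, e1, h2⟩ := he
  obtain ⟨w, hw, h3, rfl, e2, h4⟩ := hf
  obtain ⟨c1, c2, c3⟩ := h.c1 hx hy hw h1 h3 (e1 ▸ (mem_ce.1 (h2 (right_mem_gn x w))).symm)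
    (e2 ▸ (mem_ce.1 (h4 (right_mem_gn x y))).symm)
  rw [← e1, ← e2] at c1 c2 c3
  have l1 : gn x y ≤ ce ⁅e, f⁆ := gn_le (mem_ce.2 c1.symm) (mem_ce.2 c2.symm)
  refine ⟨?_, l1, gn_le (mem_ce.2 c1.symm) (mem_ce.2 c3.symm)⟩
  have e3 := (mem_ce.1 (l1 eK)).mul_inv_cancel
  have e4 := (mem_ce.1 (h2 fK)).inv_right.mul_inv_cancel
  calc ⁅e, f⁆ ^ 2 = e * ⁅e, f⁆ * e⁻¹ * ⁅e, f⁆ := by rw [e3, pow_two]
    _ = e ^ 2 * (f * (e ^ 2)⁻¹ * f⁻¹) := by rw [commutatorElement_def, pow_two]; group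
    _ = 1 := by rw [e4, mul_inv_cancel]

theorem Pt.same (h : BS0 D p) (hx : x ∈ D) (he : Pt D x K K' e) (he' : Pt D x K K' e') :
    ⁅e, e'⁆ ^ 2 = 1 ∧ K ≤ ce ⁅e, e'⁆ ∧ ∀ f, Pt D x K' K f → Commute ⁅e, e'⁆ f := by
  obtain ⟨g1, g2, g3, g4⟩ := he.facts h hx
  obtain ⟨-, g5, -, g6⟩ := he'.facts h hx
  have hz := h.comm_mem g1 g2 g5
  refine ⟨h.Z_sq g1 hz, fun k hk => mem_ce.2 (Z_le_cent hz k (g3.symm ▸ hk)), fun f hf => ?_⟩
  have fK := (hf.facts h hx).2.2.2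
  obtain ⟨-, a1, a2⟩ := he.mix h hx hf
  obtain ⟨-, b1, -⟩ := he'.mix h hx hf
  have s1 := (mem_ce.1 (a1 g4)).symm.inv_left
  have s2 := (mem_ce.1 (a1 g6)).symm.inv_left
  have s3 := (mem_ce.1 (a2 fK)).symm.inv_left
  have t1 := (mem_ce.1 (b1 g4)).symm.inv_left
  have t2 := (mem_ce.1 (b1 g6)).symm.inv_left
  have k : ∀ c : G, f * c * f⁻¹ = ⁅c, f⁆⁻¹ * c := fun c => by rw [commutatorElement_def]; group
  have e1 : f * ⁅e, e'⁆ * f⁻¹ = ⁅e, e'⁆ := by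
    rw [conjugate_commutatorElement, k e, cl s1 ((s3.mul_right s2).mul_right s3.inv_right), k e',
      cr t1 t2]
  exact (mul_inv_eq_iff_eq_mul.1 e1).symm

theorem two (h : BS0 D p) (hx : x ∈ D) :
    IsPGroup 2 (closure {e | Pt D x K K' e ∨ Pt D x K' K e}) := by
  refine two_of_class2 ?_ ?_
  · rintro a (ha | ha) <;> exact h.pow4 (ha.facts h hx).1 (ha.facts h hx).2.1
  · rintro a (ha | ha) b (hb | hb)
    · obtain ⟨h1, h2, h3⟩ := ha.same h hx hb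
      refine ⟨h1, ?_⟩
      rintro c (hc | hc)
      exacts [(mem_ce.1 (h2 (hc.facts h hx).2.2.2)).symm, h3 c hc]
    · obtain ⟨h1, h2, h3⟩ := ha.mix h hx hb
      refine ⟨h1, ?_⟩
      rintro c (hc | hc)
      exacts [(mem_ce.1 (h2 (hc.facts h hx).2.2.2)).symm, (mem_ce.1 (h3 (hc.facts h hx).2.2.2)).symm]
    · obtain ⟨h1, h2, h3⟩ := ha.mix h hx hb
      refine ⟨h1, ?_⟩
      rintro c (hc | hc)
      exacts [(mem_ce.1 (h3 (hc.facts h hx).2.2.2)).symm, (mem_ce.1 (h2 (hc.facts h hx).2.2.2)).symm]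
    · obtain ⟨h1, h2, h3⟩ := ha.same h hx hb
      refine ⟨h1, ?_⟩
      rintro c (hc | hc)
      exacts [h3 c hc, (mem_ce.1 (h2 (hc.facts h hx).2.2.2)).symm]

theorem exists_pt (h : BS0 D p) (hx : x ∈ D) (hy : y ∈ D) (ha : a ∈ W (gn x y)) (ha1 : a ^ 2 ≠ 1)
    (haw : Commute (a ^ 2) w) :
    ∃ e, Pt D x (gn x y) (gn x w) e ∧ ∀ X : Subgroup G, e ∈ X → gn x y ≤ X ⊔ zpowers x := by
  have hg := h.good_gn hx hy
  obtain ⟨y', hy', hm, hp, z, hz, e1⟩ := h.dec_P hg hx (left_mem_gn x y) ((P_gn hx hy).symm ▸ ha)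
  have c1 := (mem_Z.1 hz).2
  have c2 : Commute (x⁻¹ * y') z :=
    ((c1 x hx (left_mem_gn x y)).inv_right.mul_right (c1 y' hy' hm)).symm
  have e2 : a ^ 2 = (x⁻¹ * y') ^ 2 := by rw [e1, c2.mul_pow, h.Z_sq hg hz, mul_one]
  have hne : x ≠ y' := by
    rintro rfl
    exact ha1 (by rw [e2, inv_mul_cancel, one_pow])
  have e3 := h.line x hx y hy x hx y' hy' (left_mem_gn x y) hm (h.not_mem_of_par hx hy' hp hne)
  refine ⟨x⁻¹ * y', ⟨y', hy', hp, e3, rfl, ?_⟩, fun X hX => ?_⟩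
  · rw [← e2]
    exact gn_le (mem_ce.2 (h.sq x hx y hy a ha).symm) (mem_ce.2 haw.symm)
  · rw [← e3]
    refine gn_le (mem_sup_right (mem_zpowers x)) ?_
    have := mul_mem (mem_sup_right (S := X) (mem_zpowers x)) (mem_sup_left hX)
    rwa [mul_inv_cancel_left] at this

end PL

theorem BS0.plane (h : BS0 D p) (hx : x ∈ D) (hy : y ∈ D) (hw : w ∈ D) (ha : a ∈ W (gn x y))
    (hb : b ∈ W (gn x w)) (ha1 : a ^ 2 ≠ 1) (hb1 : b ^ 2 ≠ 1) (haw : Commute (a ^ 2) w)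
    (hby : Commute (b ^ 2) y) : Good D (gn x y ⊔ gn x w) := by
  obtain ⟨e, he, h1⟩ := PL.exists_pt h hx hy ha ha1 haw
  obtain ⟨f, hf, h2⟩ := PL.exists_pt h hx hw hb hb1 hby
  refine good_of_norm (x := x) (PL.two (K := gn x y) (K' := gn x w) h hx)
    (mem_normalizer_of_cj_le (cj_le_iff.2 ((closure_le _).2 fun s hs => ?_)))
    (gen_le.trans (sup_le (h1 _ (subset_closure (Or.inl he))) (h2 _ (subset_closure (Or.inr hf)))))
  refine mem_cj.2 ?_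
  rw [inv_inv]
  exact subset_closure (hs.imp (PL.Pt.cj h (left_mem_gn x w)) (PL.Pt.cj h (left_mem_gn x y)))

end H83.CYB
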