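import Mathlib
import Cfsg.Agent.Lib.CYB.PL

/-! See `blueprint/CYB/README.md`. -/

set_option autoImplicit false
set_option linter.unusedSectionVars false
set_option linter.unusedVariables false

namespace H83.CYB

open Subgroup H69 H45.DSC
open scoped commutatorElement

variable {G : Type} [Group G] [Finite G] {D : Set G} {p : ℕ} {L L' M M' E X N : Subgroup G}
  {x y w v u z t c g a b r : G}

private theorem C2_left {e : G} (h : Commute z b) : ⁅e * z, b⁆ = ⁅e, b⁆ := by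
  rw [commutatorElement_mul_left_eq_conj_mul, h.commutator_eq]; simp

private theorem C2_right {e f : G} (h : Commute z e) : ⁅e, f * z⁆ = ⁅e, f⁆ := by
  rw [← commutatorElement_inv, C2_left h, commutatorElement_inv]

private theorem C2_cent (h : ∀ v ∈ D, v ∈ L → Commute t v) : t ∈ 𝐂(gen D L) := fun _ ha =>
  mem_ce.1 (gen_le_iff.2 (fun v hv hl => mem_ce.2 (h v hv hl).symm) ha)

private theorem C2_x (h : BS0 D p) (hg : Good D L) (hg' : Good D L') (hx : x ∈ D) (hl : x ∈ L)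
    (hl' : x ∈ L') (h1 : Z D L ≤ 𝐂(gen D L')) (h2 : Z D L' ≤ 𝐂(gen D L)) (ha : a ∈ P D L)
    (hb : b ∈ P D L') : Commute ⁅a, b⁆ x := by
  obtain ⟨y, hy, hyl, py, z, hz, rfl⟩ := h.dec_P hg hx hl ha
  have he := py.mem_P hx hy hl hyl
  rw [C2_left (h1 hz b (P_le_gen hb)).symm]
  obtain ⟨w, hw, hwl, pw, z', hz', rfl⟩ := h.dec_P hg' hx hl' hb
  rw [C2_right (h2 hz' _ (P_le_gen he)).symm]
  exact (h.c1 hx hy hw py pw (h1 (h.sq_mem hg he) w (mem_gen hw hwl)).symm
    (h2 (h.sq_mem hg' (pw.mem_P hx hw hl' hwl)) y (mem_gen hy hyl)).symm).1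

private theorem C2_all (h : BS0 D p) (hx : x ∈ D) (hl : x ∈ L) (hc : ∀ a ∈ P D L, Commute ⁅a, b⁆ x)
    (ha : a ∈ P D L) : ⁅a, b⁆ ∈ 𝐂(gen D L) := by
  refine C2_cent fun v hv hvl => ?_
  obtain ⟨y, hyv, hy, py⟩ := h.par x hx v hv
  obtain ⟨r, hr, e⟩ := h.conj_of_par hx hy py
  have hyl : y ∈ L := zpowers_le.2 hvl hyv
  have hle := gn_le (mem_gen hx hl) (mem_gen hy hyl)
  have hr' : r ∈ P D L := commutator_mono hle hle hr
  have h1 := ((hc _ (mul_mem (inv_mem hr') ha)).mul_left (hc _ (inv_mem hr')).inv_left).conj r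
  rw [commutatorElement_mul_left_eq_conj_mul, ← e, mul_inv_cancel_right] at h1
  have h2 : Commute ⁅a, b⁆ y := by simpa [mul_assoc] using h1
  have h3 : v ∈ zpowers y := by rw [h.zp_eq hv hyv (h.ne_one hy)]; exact mem_zpowers v
  obtain ⟨n, rfl⟩ := h3
  exact h2.zpow_right n

theorem BS0.c2 (h : BS0 D p) (hg : Good D L) (hg' : Good D L') (hx : x ∈ D) (hl : x ∈ L)
    (hl' : x ∈ L') (h1 : Z D L ≤ 𝐂(gen D L')) (h2 : Z D L' ≤ 𝐂(gen D L)) :
    Good D (gen D L ⊔ gen D L') := by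
  have c1 : ∀ a ∈ P D L, ∀ b ∈ P D L', ⁅a, b⁆ ∈ 𝐂(gen D L) := fun a ha b hb =>
    C2_all h hx hl (fun a ha => C2_x h hg hg' hx hl hl' h1 h2 ha hb) ha
  have c2 : ∀ a ∈ P D L, ∀ b ∈ P D L', ⁅a, b⁆ ∈ 𝐂(gen D L') := fun a ha b hb => by
    rw [← commutatorElement_inv]
    exact inv_mem (C2_all h hx hl' (fun b hb => C2_x h hg' hg hx hl' hl h2 h1 hb ha) hb)
  have t1 : gen D L ≤ 𝐂(⁅P D L, P D L'⁆) := le_centralizer_iff.1 (commutator_le.2 c1)
  have t2 : gen D L' ≤ 𝐂(⁅P D L, P D L'⁆) := le_centralizer_iff.1 (commutator_le.2 c2)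
  have t3 : ⁅P D L, P D L'⁆ ≤ 𝐂(⁅P D L, P D L'⁆) :=
    commutator_le_of_le (P_le_gen.trans t1) (P_le_gen.trans t2)
  have hT : IsPGroup 2 (⁅P D L, P D L'⁆ : Subgroup G) := by
    refine two_of_class2 ?_ fun s hs s' hs' => ?_
    · rintro _ ⟨a, ha, b, hb, rfl⟩
      have e : ⁅a, b⁆ ^ 2 = 1 := by
        have e1 : Commute (a ^ 2) b := (h1 (h.sq_mem hg ha) b (P_le_gen hb)).symm
        have e2 := e1.commutator_eq
        rwa [pow_two, commutatorElement_mul_left_eq_conj_mul, c1 a ha b hb a (P_le_gen ha), mul_inv_cancel_right,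
          ← pow_two] at e2
      rw [show 4 = 2 * 2 from rfl, pow_mul, e, one_pow]
    · have e : Commute s' s := t3 (subset_closure hs) s' (subset_closure hs')
      rw [e.symm.commutator_eq]
      exact ⟨one_pow _, fun _ _ => Commute.one_left _⟩
  have n1 := le_normalizer_of_le_centralizer t1
  have n2 := le_normalizer_of_le_centralizer t2
  have n3 : P D L ≤ 𝐍(P D L' ⊔ ⁅P D L, P D L'⁆) := le_normalizer_of_cj_le fun a ha => by
    rw [cj_sup, cj_eq_of_mem_normalizer (n1 (P_le_gen ha))]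
    refine sup_le (fun s hs => ?_) le_sup_right
    obtain ⟨b, hb, rfl⟩ := mem_cj'.1 hs
    have := mul_mem (mem_sup_right (commutator_mem_commutator ha hb) : _ ∈ P D L' ⊔ _) (mem_sup_left hb)
    rwa [commutatorElement_def, inv_mul_cancel_right] at this
  have x1 : zpowers x ≤ gen D L := zpowers_le.2 (mem_gen hx hl)
  have x2 : zpowers x ≤ gen D L' := zpowers_le.2 (mem_gen hx hl')
  refine good_of_norm (x := x) (isPGroup_sup_of_le_normalizer_right hg
    (isPGroup_sup_of_le_normalizer_right hg' hT (P_le_gen.trans n2)) n3)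
    (H69.le_normalizer_sup (x1.trans (le_normalizer.trans norm_P)) (H69.le_normalizer_sup
      (x2.trans (le_normalizer.trans norm_P)) (x1.trans n1)) (mem_zpowers x)) (gen_le.trans (sup_le ?_ ?_))
  · exact (h.gen_eq hx hl).le.trans (sup_le_sup_right le_sup_left _)
  · exact (h.gen_eq hx hl').le.trans (sup_le_sup_right (le_sup_of_le_right le_sup_left) _)

theorem BS0.g2 (h : BS0 D p) (hg : Good D L) (hx : x ∈ D) (hl : x ∈ L) (hw : w ∈ D)
    (hpl : ∀ y ∈ D, y ∈ L → Good D (gn x y ⊔ gn x w)) : Good D (gen D L ⊔ gn x w) := by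
  have := h.c2 hg (h.good_gn hx hw) hx hl (left_mem_gn x w) (h.Z_le_of_sq hg fun a ha => ?_) fun z hz => ?_
  · rwa [gen_gn hx hw] at this
  · obtain ⟨y, hy, hyl, py, z, hz, rfl⟩ := h.dec_P hg hx hl ha
    have e : Commute (x⁻¹ * y) z := Z_le_cent hz _ (P_le_gen (py.mem_P hx hy hl hyl))
    rw [e.mul_pow, h.Z_sq hg hz, mul_one]
    exact centralizer_anti (gen_mono le_sup_right) (Z_le_cent (h.Z_mono (hpl y hy hyl) (gen_le.trans le_sup_left)
      (h.sq_mem (h.good_gn hx hy) (py.mem_P hx hy (left_mem_gn x y) (right_mem_gn x y)))))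
  · exact C2_cent fun y hy hyl => (mem_Z.1 (h.Z_mono (hpl y hy hyl) (gen_le.trans le_sup_right) hz)).2 y hy
      (mem_sup_left (right_mem_gn x y))

end H83.CYB
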