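import Mathlib
import Cfsg.Agent.Lib.CYB.A4

/-! See `blueprint/CYB/README.md`. -/

set_option autoImplicit false
set_option linter.unusedSectionVars false
set_option linter.unusedVariables false

namespace H83.CYB

open Subgroup H69 H45.DSC
open scoped commutatorElement

variable {G : Type} [Group G] [Finite G] {D : Set G} {p : ℕ} {L L' M M' E X N : Subgroup G}
  {x y w v u z t c g a b r : G}

private theorem fixU {J U : Subgroup G} (hsq : ∀ a ∈ J, a ^ 2 ∈ U) (n : ℕ) :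
    ∀ g : G, g ∈ 𝐍(J) → g ^ 2 ^ n = 1 → (∃ a ∈ J, a ∉ U) → ∃ a ∈ J, a ∉ U ∧ ⁅g, a⁆ ∈ U := by
  induction n with
  | zero =>
    rintro g - h1 ⟨a, ha, hn⟩
    rw [pow_zero, pow_one] at h1
    exact ⟨a, ha, hn, by rw [h1, commutatorElement_one_left]; exact one_mem _⟩
  | succ n ih =>
    intro g hg h1 hex
    obtain ⟨a, ha, hn, h2⟩ := ih (g ^ 2) (pow_mem hg 2) (by rw [← pow_mul, ← pow_succ']; exact h1) hex
    by_cases h3 : ⁅g, a⁆ ∈ U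
    · exact ⟨a, ha, hn, h3⟩
    · have hj : ⁅g, a⁆ ∈ J := by
        rw [commutatorElement_def]
        exact mul_mem ((mem_normalizer_iff.1 hg a).1 ha) (inv_mem ha)
      refine ⟨⁅g, a⁆, hj, h3, ?_⟩
      have e : ⁅g, ⁅g, a⁆⁆ = ⁅g ^ 2, a⁆ * (⁅g, a⁆ ^ 2)⁻¹ := by
        simp only [commutatorElement_def, sq]; group
      rw [e]
      exact mul_mem h2 (inv_mem (hsq _ hj))

private theorem zcomm (hz : z ∈ Z D L) (ha : a ∈ gen D L) : a * z = z * a :=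
  mem_centralizer_iff.1 (Z_le_cent hz) a ha

private theorem zconj (hz : z ∈ Z D L) (ha : a ∈ gen D L) : a * z * a⁻¹ = z := by
  rw [zcomm hz ha, mul_inv_cancel_right]

/-- the elements of `U` whose commutators with `U` lie in `E` -/
private def XX (h : BS0 D p) (hg : Good D L) (U E : Subgroup G) (hU : U ≤ P D L) : Subgroup G where
  carrier := {t | t ∈ U ∧ ∀ j ∈ U, ⁅t, j⁆ ∈ E}
  one_mem' := ⟨one_mem _, fun j _ => by rw [commutatorElement_one_left]; exact one_mem _⟩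
  mul_mem' := by
    rintro s t ⟨hs, hs'⟩ ⟨ht, ht'⟩
    refine ⟨mul_mem hs ht, fun j hj => ?_⟩
    have e : ⁅s * t, j⁆ = s * ⁅t, j⁆ * s⁻¹ * ⁅s, j⁆ := by simp only [commutatorElement_def]; group
    rw [e, zconj (h.comm_mem hg (hU ht) (hU hj)) (P_le_gen (hU hs))]
    exact mul_mem (ht' j hj) (hs' j hj)
  inv_mem' := by
    rintro t ⟨ht, ht'⟩
    refine ⟨inv_mem ht, fun j hj => ?_⟩
    have e : ⁅t⁻¹, j⁆ = (t⁻¹ * ⁅t, j⁆ * t⁻¹⁻¹)⁻¹ := by simp only [commutatorElement_def]; group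
    rw [e, zconj (h.comm_mem hg (hU ht) (hU hj)) (inv_mem (P_le_gen (hU ht)))]
    exact inv_mem (ht' j hj)

private theorem mem_U (h : BS0 D p) (hg : Good D L) :
    a ∈ V (P D L) g ↔ a ∈ P D L ∧ ⁅g, a⁆ ∈ Z D L := by
  rw [mem_V, h.Z_eq hg]

private theorem U_cj (h : BS0 D p) (hg : Good D L) (hy : y ∈ gen D L) (hc : Commute g y)
    (ha : a ∈ V (P D L) g) : y * a * y⁻¹ ∈ V (P D L) g := by
  rw [mem_U h hg] at ha ⊢
  refine ⟨(mem_normalizer_iff.1 (norm_P (le_normalizer hy)) a).1 ha.1, ?_⟩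
  have e1 : g * y = y * g := hc.eq
  have e2 : y⁻¹ * g⁻¹ = g⁻¹ * y⁻¹ := by rw [← mul_inv_rev, e1, mul_inv_rev]
  have e : ⁅g, y * a * y⁻¹⁆ = y * ⁅g, a⁆ * y⁻¹ := by
    simp only [commutatorElement_def]
    calc g * (y * a * y⁻¹) * g⁻¹ * (y * a * y⁻¹)⁻¹
        = (g * y) * a * (y⁻¹ * g⁻¹) * (y * a⁻¹ * y⁻¹) := by group
      _ = (y * g) * a * (g⁻¹ * y⁻¹) * (y * a⁻¹ * y⁻¹) := by rw [e1, e2]
      _ = y * (g * a * g⁻¹ * a⁻¹) * y⁻¹ := by group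
  rw [e, zconj ha.2 hy]
  exact ha.2

private theorem XX_cj (h : BS0 D p) (hg : Good D L) (hU : V (P D L) g ≤ P D L) (hy : y ∈ gen D L)
    (hc : Commute g y) (ht : t ∈ XX h hg (V (P D L) g) E hU) :
    y * t * y⁻¹ ∈ XX h hg (V (P D L) g) E hU := by
  obtain ⟨ht, ht'⟩ := ht
  refine ⟨U_cj h hg hy hc ht, fun j hj => ?_⟩
  have hj' := U_cj h hg (inv_mem hy) hc.inv_right hj
  have e : ⁅y * t * y⁻¹, j⁆ = y * ⁅t, y⁻¹ * j * y⁻¹⁻¹⁆ * y⁻¹ := by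
    simp only [commutatorElement_def]; group
  rw [e, zconj (h.comm_mem hg (hU ht) (hU hj')) hy]
  exact ht' _ hj'

private theorem key (h : BS0 D p) (hg : Good D L) (hn : g ∈ 𝐍(gen D L)) (ha : a ∈ P D L)
    (hb : b ∈ V (P D L) g) : ⁅⁅g, a⁆, b⁆ = ⁅g, ⁅a, b⁆⁆ := by
  rw [mem_U h hg] at hb
  have hj : ⁅g, a⁆ ∈ P D L := by
    rw [commutatorElement_def]
    exact mul_mem ((mem_normalizer_iff.1 (norm_P hn) a).1 ha) (inv_mem ha)
  have e : ⁅g, ⁅a, b⁆⁆ = ⁅⁅g, a⁆ * a, ⁅g, b⁆ * b⁆ * ⁅a, b⁆⁻¹ := by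
    simp only [commutatorElement_def]; group
  have hab := h.comm_mem hg ha hb.1
  have hjb := h.comm_mem hg hj hb.1
  rw [e]
  obtain ⟨hb, hz⟩ := hb
  generalize ⁅g, a⁆ = j at hj hjb ⊢
  generalize ⁅g, b⁆ = z at hz ⊢
  have hja : j * a ∈ gen D L := P_le_gen (mul_mem hj ha)
  have e1 : ⁅j * a, z * b⁆ = ⁅j * a, b⁆ := by
    have e2 : ⁅j * a, z * b⁆ = (j * a * z) * b * (j * a)⁻¹ * b⁻¹ * z⁻¹ := by
      simp only [commutatorElement_def]; group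
    have e3 : z * ⁅j * a, b⁆ * z⁻¹ = ⁅j * a, b⁆ := by
      rw [← zcomm hz (P_le_gen (Z_le_P (h.comm_mem hg (mul_mem hj ha) hb))), mul_inv_cancel_right]
    rw [e2, zcomm hz hja, ← e3]
    simp only [commutatorElement_def]; group
  have e4 : ⁅j * a, b⁆ = j * ⁅a, b⁆ * j⁻¹ * ⁅j, b⁆ := by simp only [commutatorElement_def]; group
  rw [e1, e4, zconj hab (P_le_gen hj), zconj hjb (P_le_gen (Z_le_P hab))]

theorem BS0.cw (h : BS0 D p) (hg : Good D L) (hx : x ∈ D) (hl : x ∈ L) (hc : Commute g x)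
    (hn : g ∈ 𝐍(gen D L)) (h2 : IsPGroup 2 (zpowers g)) (hE : ∀ z ∈ Z D L, ⁅g, z⁆ ∈ E) :
    g ∈ 𝐂(gen D L) ∨ ∃ a ∈ P D L, a ∉ Z D L ∧ a ^ 2 ∈ E := by
  by_cases hz : ∀ a ∈ P D L, ⁅g, a⁆ ∈ Z D L
  · exact Or.inl (h.cent_of_comm_Z hg hx hl hc hz)
  right
  have hU : V (P D L) g ≤ P D L := fun a ha => ha.1
  have hxg : x ∈ gen D L := mem_gen hx hl
  obtain ⟨n, hgn⟩ : ∃ n : ℕ, g ^ 2 ^ n = 1 := by
    obtain ⟨n, hn⟩ := h2 ⟨g, mem_zpowers g⟩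
    exact ⟨n, by simpa using congrArg Subtype.val hn⟩
  have hsq : ∀ a ∈ P D L, a ^ 2 ∈ V (P D L) g := fun a ha => by
    have h1 := h.sq_mem hg ha
    rw [mem_U h hg, commutatorElement_def]
    exact ⟨Z_le_P h1, mul_mem ((mem_normalizer_iff.1 (norm_Z hn) _).1 h1) (inv_mem h1)⟩
  obtain ⟨a, ha, hna, hj⟩ := fixU hsq n g (norm_P hn) hgn (by
    by_contra hcon
    refine hz fun a ha => ((mem_U h hg).1 ?_).2
    by_contra h1
    exact hcon ⟨a, ha, h1⟩)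
  have hjZ : ⁅g, a⁆ ∉ Z D L := fun h1 => hna ((mem_U h hg).2 ⟨ha, h1⟩)
  have hjX : ⁅g, a⁆ ∈ XX h hg (V (P D L) g) E hU := ⟨hj, fun b hb => by
    rw [key h hg hn ha hb]
    exact hE _ (h.comm_mem hg ha (hU hb))⟩
  have hXn : x ∈ 𝐍(XX h hg (V (P D L) g) E hU) := by
    refine mem_normalizer_iff.2 fun t => ⟨XX_cj h hg hU hxg hc, fun ht => ?_⟩
    have := XX_cj h hg hU (inv_mem hxg) hc.inv_right ht
    simpa [mul_assoc] using this
  have hXP : XX h hg (V (P D L) g) E hU ≤ P D L := fun t ht => hU ht.1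
  have hXE : W (XX h hg (V (P D L) g) E hU) ≤ E :=
    commutator_le.2 fun s hs t ht => hs.2 t ht.1
  generalize XX h hg (V (P D L) g) E hU = X at hjX hXn hXP hXE
  have hX2 : IsPGroup 2 X := IsPGroup.to_le hg hXP
  have ho := h.odd_ord hx
  obtain ⟨b, hb, c, hcX, hcx, he⟩ := cm_split ho hX2 hXn hjX
  have hcZ : c ∈ Z D L := h.cz hg hx hl (hXP hcX) hcx
  have hbP : b ∈ P D L := hXP (cm_le hXn hb)
  refine ⟨b, hbP, fun hbZ => hjZ (he ▸ mul_mem hbZ hcZ), ?_⟩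
  have h3 : cm X x ⊓ 𝐂(zpowers x) ≤ W (cm X x) :=
    H2.inf_centralizer_le_commutator (zpowers_le_of_mem (norm_cm hXn))
      (C1.cop ho (hX2.to_le (cm_le hXn))) (cm_cm ho hX2 hXn).ge
  refine hXE (commutator_mono (cm_le hXn) (cm_le hXn) (h3 ⟨pow_mem hb 2, ?_⟩))
  exact mem_ce.2 ((mem_Z.1 (h.sq_mem hg hbP)).2 x hx hl)

theorem BS0.cw0 (h : BS0 D p) (hg : Good D L) (hx : x ∈ D) (hl : x ∈ L) (hc : Commute g x)
    (hn : g ∈ 𝐍(gen D L)) (h2 : IsPGroup 2 (zpowers g)) (hE : ∀ z ∈ Z D L, Commute g z) :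
    g ∈ 𝐂(gen D L) := by
  rcases h.cw (E := ⊥) hg hx hl hc hn h2 (fun z hz => by
    rw [mem_bot]; exact commutatorElement_eq_one_iff_commute.2 (hE z hz)) with h1 | ⟨a, ha, hna, h1⟩
  · exact h1
  · exact absurd (h.om1 hg ha (mem_bot.1 h1)) hna

end H83.CYB
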