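import Mathlib
import Cfsg.Agent.Lib.CYB.A4

/-! See `blueprint/CYB/README.md`. -/

set_option autoImplicit false
set_option linter.unusedSectionVars false
set_option linter.unusedVariables false

namespace H83.CYB

open Subgroup H69 H45.DSC
open scoped commutatorElement

variable {G : Type} [Group G] [Finite G] {D : Set G} {p : ℕ} {L L' M M' E X N : Subgroup G}
  {x y w v u z t c g a b r : G}

/-- the group `T` of the lemma FX -/
def TT (D : Set G) (E M M' : Subgroup G) : Subgroup G :=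
  P D (gen D M ⊓ gen D M') ⊔ ((Z D M ⊓ 𝐍(gen D M')) ⊔ (Z D M' ⊓ 𝐍(gen D M))) ⊔ E

theorem TT_comm (D : Set G) (E M M' : Subgroup G) : TT D E M M' = TT D E M' M := by
  unfold TT; rw [inf_comm (gen D M), sup_comm (Z D M ⊓ _)]

private theorem ZJ (h : BS0 D p) (hM : Bk D E M) (hM' : Bk D E M') (hZ : Z D M ⊓ Z D M' ≤ E) :
    Good D (gen D M ⊓ gen D M') ∧ Z D (gen D M ⊓ gen D M') ≤ E := by
  have l1 : gen D (gen D M ⊓ gen D M') ≤ M := gen_le.trans (inf_le_left.trans gen_le)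
  have l2 : gen D (gen D M ⊓ gen D M') ≤ M' := gen_le.trans (inf_le_right.trans gen_le)
  exact ⟨hM.good.of_le l1, (le_inf (h.Z_mono hM.good l1) (h.Z_mono hM'.good l2)).trans hZ⟩

private theorem nrm (h : BS0 D p) (hM : Bk D E M) (hM' : Bk D E M') (hv : v ∈ Z D M') (hvE : v ∉ E)
    (hz : z ∈ Z D M) (hc : ⁅z, v⁆ ∈ E) : z ∈ 𝐍(gen D M') := by
  rw [← hM'.max v hv hvE]
  exact h.norm_gen (norm_of_comm_mem (hM.le (P_le_gen (Z_le_P hz))) hc)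

theorem BS0.fx_key (h : BS0 D p) (hM : Bk D E M) (hM' : Bk D E M') (hx : x ∈ D) (h1 : x ∈ M)
    (h2 : x ∈ M') (hZ : Z D M ⊓ Z D M' ≤ E) (hv : v ∈ Z D M') (hvn : v ∈ 𝐍(gen D M))
    (hvE : v ∉ E) (ha : a ∈ P D M) :
    ∃ y ∈ D, y ∈ gen D M ⊓ gen D M' ∧ Par x y ∧ ∃ ω ∈ Z D M ⊓ 𝐍(gen D M'),
      ⁅v, a⁆ = x⁻¹ * y * ω := by
  obtain ⟨gJ, zJ⟩ := ZJ h hM hM' hZ
  have v2 : v * v = 1 := by rw [← pow_two]; exact h.Z_sq hM'.good hv
  have vi : v⁻¹ = v := inv_eq_of_mul_eq_one_right v2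
  have vx : v * x = x * v := (mem_Z.1 hv).2 x hx h2
  have hj : ⁅v, a⁆ ∈ P D M := by
    rw [commutatorElement_def]
    exact mul_mem (conj_mem_of_mem_normalizer (norm_P hvn) ha) (inv_mem ha)
  have jv : v * ⁅v, a⁆ * v⁻¹ = ⁅v, a⁆⁻¹ := by
    rw [commutatorElement_inv, commutatorElement_def, commutatorElement_def, vi]
    calc v * (v * a * v * a⁻¹) * v = (v * v) * (a * v * a⁻¹ * v) := by group
      _ = _ := by rw [v2, one_mul]
  obtain ⟨y, hy, yM, pxy, ω, hω, e⟩ := h.dec_P hM.good hx h1 hj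
  have j2 := h.sq_mem hM.good hj
  generalize ⁅v, a⁆ = j at hj jv e j2 ⊢
  have hω' : ω * (j ^ 2)⁻¹ * (v * ω * v⁻¹)⁻¹ ∈ Z D M :=
    mul_mem (mul_mem hω (inv_mem j2)) (inv_mem (conj_mem_of_mem_normalizer (norm_Z hvn) hω))
  have e1 : v * y * v⁻¹ = y * (ω * (j ^ 2)⁻¹ * (v * ω * v⁻¹)⁻¹) := by
    have e2 : y = x * j * ω⁻¹ := by rw [e]; group
    calc v * y * v⁻¹ = (v * x) * v⁻¹ * (v * j * v⁻¹) * (v * ω * v⁻¹)⁻¹ := by rw [e2]; group
      _ = x * j * ω⁻¹ * (ω * (j ^ 2)⁻¹ * (v * ω * v⁻¹)⁻¹) := by rw [vx, jv]; group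
      _ = _ := by rw [← e2]
  have vy : v * y = y * v := by
    generalize ω * (j ^ 2)⁻¹ * (v * ω * v⁻¹)⁻¹ = η at hω' e1
    have c1 : Commute y η := ((mem_Z.1 hω').2 y hy yM).symm
    have yp : y ^ p = 1 := by rw [← h.ord y hy]; exact pow_orderOf_eq_one y
    have e3 : η ^ p = 1 := by
      have := congrArg (· ^ p) e1
      simp only [conj_pow, c1.mul_pow, yp, mul_one, mul_inv_cancel, one_mul] at this
      exact this.symm
    obtain ⟨k, hk⟩ := h.od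
    rw [hk, pow_succ, pow_mul, h.Z_sq hM.good hω', one_pow, one_mul] at e3
    rw [e3, mul_one] at e1
    exact mul_inv_eq_iff_eq_mul.1 e1
  have yG : y ∈ gen D M := mem_gen hy yM
  have yG' : y ∈ gen D M' := by
    rw [← hM'.max v hv hvE]
    exact mem_gen hy ⟨hM.le yG, mem_ce.2 vy.symm⟩
  refine ⟨y, hy, ⟨yG, yG'⟩, pxy, ω, ⟨hω, nrm h hM hM' hv hvE hω ?_⟩, e⟩
  have c0 : x⁻¹ * y ∈ P D (gen D M ⊓ gen D M') :=
    pxy.mem_P hx hy ⟨mem_gen hx h1, mem_gen hx h2⟩ ⟨yG, yG'⟩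
  have cv : v * (x⁻¹ * y) = (x⁻¹ * y) * v := by
    calc v * (x⁻¹ * y) = x⁻¹ * (x * v) * x⁻¹ * y := by group
      _ = x⁻¹ * (v * y) := by rw [← vx]; group
      _ = _ := by rw [vy, mul_assoc]
  have cω : (x⁻¹ * y) * ω = ω * (x⁻¹ * y) :=
    Z_le_cent hω _ (mul_mem (inv_mem (mem_gen hx h1)) yG)
  have ω2 : ω * ω = 1 := by rw [← pow_two]; exact h.Z_sq hM.good hω
  have c2 := zJ (h.sq_mem gJ c0)
  generalize x⁻¹ * y = c at e c0 cv cω c2
  have e4 : ⁅ω, v⁆ = c ^ 2 := by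
    have e5 : v * ω * v⁻¹ = c⁻¹ * j⁻¹ := by
      rw [← jv, e]
      calc v * ω * v⁻¹ = c⁻¹ * (c * v) * ω * v⁻¹ := by group
        _ = _ := by rw [← cv]; group
    calc ⁅ω, v⁆ = ω * (v * ω * v⁻¹)⁻¹ := by rw [commutatorElement_def]; group
      _ = ω * (c * ω) * c := by rw [e5, e]; group
      _ = (ω * ω) * c ^ 2 := by rw [cω, pow_two]; group
      _ = _ := by rw [ω2, one_mul]
  rwa [e4]

theorem BS0.fx_norm (h : BS0 D p) (hM : Bk D E M) (hM' : Bk D E M') (hx : x ∈ D) (h1 : x ∈ M)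
    (h2 : x ∈ M') (hZ : Z D M ⊓ Z D M' ≤ E) (ht : t ∈ Z D M') (htn : t ∈ 𝐍(gen D M))
    (htE : t ∉ E) : P D M ≤ 𝐍(TT D E M M') := by
  obtain ⟨gJ, zJ⟩ := ZJ h hM hM' hZ
  have tJ : P D (gen D M ⊓ gen D M') ≤ TT D E M M' := le_sup_left.trans le_sup_left
  have tZ : Z D M ⊓ 𝐍(gen D M') ≤ TT D E M M' := le_sup_left.trans (le_sup_right.trans le_sup_left)
  have tZ' : Z D M' ⊓ 𝐍(gen D M) ≤ TT D E M M' := le_sup_right.trans (le_sup_right.trans le_sup_left)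
  have tE : E ≤ TT D E M M' := le_sup_right
  have xJ : x ∈ gen D M ⊓ gen D M' := ⟨mem_gen hx h1, mem_gen hx h2⟩
  refine le_normalizer_of_cj_le fun a ha => ?_
  have aE : ∀ e ∈ E, a * e * a⁻¹ = e := fun e he => conj_eq_of_mem_centralizer (hM.le (P_le_gen ha)) he
  have K : ∀ A : Subgroup G, (∀ b ∈ A, a * b * a⁻¹ ∈ TT D E M M') → A ^ᶜ a ≤ TT D E M M' := by
    intro A hA b hb
    obtain ⟨b', hb', rfl⟩ := mem_cj'.1 hb
    exact hA b' hb'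
  conv_lhs => unfold TT
  rw [cj_sup, cj_sup, cj_sup]
  refine sup_le (sup_le (K _ fun j hj => ?_) (sup_le (K _ fun b hb => ?_) (K _ fun v hv => ?_)))
    (K _ fun e he => ?_)
  · have jP : j ∈ P D M := P_le_P (gen_le.trans (inf_le_left.trans gen_le)) hj
    have jG : j ∈ gen D M ⊓ gen D M' := gen_le (P_le_gen hj)
    have hs := h.comm_mem hM.good ha jP
    obtain ⟨y, hy, yJ, pxy, ω, hω, e⟩ := h.fx_key hM hM' hx h1 h2 hZ ht htn htE ha
    have c0 : x⁻¹ * y ∈ P D (gen D M ⊓ gen D M') := pxy.mem_P hx hy xJ yJ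
    have cE := zJ (h.comm_mem gJ c0 hj)
    have cG : x⁻¹ * y ∈ gen D M := (gen_le (P_le_gen c0)).1
    generalize x⁻¹ * y = c at e c0 cE cG
    have tj : j * t = t * j := Z_le_cent ht j jG.2
    have e1 : a * j * a⁻¹ = ⁅a, j⁆ * j := by rw [commutatorElement_def]; group
    have e2 : t * a * t⁻¹ = c * ω * a := by rw [← e, commutatorElement_def]; group
    have e3 : t * ⁅a, j⁆ * t⁻¹ = c * ω * (a * j * a⁻¹) * ω⁻¹ * c⁻¹ * j⁻¹ := by
      have e4 : t * j * t⁻¹ = j := by rw [← tj]; group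
      calc t * ⁅a, j⁆ * t⁻¹ = (t * a * t⁻¹) * (t * j * t⁻¹) * (t * a * t⁻¹)⁻¹ * (t * j * t⁻¹)⁻¹ := by
            rw [commutatorElement_def]; group
        _ = _ := by rw [e2, e4]; group
    rw [e1] at e3 ⊢
    refine mul_mem (tZ ⟨hs, nrm h hM hM' ht htE hs ?_⟩) (tJ hj)
    generalize ⁅a, j⁆ = s at hs e3 ⊢
    have sG : s ∈ gen D M := P_le_gen (Z_le_P hs)
    have w1 : (s * j) * ω = ω * (s * j) := Z_le_cent hω.1 _ (mul_mem sG jG.1)
    have s1 : c * s = s * c := Z_le_cent hs _ cG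
    have e5 : t * s * t⁻¹ = s * ⁅c, j⁆ := by
      calc t * s * t⁻¹ = c * (ω * (s * j)) * ω⁻¹ * c⁻¹ * j⁻¹ := by rw [e3]; group
        _ = (c * s) * j * c⁻¹ * j⁻¹ := by rw [← w1]; group
        _ = _ := by rw [s1, commutatorElement_def]; group
    have e6 : ⁅s, t⁆ = s * ⁅c, j⁆⁻¹ * s⁻¹ := by
      calc ⁅s, t⁆ = s * (t * s * t⁻¹)⁻¹ := by rw [commutatorElement_def]; group
        _ = _ := by rw [e5]; group
    rw [e6, conj_eq_of_mem_centralizer (hM.le sG) (inv_mem cE)]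
    exact inv_mem cE
  · rw [Z_le_cent hb.1 a (P_le_gen ha), mul_inv_cancel_right]
    exact tZ hb
  · by_cases hvE : v ∈ E
    · rw [aE v hvE]; exact tE hvE
    obtain ⟨y, hy, yJ, pxy, ω, hω, e⟩ := h.fx_key hM hM' hx h1 h2 hZ hv.1 hv.2 hvE ha
    have e1 : a * v * a⁻¹ = ⁅v, a⁆⁻¹ * v := by rw [commutatorElement_def]; group
    rw [e1, e]
    exact mul_mem (inv_mem (mul_mem (tJ (pxy.mem_P hx hy xJ yJ)) (tZ hω))) (tZ' hv)
  · rw [aE e he]; exact tE he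

end H83.CYB
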