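import Mathlib
import Cfsg.Agent.Lib.CYB.Defs

/-! See `blueprint/CYB/README.md`. -/

set_option autoImplicit false
set_option linter.unusedSectionVars false
set_option linter.unusedVariables false

namespace H83.CYB

open Subgroup H69 H45.DSC
open scoped commutatorElement

variable {G : Type} [Group G] [Finite G] {D : Set G} {p : ℕ} {L L' M M' E X N : Subgroup G}
  {x y w v u z t c g a b r : G}

section

variable {H A : Type} [Group H] [AddCommGroup A]

/-- `u` and `v` act alike on `[A, v]` modulo common fixed points -/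
def KK (ρ : H →* Module.End ℤ A) (u v : H) : Prop :=
  ∀ b : A, ρ u (ρ u (b - ρ v b) - ρ v (b - ρ v b)) = ρ u (b - ρ v b) - ρ v (b - ρ v b) ∧
    ρ v (ρ u (b - ρ v b) - ρ v (b - ρ v b)) = ρ u (b - ρ v b) - ρ v (b - ρ v b)

/-- no non-trivial power of `v` has a fixed point on `[A, v]` -/
def Fr (ρ : H →* Module.End ℤ A) (v : H) : Prop :=
  ∀ g ∈ zpowers v, g ≠ 1 → ∀ b : A, ρ g (b - ρ v b) = b - ρ v b → b - ρ v b = 0

private def InA (ρ : H →* Module.End ℤ A) (v : H) (a : A) : Prop := ∃ b, a = b - ρ v b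

private theorem rmul (ρ : H →* Module.End ℤ A) (g h : H) (c : A) : ρ (g * h) c = ρ g (ρ h c) := by
  rw [map_mul]; rfl

private theorem rone (ρ : H →* Module.End ℤ A) (c : A) : ρ 1 c = c := by
  rw [map_one]; rfl

private def stab (ρ : H →* Module.End ℤ A) (c : A) : Subgroup H where
  carrier := {g | ρ g c = c}
  one_mem' := rone ρ c
  mul_mem' := fun {g h} hg hh => by
    change ρ (g * h) c = c
    rw [rmul, show ρ h c = c from hh]; exact hg
  inv_mem' := fun {g} hg => by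
    change ρ g⁻¹ c = c
    conv_lhs => rw [← show ρ g c = c from hg]
    rw [← rmul, inv_mul_cancel, rone]

private theorem fix_of (ρ : H →* Module.End ℤ A) {u v : H} (h : u ∈ zpowers v) {c : A} (k : ρ v c = c) :
    ρ u c = c :=
  (zpowers_le.2 (show v ∈ stab ρ c from k) : zpowers v ≤ stab ρ c) h

private theorem zcomm (ρ : H →* Module.End ℤ A) {u u' v : H} (h : u ∈ zpowers v) (h' : u' ∈ zpowers v) (c : A) :
    ρ u (ρ u' c) = ρ u' (ρ u c) := by
  obtain ⟨i, rfl⟩ := h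
  obtain ⟨j, rfl⟩ := h'
  rw [← rmul, ← rmul]
  exact congrArg (fun g => ρ g c) ((Commute.refl v).zpow_zpow i j).eq

private theorem InA.act {ρ : H →* Module.End ℤ A} {u v : H} (h : u ∈ zpowers v) {a : A} (k : InA ρ v a) :
    InA ρ v (ρ u a) := by
  obtain ⟨b, rfl⟩ := k
  exact ⟨ρ u b, by rw [map_sub, zcomm ρ h (mem_zpowers v)]⟩

private theorem InA.sub {ρ : H →* Module.End ℤ A} {v : H} {a a' : A} (k : InA ρ v a) (k' : InA ρ v a') :
    InA ρ v (a - a') := by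
  obtain ⟨b, rfl⟩ := k
  obtain ⟨b', rfl⟩ := k'
  exact ⟨b - b', by rw [map_sub]; abel⟩

private theorem fr0 {ρ : H →* Module.End ℤ A} {v g g' : H} (f : Fr ρ v) (h : g ∈ zpowers v) (h' : g' ∈ zpowers v)
    (ne : g ≠ g') {a : A} (k : InA ρ v a) (e : ρ g a = ρ g' a) : a = 0 := by
  obtain ⟨b, rfl⟩ := k
  refine f (g'⁻¹ * g) (mul_mem (inv_mem h') h) (fun d => ne (inv_mul_eq_one.1 d).symm) b ?_
  rw [rmul, e, ← rmul, inv_mul_cancel, rone]

private theorem kk0 {ρ : H →* Module.End ℤ A} {u v : H} (k : KK ρ u v) {a : A} (h : InA ρ v a) :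
    ρ u (ρ u a - ρ v a) = ρ u a - ρ v a ∧ ρ v (ρ u a - ρ v a) = ρ u a - ρ v a := by
  obtain ⟨b, rfl⟩ := h
  exact k b

private theorem kinj {ρ : H →* Module.End ℤ A} {u v : H} (k : KK ρ u v) (f : Fr ρ v) (v1 : v ≠ 1) {a : A}
    (h : InA ρ v a) (e : ρ u a = a) : a = 0 := by
  have h1 := (kk0 k h).2
  rw [e] at h1
  have h2 : a - ρ v a = 0 := f v (mem_zpowers v) v1 a h1
  exact fr0 f (mem_zpowers v) (one_mem _) v1 h (by rw [rone]; exact (sub_eq_zero.1 h2).symm)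

private theorem tk {ρ : H →* Module.End ℤ A} {u v w : H} (k : KK ρ u v) (e : zpowers u = zpowers w) {a : A}
    (h : InA ρ v a) : ρ v a - ρ w (ρ v a) = ρ u (a - ρ w a) := by
  have h1 := fix_of ρ (e.ge (mem_zpowers w)) (kk0 k h).1
  rw [map_sub] at h1
  rw [map_sub, zcomm ρ (e.le (mem_zpowers u)) (mem_zpowers w)]
  rw [← sub_eq_zero] at h1 ⊢
  rw [← h1]; abel

theorem ga (ρ : H →* Module.End ℤ A) {x y w w₁ w₂ : H} (hy1 : y ≠ 1) (hx1 : x ≠ 1)
    (k1 : KK ρ x y) (k2 : KK ρ w x) (k3 : KK ρ w₁ y) (k4 : KK ρ w₂ (x * y * x⁻¹))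
    (e1 : zpowers w₁ = zpowers w) (e2 : zpowers w₂ = zpowers w)
    (f1 : Fr ρ x) (f2 : Fr ρ y) (f3 : Fr ρ w) (hne : w₁ ≠ w) (b : A) : ρ y b = b := by
  have m : w ∈ zpowers w := mem_zpowers w
  have m1 : w₁ ∈ zpowers w := e1.le (mem_zpowers _)
  have m2 : w₂ ∈ zpowers w := e2.le (mem_zpowers _)
  let T : A → A := fun c => c - ρ w c
  have TI : ∀ c, InA ρ w (T c) := fun c => ⟨c, rfl⟩
  have hS : ∀ a, InA ρ y a → T (ρ y a) = ρ w₁ (T a) := fun a ha => tk k3 e1 ha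
  have hS' : ∀ a, InA ρ y a → T (ρ x (ρ y a)) = ρ w₂ (T (ρ x a)) := fun a ha => by
    have h1 : InA ρ (x * y * x⁻¹) (ρ x a) := by
      obtain ⟨c, rfl⟩ := ha
      exact ⟨ρ x c, by rw [← rmul, inv_mul_cancel_right, map_sub, rmul]⟩
    have := tk k4 e2 h1
    rwa [← rmul, inv_mul_cancel_right, rmul] at this
  have xI : ∀ a, InA ρ x (ρ x a - a) := fun a => ⟨-a, by rw [map_neg]; abel⟩
  have hL : ∀ a, InA ρ y a → T (ρ x (ρ y a) - ρ y a) = ρ w (T (ρ x a - a)) := fun a ha => by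
    have h1 := (kk0 k1 ha).1
    have h2 : ρ x (ρ y a) - ρ y a = ρ x (ρ x a - a) := by
      rw [map_sub] at h1 ⊢
      rw [← sub_eq_zero] at h1 ⊢
      rw [← neg_eq_zero, ← h1]; abel
    rw [h2]
    exact tk k2 rfl (xI a)
  have Ts : ∀ c d, T (c - d) = T c - T d := fun c d => by
    simp only [T, map_sub]; abel
  have key : ∀ a, InA ρ y a → ρ w (T (ρ x a - a)) - ρ w₂ (T (ρ x a - a)) = ρ w₂ (T a) - ρ w₁ (T a) :=
    fun a ha => by
      rw [← hL a ha, Ts, hS a ha, hS' a ha, Ts, map_sub (ρ w₂) (T (ρ x a)) (T a)]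
      abel
  have fin : ∀ a, InA ρ y a → a = 0 := fun a ha => by
    by_cases e : w₂ = w₁
    · have h1 := key a ha
      rw [e, sub_self, sub_eq_zero] at h1
      have h2 : ρ x a - a - ρ w (ρ x a - a) = 0 := fr0 f3 m m1 hne.symm (TI _) h1
      have h3 := kinj k2 f1 hx1 (xI a) (sub_eq_zero.1 h2).symm
      exact kinj k1 f2 hy1 ha (sub_eq_zero.1 h3)
    · have h1 := congrArg (ρ w) (key a ha)
      have h2 := key _ (ha.act (mem_zpowers y))
      rw [hL a ha, hS a ha, zcomm ρ m2 m, ← map_sub, h1, zcomm ρ m2 m1, ← map_sub] at h2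
      have h3 := fr0 f3 m m1 hne.symm (((TI a).act m2).sub ((TI a).act m1)) h2
      have h4 : a - ρ w a = 0 := fr0 f3 m2 m1 e (TI a) (sub_eq_zero.1 h3)
      exact kinj k3 f2 hy1 ha (fix_of ρ m1 (sub_eq_zero.1 h4).symm)
  exact (sub_eq_zero.1 (fin _ ⟨b, rfl⟩)).symm

theorem fr_of_odd [Finite A] (ρ : H →* Module.End ℤ A) (hA : ∀ b : A, ∃ n : ℕ, 2 ^ n • b = 0)
    {v : H} (hp : (orderOf v).Prime) (ho : Odd (orderOf v)) : Fr ρ v := by
  intro g hg g1 b e
  have fo : IsOfFinOrder v := orderOf_pos_iff.1 hp.pos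
  obtain ⟨k, rfl⟩ := (Submonoid.mem_powers_iff _ _).1 (fo.mem_powers_iff_mem_zpowers.2 hg)
  have co : k.Coprime (orderOf v) :=
    ((Nat.Prime.coprime_iff_not_dvd hp).2 fun d => g1 (orderOf_dvd_iff_pow_eq_one.1 d)).symm
  obtain ⟨m, hm⟩ := exists_pow_eq_self_of_coprime co
  have h1 : ρ v (b - ρ v b) = b - ρ v b := fix_of ρ (by have := npow_mem_zpowers (v ^ k) m; rwa [hm] at this) e
  have h2 : ∀ i : ℕ, ρ (v ^ i) b = b - i • (b - ρ v b) := fun i => by
    induction i with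
    | zero => rw [pow_zero, rone, zero_smul, sub_zero]
    | succ i ih => rw [pow_succ', rmul, ih, map_sub, map_nsmul, h1, succ_nsmul]; abel
  have h3 := h2 (orderOf v)
  rw [pow_orderOf_eq_one, rone, eq_comm, sub_eq_self] at h3
  obtain ⟨n, hn⟩ := hA (b - ρ v b)
  have d1 := addOrderOf_dvd_of_nsmul_eq_zero h3
  have d2 := addOrderOf_dvd_of_nsmul_eq_zero hn
  have c2 : (orderOf v).Coprime (2 ^ n) := (Nat.coprime_two_right.2 ho).pow_right n
  exact AddMonoid.addOrderOf_eq_one_iff.1 (Nat.eq_one_of_dvd_coprimes c2 d1 d2)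

end

end H83.CYB
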