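import Mathlib
import Cfsg.Agent.Lib.CYB.A4
import Cfsg.Agent.Lib.CYB.GA

/-! See `blueprint/CYB/README.md`. -/

set_option autoImplicit false
set_option linter.unusedSectionVars false
set_option linter.unusedVariables false

namespace H83.CYB

open Subgroup H69 H45.DSC
open scoped commutatorElement

variable {G : Type} [Group G] [Finite G] {D : Set G} {p : ℕ} {L L' M M' E X N : Subgroup G}
  {x y w v u z t c g a b r : G}

private theorem gt_rep (N : Subgroup G) : ∃ (A : Type) (_ : AddCommGroup A) (_ : Finite A) (q : G → A)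
    (ρ : 𝐍(N) →* Module.End ℤ A), (∀ a ∈ N, ∀ b ∈ N, q (a * b) = q a + q b) ∧ (∀ m, ∃ a ∈ N, q a = m) ∧
      (∀ a ∈ N, q a = 0 → a ∈ W N) ∧ ∀ g : 𝐍(N), ∀ a ∈ N, ρ g (q a) = q (g * a * (g : G)⁻¹) := by
  classical
  let f : 𝐍(N) → Module.End ℤ (Additive (Abelianization N)) := fun g =>
    (MonoidHom.toAdditive (Abelianization.map (N.normalizerMonoidHom g).toMonoidHom)).toIntLinearMap
  have hf : ∀ g a, f g (Additive.ofMul (Abelianization.of a)) =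
      Additive.ofMul (Abelianization.of (N.normalizerMonoidHom g a)) := fun g a => rfl
  have hs : ∀ m : Additive (Abelianization N), ∃ a, Additive.ofMul (Abelianization.of a) = m := fun m =>
    QuotientGroup.mk_surjective m.toMul
  haveI : Finite (Abelianization N) := inferInstanceAs (Finite (N ⧸ commutator N))
  refine ⟨Additive (Abelianization N), inferInstance, inferInstance,
    fun a => if h : a ∈ N then Additive.ofMul (Abelianization.of ⟨a, h⟩) else 0,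
    ⟨⟨f, ?_⟩, fun g k => ?_⟩, fun a ha b hb => ?_, fun m => ?_, fun a ha e => ?_, fun g a ha => ?_⟩
  · refine LinearMap.ext fun m => ?_
    obtain ⟨a, rfl⟩ := hs m
    rw [hf, map_one]; rfl
  · refine LinearMap.ext fun m => ?_
    obtain ⟨a, rfl⟩ := hs m
    rw [Module.End.mul_apply, hf, hf, hf, map_mul]; rfl
  · simp only [dif_pos ha, dif_pos hb, dif_pos (mul_mem ha hb)]
    rw [← ofMul_mul, ← map_mul]; rfl
  · obtain ⟨a, rfl⟩ := hs m
    exact ⟨a, a.2, dif_pos a.2⟩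
  · simp only [dif_pos ha] at e
    have : (⟨a, ha⟩ : N) ∈ commutator N := (QuotientGroup.eq_one_iff _).1 e
    rw [W, ← map_subtype_commutator]
    exact ⟨_, this, rfl⟩
  · simp only [dif_pos ha, dif_pos (conj_mem_of_mem_normalizer g.2 ha)]
    exact hf g ⟨a, ha⟩

private theorem gt_kk (h : BS0 D p) (hN : IsPGroup 2 N) {A : Type} [AddCommGroup A] {q : G → A}
    {ρ : 𝐍(N) →* Module.End ℤ A} (q1 : ∀ a ∈ N, ∀ b ∈ N, q (a * b⁻¹) = q a - q b)
    (q2 : ∀ m, ∃ a ∈ N, q a = m) (q4 : ∀ g : 𝐍(N), ∀ a ∈ N, ρ g (q a) = q (g * a * (g : G)⁻¹))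
    (u v : 𝐍(N)) (hu : (u : G) ∈ D) (hv : (v : G) ∈ D) (hp : Par (u : G) v) : KK ρ u v := by
  intro m
  obtain ⟨b, hb, rfl⟩ := q2 m
  have hX : IsPGroup 2 (W (gn (u : G) v) ⊔ N : Subgroup G) :=
    isPGroup_sup_of_le_normalizer_right (h.two _ hu _ hv) hN ((W_le _).trans (gn_le u.2 v.2))
  have hn : (u : G) ∈ 𝐍(W (gn (u : G) v) ⊔ N) :=
    le_normalizer_sup (zpowers_le.2 (norm_W _ (le_normalizer (left_mem_gn _ _)))) (zpowers_le.2 u.2)
      (mem_zpowers _)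
  have hg : Good D (W (gn (u : G) v) ⊔ N ⊔ zpowers (u : G)) := good_of_norm hX hn gen_le
  have uL : (u : G) ∈ W (gn (u : G) v) ⊔ N ⊔ zpowers (u : G) := mem_sup_right (mem_zpowers _)
  have vL : (v : G) ∈ W (gn (u : G) v) ⊔ N ⊔ zpowers (u : G) := by
    simpa using mul_mem uL (mem_sup_left (mem_sup_left hp))
  have a1 : ⁅b, (v : G)⁆ ∈ cm N v := commutator_mem_commutator hb (mem_zpowers _)
  have a2 := h.cm_le_P hv vL hN v.2 (le_sup_right.trans le_sup_left) a1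
  have a3 := cm_le v.2 a1
  have e1 : q b - ρ v (q b) = q ⁅b, (v : G)⁆ := by
    rw [q4 v b hb, ← q1 b hb _ (conj_mem_of_mem_normalizer v.2 hb), commutatorElement_def]
    congr 1; group
  rw [e1]
  generalize ⁅b, (v : G)⁆ = a at a2 a3
  have z := mem_Z.1 (h.comm_mem hg a2 (hp.mem_P hu hv uL vL))
  have c1 := (z.2 _ hu uL).symm.eq
  have c2 := (z.2 _ hv vL).symm.eq
  have e2 : (u : G) * a * (u : G)⁻¹ * ((v : G) * a * (v : G)⁻¹)⁻¹ = ⁅a, (u : G)⁻¹ * v⁆ := by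
    rw [← mul_inv_eq_iff_eq_mul.2 c1, commutatorElement_def]; group
  have n1 := conj_mem_of_mem_normalizer u.2 a3
  have n2 := conj_mem_of_mem_normalizer v.2 a3
  have n3 := mul_mem n1 (inv_mem n2)
  rw [q4 u a a3, q4 v a a3, ← q1 _ n1 _ n2, q4 u _ n3, q4 v _ n3, e2, c1, c2]
  simp

private theorem gt_ce (h : BS0 D p) (hN : IsPGroup 2 N) (hx : x ∈ D) (hn : x ∈ 𝐍(N))
    (hc : ∀ a ∈ N, ⁅x, a⁆ ∈ ce x) : N ≤ ce x := fun a ha => by
  have c := mem_ce.1 (hc a ha)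
  have e : a * x⁻¹ * a⁻¹ = x⁻¹ * ⁅x, a⁆ := by rw [commutatorElement_def]; group
  have e1 := congrArg (· ^ orderOf x) e
  simp only [conj_pow, c.symm.inv_left.mul_pow, inv_pow, pow_orderOf_eq_one] at e1
  obtain ⟨k, hk⟩ := isPGroup_iff_mem.1 hN ⁅x, a⁆ (mul_mem (conj_mem_of_mem_normalizer hn ha) (inv_mem ha))
  have e2 : ⁅x, a⁆ = 1 := orderOf_eq_one_iff.1 (Nat.eq_one_of_dvd_coprimes
    ((Nat.coprime_two_right.2 (h.odd_ord hx)).pow_right k)
    (orderOf_dvd_of_pow_eq_one (by simpa using e1.symm)) (orderOf_dvd_of_pow_eq_one hk))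
  exact mem_ce.2 (commutatorElement_eq_one_iff_commute.1 e2).symm

private theorem gt_cj (hr : r ∈ 𝐍(N)) (k : N ≤ ce x) : N ≤ ce (r * x * r⁻¹) := fun a ha => by
  have := (mem_ce.1 (k (conj_mem_of_mem_normalizer (inv_mem hr) ha))).eq
  refine mem_ce.2 ?_
  calc a * (r * x * r⁻¹) = r * (r⁻¹ * a * r⁻¹⁻¹ * x) * r⁻¹ := by group
    _ = _ := by rw [this]; group

/-- the Gram trick for an abelian section -/
theorem BS0.gt0 (h : BS0 D p) (hN : IsPGroup 2 N) (hx : x ∈ D) (hy : y ∈ D) (hw : w ∈ D)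
    (n1 : x ∈ 𝐍(N)) (n2 : y ∈ 𝐍(N)) (n3 : w ∈ 𝐍(N)) (h1 : Par x y) (h2 : Par x w)
    (hne : ∃ a ∈ N, ⁅y, a⁆ ∉ W N) : Par y w := by
  obtain ⟨A, _, _, q, ρ, q1, q2, q3, q4⟩ := gt_rep N
  have q0 : q 1 = 0 := by simpa using q1 1 (one_mem _) 1 (one_mem _)
  have q5 : ∀ a ∈ N, ∀ b ∈ N, q (a * b⁻¹) = q a - q b := fun a ha b hb => by
    rw [eq_sub_iff_add_eq, ← q1 _ (mul_mem ha (inv_mem hb)) b hb, inv_mul_cancel_right]
  have q6 : ∀ a ∈ N, ∀ k : ℕ, q (a ^ k) = k • q a := fun a ha k => by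
    induction k with
    | zero => simpa using q0
    | succ k ih => rw [pow_succ, q1 _ (pow_mem ha k) a ha, ih, succ_nsmul]
  have fr : ∀ v : 𝐍(N), (v : G) ∈ D → Fr ρ v := fun v hv => fr_of_odd ρ (fun m => by
      obtain ⟨a, ha, rfl⟩ := q2 m
      obtain ⟨k, hk⟩ := isPGroup_iff_mem.1 hN a ha
      exact ⟨k, by rw [← q6 a ha, hk, q0]⟩)
    (by rw [← Subgroup.orderOf_coe, h.ord _ hv]; exact h.pp)
    (by rw [← Subgroup.orderOf_coe]; exact h.odd_ord hv)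
  obtain ⟨w₁, m1, d1, p1⟩ := h.par y hy w hw
  obtain ⟨w₂, m2, d2, p2⟩ := h.par _ (h.conj y hy x) w hw
  have zp : ∀ v (m : v ∈ zpowers w), v ∈ D →
      zpowers (⟨v, zpowers_le.2 n3 m⟩ : 𝐍(N)) = zpowers ⟨w, n3⟩ := fun v m d => by
    apply Subgroup.map_injective (𝐍(N)).subtype_injective
    rw [MonoidHom.map_zpowers, MonoidHom.map_zpowers]
    exact h.zp_eq hw m (h.ne_one d)
  by_contra hc
  obtain ⟨a, ha, k⟩ := hne
  have := ga ρ (x := ⟨x, n1⟩) (y := ⟨y, n2⟩) (w := ⟨w, n3⟩) (w₁ := ⟨w₁, zpowers_le.2 n3 m1⟩)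
    (w₂ := ⟨w₂, zpowers_le.2 n3 m2⟩) (fun e => h.ne_one hy (congrArg Subtype.val e))
    (fun e => h.ne_one hx (congrArg Subtype.val e)) (gt_kk h hN q5 q2 q4 _ _ hx hy h1)
    (gt_kk h hN q5 q2 q4 _ _ hw hx h2.symm) (gt_kk h hN q5 q2 q4 _ _ d1 hy p1.symm)
    (gt_kk h hN q5 q2 q4 _ _ d2 (h.conj y hy x) p2.symm) (zp _ m1 d1) (zp _ m2 d2) (fr _ hx) (fr _ hy)
    (fr _ hw) (fun e => hc (by have e' : w₁ = w := congrArg Subtype.val e; exact e' ▸ p1)) (q a)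
  have n := conj_mem_of_mem_normalizer n2 ha
  refine k (q3 _ (mul_mem n (inv_mem ha)) ?_)
  rw [commutatorElement_def, q5 _ n a ha, ← q4 ⟨y, n2⟩ a ha, this, sub_self]

theorem BS0.gt (h : BS0 D p) (hN : IsPGroup 2 N) (hx : x ∈ D) (hn : x ∈ 𝐍(N))
    (hne : ¬ N ≤ ce x) : Good D 𝐍(N) := by
  obtain ⟨K, ⟨k1, k2, k3⟩, hmin⟩ := (wellFounded_lt (α := Subgroup G)).has_min
    {K : Subgroup G | IsPGroup 2 K ∧ 𝐍(N) ≤ 𝐍(K) ∧ ¬ K ≤ ce x} ⟨N, hN, le_rfl, hne⟩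
  have nt : Nontrivial K := (nontrivial_iff_ne_bot K).2 fun e => k3 (e ▸ bot_le)
  have lt : W K < K := by
    haveI := k1.isNilpotent
    have h2 := Group.IsSolvable.commutator_lt_top_of_nontrivial K
    rw [W, ← map_subtype_commutator]
    refine lt_of_le_of_ne (map_subtype_le _) fun e => h2.ne ?_
    apply Subgroup.map_injective K.subtype_injective
    rw [e, ← MonoidHom.range_eq_map, range_subtype]
  have k4 : W K ≤ ce x := by_contra fun e => hmin _ ⟨k1.to_le lt.le, k2.trans (norm_W K), e⟩ lt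
  refine h.good_of_triv fun x' hx' y hy w hw n1 n2 n3 h1 h2 =>
    h.gt0 k1 hx' hy hw (k2 n1) (k2 n2) (k2 n3) h1 h2 ?_
  obtain ⟨y', m, d, pp⟩ := h.par x hx y hy
  obtain ⟨r, hr, e⟩ := h.conj_of_par hx d pp
  have rN : r ∈ 𝐍(K) := k2 (gn_le hn (zpowers_le.2 n2 m) (W_le _ hr))
  have e1 : ce y' = ce y := by rw [ce, h.zp_eq hy m (h.ne_one d)]
  by_contra! hc
  have k5 : W K ≤ ce y := e1 ▸ e ▸ gt_cj (norm_W K rN) k4
  have k6 := gt_cj (inv_mem rN) (e1.ge.trans' (gt_ce h k1 hy (k2 n2) fun a ha => k5 (hc a ha)))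
  exact k3 (by simpa [e, mul_assoc] using k6)

end H83.CYB
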