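import Mathlib
import Cfsg.Agent.Lib.CYB.FX1
import Cfsg.Agent.Lib.CYB.GT

/-! See `blueprint/CYB/README.md`. -/

set_option autoImplicit false
set_option linter.unusedSectionVars false
set_option linter.unusedVariables false

namespace H83.CYB

open Subgroup H69 H45.DSC
open scoped commutatorElement

variable {G : Type} [Group G] [Finite G] {D : Set G} {p : ℕ} {L L' M M' E X N : Subgroup G}
  {x y w v u z t c g a b r : G}

theorem BS0.TT_two (h : BS0 D p) (hE : IsPGroup 2 E) (hM : Bk D E M) (hM' : Bk D E M')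
    (hZ : Z D M ⊓ Z D M' ≤ E) : IsPGroup 2 (TT D E M M') := by
  have zg : ∀ K : Subgroup G, Z D K ≤ gen D K := fun K => Z_le_P.trans P_le_gen
  have pj : P D (gen D M ⊓ gen D M') ≤ gen D M ⊓ gen D M' := P_le_gen.trans gen_le
  have hA : IsPGroup 2 (Z D M ⊓ 𝐍(gen D M') : Subgroup G) := IsPGroup.to_le hM.good (inf_le_left.trans Z_le_P)
  have hB : IsPGroup 2 (Z D M' ⊓ 𝐍(gen D M) : Subgroup G) := IsPGroup.to_le hM'.good (inf_le_left.trans Z_le_P)
  have hAB := hA.to_sup_of_normal_right' hB (le_normalizer_inf (inf_le_right.trans norm_Z)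
    (le_normalizer_of_le (inf_le_left.trans ((zg M).trans le_normalizer))))
  have hP : IsPGroup 2 (P D (gen D M ⊓ gen D M')) :=
    Good.of_le hM.good (gen_le.trans (inf_le_left.trans gen_le))
  have hPAB := hP.to_sup_of_normal_left' hAB (le_normalizer_of_le_centralizer (sup_le
    (inf_le_left.trans (Z_le_cent.trans (centralizer_anti (pj.trans inf_le_left))))
    (inf_le_left.trans (Z_le_cent.trans (centralizer_anti (pj.trans inf_le_right))))))
  exact hPAB.to_sup_of_normal_right' hE (le_normalizer_of_le_centralizer (sup_le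
    (pj.trans (inf_le_left.trans hM.le)) (sup_le (inf_le_left.trans ((zg M).trans hM.le))
      (inf_le_left.trans ((zg M').trans hM'.le)))))

theorem BS0.fx (h : BS0 D p) (hE : IsPGroup 2 E) (hM : Bk D E M) (hM' : Bk D E M') (hx : x ∈ D)
    (h1 : x ∈ M) (h2 : x ∈ M') (ht : t ∈ Z D M') (htn : t ∈ 𝐍(gen D M)) (htE : t ∉ E)
    (hc : c ∈ Z D M) (hcn : c ∈ 𝐍(gen D M')) (hcE : c ∉ E) : gen D M ≤ gen D M' := by
  by_cases hZ : Z D M ⊓ Z D M' ≤ E
  swap
  · obtain ⟨v, hv, vE⟩ := SetLike.not_le_iff_exists.1 hZ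
    exact ((hM.max v hv.1 vE).symm.trans (hM'.max v hv.2 vE)).le
  suffices k : t ∈ 𝐂(gen D M) by
    rw [← hM'.max t ht htE]
    exact gen_le_gen (le_inf hM.le fun a ha => mem_ce.2 (k a ha))
  by_contra k
  have tx : Commute t x := (mem_Z.1 ht).2 x hx h2
  obtain ⟨a, ha, hn⟩ : ∃ a ∈ P D M, ⁅t, a⁆ ∉ Z D M := by
    by_contra hh
    push Not at hh
    exact k (h.cent_of_comm_Z hM.good hx h1 tx hh)
  obtain ⟨y, hy, yJ, hp, ω, hω, e⟩ := h.fx_key hM hM' hx h1 h2 hZ ht htn htE ha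
  have xJ : x ∈ gen D M ⊓ gen D M' := ⟨mem_gen hx h1, mem_gen hx h2⟩
  have m1 : x⁻¹ * y ∈ TT D E M M' := mem_sup_left (mem_sup_left (hp.mem_P hx hy xJ yJ))
  have ne : ¬ TT D E M M' ≤ ce x := fun hh => hn (e ▸ mul_mem
    (h.cz hM.good hx h1 (hp.mem_P hx hy h1 (gen_le yJ.1)) (mem_ce.1 (hh m1))) hω.1)
  have xc : ∀ K B : Subgroup G, x ∈ K → zpowers x ≤ 𝐍((Z D K ⊓ B : Subgroup G)) := fun K B hk =>
    le_normalizer_of_le_centralizer (zpowers_le.2 fun z hz => ((mem_Z.1 hz.1).2 x hx hk).eq)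
  have xn : zpowers x ≤ 𝐍(TT D E M M') := le_normalizer_sup (le_normalizer_sup
    (zpowers_le.2 (norm_P (le_normalizer (mem_gen hx xJ)))) (le_normalizer_sup (xc M _ h1) (xc M' _ h2)))
    (le_normalizer_of_le_centralizer (zpowers_le.2 (hM.le xJ.1)))
  have hg := h.gt (h.TT_two hE hM hM' hZ) hx (xn (mem_zpowers x)) ne
  have l1 : gen D M ≤ 𝐍(TT D E M M') := by
    rw [h.gen_eq hx h1]
    exact sup_le (h.fx_norm hM hM' hx h1 h2 hZ ht htn htE) xn
  have l2 : gen D M' ≤ 𝐍(TT D E M M') := by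
    rw [h.gen_eq hx h2]
    refine sup_le ?_ xn
    rw [TT_comm]
    exact h.fx_norm hM' hM hx h2 h1 (by rwa [inf_comm]) hc hcn hcE
  exact k (centralizer_anti (gen_le_gen l1) (Z_le_cent (h.Z_mono hg l2 ht)))

end H83.CYB
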