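import Mathlib
import Cfsg.Agent.Lib.CYB.C2
import Cfsg.Agent.Lib.CYB.CW
import Cfsg.Agent.Lib.CYB.FX2

/-! See `blueprint/CYB/README.md`. -/

set_option autoImplicit false
set_option linter.unusedSectionVars false
set_option linter.unusedVariables false

namespace H83.CYB

open Subgroup H69 H45.DSC
open scoped commutatorElement

variable {G : Type} [Group G] [Finite G] {D : Set G} {p : ℕ} {L L' M M' E X N : Subgroup G}
  {x y w v u z t c g a b r : G}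

private theorem CS_Z (h : BS0 D p)
    (hmax : ∀ c ∈ gen D 𝐂(E), c ^ 2 = 1 → c ∉ E → Good D (𝐂(E) ⊓ ce c))
    (hg : Good D L) (hL : L ≤ 𝐂(E)) (hc : c ∈ Z D L) (hn : c ∉ E) :
    c ∈ 𝐂(E) ∧ c ∈ Z D (𝐂(E) ⊓ ce c) ∧ Bk D E (𝐂(E) ⊓ ce c) := by
  have k : ∀ {L : Subgroup G} {c : G}, Good D L → L ≤ 𝐂(E) → c ∈ Z D L → c ∉ E → Good D (𝐂(E) ⊓ ce c) :=
    fun hg hL hc hn => hmax _ (gen_mono hL (P_le_gen (Z_le_P hc))) (h.Z_sq hg hc) hn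
  have g1 := k hg hL hc hn
  have z1 : c ∈ Z D (𝐂(E) ⊓ ce c) := h.Z_mono g1 (gen_le_iff.2 fun v hv hl =>
    ⟨hL hl, mem_ce.2 ((mem_Z.1 hc).2 v hv hl).symm⟩) hc
  exact ⟨hL (gen_le (P_le_gen (Z_le_P hc))), z1, h.bk g1 z1 fun v hv hn => k g1 inf_le_left hv hn⟩

private theorem CS_cj (h : Commute t x) : t * x * t⁻¹ = x := by rw [h.eq, mul_inv_cancel_right]

theorem BS0.sym (h : BS0 D p) (hu1 : u ≠ 1) (huE : u ∈ E) (hE : IsPGroup 2 E)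
    (hmax : ∀ c ∈ gen D 𝐂(E), c ^ 2 = 1 → c ∉ E → Good D (𝐂(E) ⊓ ce c))
    (hl : UL D u x y) (hxE : x ∈ 𝐂(E)) (hyE : y ∈ 𝐂(E)) (hw : w ∈ D) (hwE : w ∈ 𝐂(E))
    (ht : t ∈ Z D (gn x w)) : Commute t y := by
  by_contra hn
  have ⟨hx, hy, hyx, a, ha, a2⟩ := hl
  have cE : ∀ {g e : G}, g ∈ 𝐂(E) → e ∈ E → Commute e g := fun hg he => mem_centralizer_iff.1 hg _ he
  have tE : t ∉ E := fun e => hn (cE hyE e)
  have t2 : t ^ 2 = 1 := h.Z_sq (h.good_gn hx hw) ht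
  obtain ⟨tC, tZ, bT⟩ := CS_Z h hmax (h.good_gn hx hw) (gn_le hxE hwE) ht tE
  have tx : Commute t x := (mem_Z.1 ht).2 x hx (left_mem_gn x w)
  have hl' := h.UL_cj hl t
  rw [CS_cj tx, CS_cj (cE tC huE).symm] at hl'
  have ⟨_, hy', _, b, hb, b2⟩ := hl'
  have yE' : t * y * t⁻¹ ∈ 𝐂(E) := mul_mem (mul_mem tC hyE) (inv_mem tC)
  have gp : Good D (gn x y ⊔ gn x (t * y * t⁻¹)) := h.plane hx hy hy' ha hb (a2 ▸ hu1) (b2 ▸ hu1)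
    (a2 ▸ cE yE' huE) (b2 ▸ cE hyE huE)
  have pE : gn x y ⊔ gn x (t * y * t⁻¹) ≤ 𝐂(E) := sup_le (gn_le hxE hyE) (gn_le hxE yE')
  have tt : t * (t * y * t⁻¹) * t⁻¹ = y := by
    rw [show t * (t * y * t⁻¹) * t⁻¹ = t ^ 2 * y * (t ^ 2)⁻¹ by rw [pow_two]; group, t2]; group
  have tn : t ∈ 𝐍(gen D (gn x y ⊔ gn x (t * y * t⁻¹))) := h.norm_gen (cj_eq_self_iff.1 (by
    rw [cj_sup, cj_gn, cj_gn, CS_cj tx, tt, sup_comm]))
  have xp : x ∈ gn x y ⊔ gn x (t * y * t⁻¹) := mem_sup_left (left_mem_gn _ _)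
  have yp : y ∈ gn x y ⊔ gn x (t * y * t⁻¹) := mem_sup_left (right_mem_gn _ _)
  generalize gn x y ⊔ gn x (t * y * t⁻¹) = Pl at gp pE tn xp yp
  obtain ⟨c, hc, cE', ct⟩ : ∃ c ∈ Z D Pl, c ∉ E ∧ ⁅c, t⁆ ∈ E := by
    have : ¬ ∀ z ∈ Z D Pl, Commute t z := fun e => hn (mem_centralizer_iff.1
      (h.cw0 gp hx xp tx tn ((h.good_gn hx hw).to_le (zpowers_le.2 (Z_le_P ht))) e) y (mem_gen hy yp)).symm
    push Not at this
    obtain ⟨c, hc, nc⟩ := this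
    by_cases e : ⁅t, c⁆ ∈ E
    · exact ⟨c, hc, fun e1 => nc (cE tC e1).symm, by rw [← commutatorElement_inv]; exact inv_mem e⟩
    · have m : ⁅t, c⁆ ∈ Z D Pl := mul_mem (conj_mem_of_mem_normalizer (norm_Z tn) hc) (inv_mem hc)
      refine ⟨_, m, e, ?_⟩
      have : ⁅⁅t, c⁆, t⁆ = ⁅t, c⁆ ^ 2 * (c * (t ^ 2)⁻¹ * c⁻¹ * t ^ 2 * (t ^ 2)⁻¹ * (t ^ 2)⁻¹ * t ^ 2) := by
        have t1 : t⁻¹ = t := inv_eq_of_mul_eq_one_right (by rw [← pow_two, t2])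
        have t3 : ∀ k : G, t * (t * k) = k := fun k => by rw [← mul_assoc, ← pow_two, t2, one_mul]
        rw [t2]
        simp only [commutatorElement_def, mul_inv_rev, inv_inv, t1, pow_two, mul_assoc, t3, inv_one, one_mul,
          mul_one, mul_inv_cancel]
        rw [← pow_two, t2, mul_one]
      rw [this, h.Z_sq gp m, t2]
      simpa using one_mem E
  obtain ⟨cC, cZ, bC⟩ := CS_Z h hmax gp pE hc cE'
  have := h.fx hE bC bT hx ⟨hxE, mem_ce.2 ((mem_Z.1 hc).2 x hx xp).symm⟩ ⟨hxE, mem_ce.2 tx.symm⟩ tZ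
    (h.norm_gen (norm_of_comm_mem tC (by rw [← commutatorElement_inv]; exact inv_mem ct))) tE cZ
    (h.norm_gen (norm_of_comm_mem cC ct)) cE'
  exact hn (mem_ce.1 (gen_le (this (mem_gen hy ⟨hyE, mem_ce.2 ((mem_Z.1 hc).2 y hy yp).symm⟩))).2).symm

theorem BS0.ext (h : BS0 D p) (hu1 : u ≠ 1) (huE : u ∈ E) (hE : IsPGroup 2 E)
    (hmax : ∀ c ∈ gen D 𝐂(E), c ^ 2 = 1 → c ∉ E → Good D (𝐂(E) ⊓ ce c))
    (hl : UL D u x y) (hyE : y ∈ 𝐂(E)) (hM : Good D M) (hME : gen D M ≤ 𝐂(E)) (hxM : x ∈ M) :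
    Good D (gen D M ⊔ gn x y) := by
  have ⟨hx, hy, hyx, b, hb, b2⟩ := hl
  refine h.g2 hM hx hxM hy fun v hv hvM => ?_
  by_cases e : v ∈ zpowers x
  · rw [sup_eq_right.2 (gn_le (left_mem_gn x y) (zpowers_le.2 (left_mem_gn x y) e))]
    exact h.good_gn hx hy
  obtain ⟨v', m, hv', pr⟩ := h.par x hx v hv
  have ne : x ≠ v' := fun e1 => e (by
    rw [h.zp_eq hv (e1 ▸ m) (h.ne_one hx)]; exact mem_zpowers v)
  have e1 : gn x v' = gn x v := h.line x hx v hv x hx v' hv' (left_mem_gn x v)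
    (zpowers_le.2 (right_mem_gn x v) m) (h.not_mem_of_par hx hv' pr ne)
  have ha : x⁻¹ * v' ∈ W (gn x v) := e1 ▸ pr
  have vE := hME (mem_gen hv hvM)
  exact h.plane hx hv hy ha hb (h.sq_ne hx hv' pr ne) (b2 ▸ hu1)
    (h.sym hu1 huE hE hmax hl (hME (mem_gen hx hxM)) hyE hv vE
      (h.sq_mem (h.good_gn hx hv) (by rwa [P_gn hx hv])))
    (b2 ▸ mem_centralizer_iff.1 vE u huE)

end H83.CYB
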