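import Mathlib
import Cfsg.Agent.Lib.CYB.A4

/-! Existence of a line through a given point with a square root of `u`, centralising `E`. -/

set_option autoImplicit false
set_option linter.unusedSectionVars false
set_option linter.unusedVariables false

namespace H83.CYB

open Subgroup H69 H45.DSC
open scoped commutatorElement

variable {G : Type} [Group G] [Finite G] {D : Set G} {p : ℕ} {L L' M M' E X N : Subgroup G}
  {x y w v u z t c g a b r : G}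

theorem BS.ul (h : BS D p) (hu : ZZ D u) (hE : IsPGroup 2 E) (hEu : E ≤ ce u) (huE : u ∈ E)
    (hx : x ∈ D) (hxE : x ∈ 𝐂(E)) : ∃ y ∈ 𝐂(E), UL D u x y := by
  have : Fact (Nat.Prime 2) := ⟨Nat.prime_two⟩
  obtain ⟨x₀, hx₀, y₀, hy₀, hne, hp, e⟩ := hu
  have l0 : UL D u x₀ y₀ := ⟨hx₀, hy₀, h.not_mem_of_par hx₀ hy₀ hp hne, _, hp, e.symm⟩
  have c0 : x₀ ∈ ce u := mem_ce.2 (e ▸ (h.sq x₀ hx₀ y₀ hy₀ _ hp).symm)
  have c1 : x ∈ ce u := mem_ce.2 (mem_centralizer_iff.1 hxE u huE).symm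
  obtain ⟨x', m', hx', p'⟩ := h.par x₀ hx₀ x hx
  obtain ⟨r, hr, e'⟩ := h.conj_of_par hx₀ hx' p'
  have cr : Commute r u := mem_ce.1 (gn_le c0 (zpowers_le.2 c1 m') (W_le _ hr))
  have l1 := h.UL_cj l0 r
  rw [← e', cr.eq, mul_inv_cancel_right] at l1
  generalize r * y₀ * r⁻¹ = y₁ at l1
  have ez := h.zp_eq hx m' (h.ne_one hx')
  have l2 : UL D u x y₁ := by
    obtain ⟨-, a1, a2, a3⟩ := l1
    rw [gn, ez] at a3
    exact ⟨hx, a1, ez ▸ a2, a3⟩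
  obtain ⟨S, hS, hSy⟩ := h.sy x hx y₁ l2.2.1
  have hSu : S ≤ ce u := fun s hs => by
    obtain ⟨a, ha, rfl⟩ := l2.2.2.2
    have : a ∈ ce s := gn_le (mem_ce.2 (mem_ce.1 (hS.le hs)).symm) (mem_ce.2 (mem_ce.1 (hSy hs)).symm)
      (W_le _ ha)
    exact mem_ce.2 ((mem_ce.1 this).symm.pow_right 2)
  obtain ⟨c, hc, hE'⟩ := (hS.mono (le_inf hS.le hSu) inf_le_left).exists_le_cj hE
    (le_inf (fun e he => mem_ce.2 (mem_centralizer_iff.1 hxE e he)) hEu)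
  have l3 := h.UL_cj l2 c
  rw [(mem_ce.1 hc.1).eq, (mem_ce.1 hc.2).eq, mul_inv_cancel_right, mul_inv_cancel_right] at l3
  refine ⟨_, mem_centralizer_iff.2 fun e he => ?_, l3⟩
  obtain ⟨s, hs, rfl⟩ := mem_cj'.1 (hE' he)
  exact (mem_ce.1 (hSy hs)).conj c

end H83.CYB
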