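import Mathlib
import Cfsg.Agent.Lib.CYB.CS
import Cfsg.Agent.Lib.CYB.UL

/-! See `blueprint/CYB/README.md`. -/

set_option autoImplicit false
set_option linter.unusedSectionVars false
set_option linter.unusedVariables false

namespace H83.CYB

open Subgroup H69 H45.DSC
open scoped commutatorElement

variable {G : Type} [Group G] [Finite G] {D : Set G} {p : ℕ} {L L' M M' E X N : Subgroup G}
  {x y w v u z t c g a b r : G}

private theorem cc_gn (e : zpowers x = zpowers w) (y : G) : gn x y = gn w y :=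
  le_antisymm (gn_le (zpowers_le.2 (left_mem_gn w y) (e ▸ mem_zpowers x)) (right_mem_gn w y))
    (gn_le (zpowers_le.2 (left_mem_gn x y) (e.symm ▸ mem_zpowers w)) (right_mem_gn x y))

private theorem cc_W (hx : x ∈ D) (hy : y ∈ D) (h : gn x y ≤ L) : W (gn x y) ≤ P D L := by
  rw [← P_gn hx hy]
  exact P_le_P (gen_le.trans h)

private theorem cc_cj (ha : a ∈ W (gn x y)) (g : G) :
    g * a * g⁻¹ ∈ W (gn (g * x * g⁻¹) (g * y * g⁻¹)) := by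
  rw [← cj_gn]
  have := cj_mem g ha
  rwa [cj_commutator] at this

private theorem cc_fix (hg : g ∈ 𝐂(E)) (hu : u ∈ E) : g * u * g⁻¹ = u := by
  rw [← mem_centralizer_iff.1 hg u hu, mul_inv_cancel_right]

theorem BS0.ul_comm (h : BS0 D p) (hu1 : u ≠ 1) (huE : u ∈ E) (hE : IsPGroup 2 E)
    (hmax : ∀ c ∈ gen D 𝐂(E), c ^ 2 = 1 → c ∉ E → Good D (𝐂(E) ⊓ ce c))
    {x' y' : G} (hl : UL D u x y) (hxE : x ∈ 𝐂(E)) (hyE : y ∈ 𝐂(E))
    (hl' : UL D u x' y') (hxE' : x' ∈ 𝐂(E)) (hyE' : y' ∈ 𝐂(E))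
    (ha : a ∈ W (gn x y)) (hb : b ∈ W (gn x' y')) :
    ⁅a, b⁆ ^ 2 = 1 ∧ ⁅a, b⁆ ∈ 𝐂(gen D 𝐂(E)) := by
  have hx := hl.1
  have hy := hl.2.1
  have hx' := hl'.1
  have hy' := hl'.2.1
  have c0 : gen D (gn x x') ≤ 𝐂(E) := gen_le.trans (gn_le hxE hxE')
  have g1 := h.ext hu1 huE hE hmax hl hyE (h.good_gn hx hx') c0 (left_mem_gn x x')
  set M₁ := gen D (gn x x') ⊔ gn x y with hM₁
  have c1 : M₁ ≤ 𝐂(E) := sup_le c0 (gn_le hxE hyE)
  have xM : x ∈ M₁ := mem_sup_right (left_mem_gn x y)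
  have xM' : x' ∈ M₁ := mem_sup_left (mem_gen hx' (right_mem_gn x x'))
  obtain ⟨x₂, hx₂, hD₂, hp⟩ := h.par x hx x' hx'
  obtain ⟨r, hr, e⟩ := h.conj_of_par hx hD₂ hp
  have rP : r ∈ P D M₁ := cc_W hx hD₂ (gn_le xM (zpowers_le.2 xM' hx₂)) hr
  have rE : r ∈ 𝐂(E) := c1 (gen_le (P_le_gen rP))
  have ez : zpowers x₂ = zpowers x' := h.zp_eq hx' hx₂ (h.ne_one hD₂)
  have y₁E : r * y * r⁻¹ ∈ 𝐂(E) := mul_mem (mul_mem rE hyE) (inv_mem rE)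
  have hl₁ : UL D u x' (r * y * r⁻¹) := by
    have := h.UL_cj hl r
    rw [cc_fix rE huE, ← e] at this
    refine ⟨hx', this.2.1, ez ▸ this.2.2.1, ?_⟩
    rw [← cc_gn ez]
    exact this.2.2.2
  have ha₁ : r * a * r⁻¹ ∈ W (gn x' (r * y * r⁻¹)) := by
    rw [← cc_gn ez, e]
    exact cc_cj ha r
  have aP : a ∈ P D M₁ := cc_W hx hy le_sup_right ha
  have hζ := h.comm_mem g1 rP aP
  have g2 := h.ext hu1 huE hE hmax hl' hyE' g1 (gen_le.trans c1) xM'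
  have ζa : a * ⁅r, a⁆ = ⁅r, a⁆ * a := mem_centralizer_iff.1 (Z_le_cent hζ) a (P_le_gen aP)
  have ζb : b * ⁅r, a⁆ = ⁅r, a⁆ * b :=
    mem_centralizer_iff.1 (Z_le_cent (h.Z_mono g2 le_sup_left hζ)) b (P_le_gen (cc_W hx' hy' le_sup_right hb))
  have ec : ⁅a, b⁆ = ⁅r * a * r⁻¹, b⁆ := by
    have e1 : r * a * r⁻¹ = a * ⁅r, a⁆ := by rw [ζa, commutatorElement_def]; group
    rw [e1]
    generalize ⁅r, a⁆ = ζ at ζb
    calc ⁅a, b⁆ = a * (b * ζ) * ζ⁻¹ * a⁻¹ * b⁻¹ := by rw [commutatorElement_def]; group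
      _ = ⁅a * ζ, b⁆ := by rw [ζb, commutatorElement_def]; group
  have key : ∀ v ∈ D, v ∈ 𝐂(E) → ⁅a, b⁆ ^ 2 = 1 ∧ Commute ⁅a, b⁆ v := by
    intro v hv hvE
    have d0 : gen D (gn x' v) ≤ 𝐂(E) := gen_le.trans (gn_le hxE' hvE)
    have k1 := h.ext hu1 huE hE hmax hl₁ y₁E (h.good_gn hx' hv) d0 (left_mem_gn x' v)
    have k2 := h.ext hu1 huE hE hmax hl' hyE' k1 (gen_le.trans (sup_le d0 (gn_le hxE' y₁E)))
      (mem_sup_right (left_mem_gn _ _))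
    have hz := h.comm_mem k2 (cc_W hx' hl₁.2.1 (le_sup_of_le_left (gn_le
      (mem_gen hx' (mem_sup_right (left_mem_gn _ _)))
      (mem_gen hl₁.2.1 (mem_sup_right (right_mem_gn _ _))))) ha₁) (cc_W hx' hy' le_sup_right hb)
    rw [← ec] at hz
    exact ⟨h.Z_sq k2 hz, (mem_Z.1 hz).2 v hv
      (mem_sup_left (mem_gen hv (mem_sup_left (mem_gen hv (right_mem_gn _ _)))))⟩
  refine ⟨(key x hx hxE).1, ?_⟩
  have : gen D 𝐂(E) ≤ ce ⁅a, b⁆ := gen_le_iff.2 fun v hv hvE => mem_ce.2 (key v hv hvE).2.symm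
  exact le_centralizer_iff.1 this (mem_zpowers _)

private theorem cc_two (h : c ^ 2 = 1) : IsPGroup 2 (zpowers c) := by
  rintro ⟨_, k, rfl⟩
  refine ⟨1, Subtype.ext ?_⟩
  show (c ^ k) ^ 2 ^ 1 = 1
  rw [pow_one, ← zpow_natCast, zpow_comm, zpow_natCast, h, one_zpow]

theorem BS.good_ce (h : BS D p) (hu : ZZ D u) : Good D (ce u) := by
  by_contra hng
  obtain ⟨hu1, hu2⟩ := h.ZZ_ne hu
  obtain ⟨E, ⟨hE, huE, hEu, hn⟩, hm⟩ := Set.Finite.exists_maximal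
    (Set.toFinite {E : Subgroup G | IsPGroup 2 E ∧ u ∈ E ∧ E ≤ ce u ∧ ¬ Good D 𝐂(E)})
    ⟨zpowers u, cc_two hu2, mem_zpowers u, zpowers_le.2 (mem_ce.2 (Commute.refl u)), hng⟩
  have hmax : ∀ c ∈ gen D 𝐂(E), c ^ 2 = 1 → c ∉ E → Good D (𝐂(E) ⊓ ce c) := by
    intro c hc h2 hcE
    have hc' : c ∈ 𝐂(E) := gen_le hc
    by_contra hb
    rw [← cent_sup] at hb
    refine hcE (hm (y := E ⊔ zpowers c) ⟨?_, mem_sup_left huE, sup_le hEu (zpowers_le.2 ?_), hb⟩ le_sup_left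
      (mem_sup_right (mem_zpowers c)))
    · exact isPGroup_sup_of_le_normalizer_left hE (cc_two h2)
        (zpowers_le.2 (centralizer_le_normalizer _ hc'))
    · exact mem_ce.2 (mem_centralizer_iff.1 hc' u huE).symm
  let S : Set G := {a | ∃ x y, UL D u x y ∧ x ∈ 𝐂(E) ∧ y ∈ 𝐂(E) ∧ a ∈ W (gn x y)}
  have hN : IsPGroup 2 (closure S) := by
    refine two_of_class2 ?_ ?_
    · rintro a ⟨x, y, hl, -, -, ha⟩
      exact h.pow4 (h.good_gn hl.1 hl.2.1) (cc_W hl.1 hl.2.1 le_rfl ha)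
    · rintro a ⟨x, y, hl, hx, hy, ha⟩ b ⟨x', y', hl', hx', hy', hb⟩
      obtain ⟨e1, e2⟩ := h.ul_comm hu1 huE hE hmax hl hx hy hl' hx' hy' ha hb
      refine ⟨e1, ?_⟩
      rintro c ⟨x₂, y₂, hl₂, hx₂, hy₂, hc⟩
      exact (mem_centralizer_iff.1 e2 c (P_le_gen (cc_W hl₂.1 hl₂.2.1 (gn_le hx₂ hy₂) hc))).symm
  have hC : 𝐂(E) ≤ 𝐍(closure S) := by
    refine le_normalizer_of_cj_le fun g hg => cj_le_iff.2 ((closure_le _).2 ?_)
    rintro a ⟨x, y, hl, hx, hy, ha⟩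
    rw [SetLike.mem_coe, mem_cj, inv_inv]
    refine subset_closure ⟨g * x * g⁻¹, g * y * g⁻¹, ?_, mul_mem (mul_mem hg hx) (inv_mem hg),
      mul_mem (mul_mem hg hy) (inv_mem hg), cc_cj ha g⟩
    have := h.UL_cj hl g
    rwa [cc_fix hg huE] at this
  by_cases hx : ∃ x ∈ D, x ∈ 𝐂(E)
  · obtain ⟨x, hx, hxE⟩ := hx
    obtain ⟨y, hyE, hl⟩ := h.ul hu hE hEu huE hx hxE
    obtain ⟨a, ha, ea⟩ := hl.2.2.2
    refine hn ((h.gt hN hx (hC hxE) fun hle => hu1 ?_).of_le (gen_le.trans hC))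
    have hg := h.good_gn hx hl.2.1
    rw [← ea]
    exact h.Z_sq hg (h.cz hg hx (left_mem_gn x y) (cc_W hx hl.2.1 le_rfl ha)
      (mem_ce.1 (hle (subset_closure ⟨x, y, hl, hxE, hyE, ha⟩))))
  · exact hn (IsPGroup.of_bot.to_le (P_le_gen.trans (gen_le_iff.2 fun x h1 h2 => (hx ⟨x, h1, h2⟩).elim)))

end H83.CYB
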