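import Mathlib
import Cfsg.Agent.Lib.CYB.A4

/-! See `blueprint/CYB/README.md`. -/

set_option autoImplicit false
set_option linter.unusedSectionVars false
set_option linter.unusedVariables false

namespace H83.CYB

open Subgroup H69 H45.DSC
open scoped commutatorElement

variable {G : Type} [Group G] [Finite G] {D : Set G} {p : ℕ} {L L' M M' E X N : Subgroup G}
  {x y w v u z t c g a b r : G}

theorem BS0.dec (h : BS0 D p) (hx : x ∈ D) (hc : c ∈ D) (hz : z ^ 2 = 1) (hzx : Commute z x)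
    (hzc : ¬ Commute z c) :
    z * c * z⁻¹ ∉ zpowers c ∧ Par c (z * c * z⁻¹) ∧ ∃ r ∈ P D (gn c (z * c * z⁻¹)),
      r ∉ Z D (gn c (z * c * z⁻¹)) ∧ r⁻¹ * z ∈ 𝐂(gn c (z * c * z⁻¹)) := by
  have hc' : z * c * z⁻¹ ∈ D := h.conj c hc z
  have zz : z * z = 1 := by rw [← pow_two, hz]
  have zi : z⁻¹ = z := inv_eq_of_mul_eq_one_right zz
  have nrm : ∀ v : G, z * v * z⁻¹ ∈ zpowers v → z ∈ 𝐍(zpowers v) := fun v hv =>
    mem_normalizer_of_cj_le (by rw [cj_zpowers]; exact zpowers_le.2 hv)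
  have h1 : z * c * z⁻¹ ∉ zpowers c := fun e => hzc (h.comm_of_norm hx hc hzx (nrm c e))
  have good := h.good_gn hc hc'
  have cc : z * (z * c * z⁻¹) * z⁻¹ = c := by
    calc z * (z * c * z⁻¹) * z⁻¹ = (z * z) * c * (z * z)⁻¹ := by group
      _ = c := by rw [zz]; group
  have c1 : c ∈ gen D (gn c (z * c * z⁻¹)) := mem_gen hc (left_mem_gn _ _)
  have c2 : z * c * z⁻¹ ∈ gen D (gn c (z * c * z⁻¹)) := mem_gen hc' (right_mem_gn _ _)
  have hm : z * c * z⁻¹ * c⁻¹ ∈ P D (gn c (z * c * z⁻¹)) := by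
    by_contra hn
    obtain ⟨k, -, hk⟩ := h.pt_pow good (mul_mem c2 (inv_mem c1)) hn
    have e1 : z * (z * c * z⁻¹ * c⁻¹) * z⁻¹ = (z * c * z⁻¹ * c⁻¹)⁻¹ := by
      calc z * (z * c * z⁻¹ * c⁻¹) * z⁻¹ = z * (z * c * z⁻¹) * z⁻¹ * (z * c * z⁻¹)⁻¹ := by group
        _ = _ := by rw [cc]; group
    have e2 : z * (z * c * z⁻¹ * c⁻¹) ^ k * z⁻¹ = ((z * c * z⁻¹ * c⁻¹) ^ k)⁻¹ := by
      rw [← conj_pow, e1, inv_pow]
    have e3 := h.comm_of_norm hx hk hzx (nrm _ (by rw [e2]; exact inv_mem (mem_zpowers _)))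
    rw [e3.eq, mul_inv_cancel_right] at e2
    have e4 : orderOf ((z * c * z⁻¹ * c⁻¹) ^ k) ∣ 2 :=
      orderOf_dvd_of_pow_eq_one (by rw [pow_two]; exact mul_eq_one_iff_eq_inv.2 e2)
    rw [h.ord _ hk] at e4
    have e5 := h.od
    rw [(Nat.prime_dvd_prime_iff_eq h.pp Nat.prime_two).1 e4] at e5
    exact absurd e5 (by decide)
  have hp : Par c (z * c * z⁻¹) := by
    have e : c⁻¹ * (z * c * z⁻¹) = c⁻¹ * (z * c * z⁻¹ * c⁻¹) * c := by group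
    unfold Par
    rw [e, ← P_gn hc hc']
    exact conj_mem_of_mem_normalizer' (norm_P (le_normalizer c1)) hm
  obtain ⟨r, hr, er⟩ := h.conj_of_par hc hc' hp
  rw [← P_gn hc hc'] at hr
  refine ⟨h1, hp, r, hr, fun hZ => h1 ?_, ?_⟩
  · have := (mem_Z.1 hZ).2 c hc (left_mem_gn _ _)
    rw [er, this.eq, mul_inv_cancel_right]
    exact mem_zpowers c
  · have r2 := ((mem_Z.1 (h.sq_mem good hr)).2 c hc (left_mem_gn _ _)).eq
    have k1 : r⁻¹ * z ∈ ce c := mem_ce.2 (by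
      show r⁻¹ * z * c = c * (r⁻¹ * z)
      calc r⁻¹ * z * c = r⁻¹ * (z * c * z⁻¹) * z := by group
        _ = c * (r⁻¹ * z) := by rw [er]; group)
    have k2 : r⁻¹ * z ∈ ce (z * c * z⁻¹) := mem_ce.2 (by
      show r⁻¹ * z * (z * c * z⁻¹) = z * c * z⁻¹ * (r⁻¹ * z)
      calc r⁻¹ * z * (z * c * z⁻¹) = r⁻¹ * (z * (z * c * z⁻¹) * z⁻¹) * z := by group
        _ = r⁻¹ * (c * r ^ 2) * r⁻¹ * (r⁻¹ * z) := by rw [cc, pow_two]; group
        _ = r * c * r⁻¹ * (r⁻¹ * z) := by rw [← r2, pow_two]; group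
        _ = z * c * z⁻¹ * (r⁻¹ * z) := by rw [← er])
    have e : 𝐂(gn c (z * c * z⁻¹)) = ce c ⊓ ce (z * c * z⁻¹) := centralizer_sup _ _
    rw [e]
    exact ⟨k1, k2⟩

end H83.CYB
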