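import Mathlib
import Cfsg.Agent.Lib.CYB.CC
import Cfsg.Agent.Lib.CYB.DE

/-! See `blueprint/CYB/README.md`. -/

set_option autoImplicit false
set_option linter.unusedSectionVars false
set_option linter.unusedVariables false

namespace H83.CYB

open Subgroup H69 H45.DSC
open scoped commutatorElement

variable {G : Type} [Group G] [Finite G] {D : Set G} {p : ℕ} {L L' M M' E X N : Subgroup G}
  {x y w v u z t c g a b r : G}

/-- the configuration of the last step: `B = C(z)`, `B' = C(E, z')` -/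
structure Cf (D : Set G) (E : Subgroup G) (z : G) : Prop where
  two : IsPGroup 2 E
  zz : ZZ D z
  le : gen D (ce z) ≤ 𝐂(E)
  out : ∃ c ∈ D, c ∈ 𝐂(E) ∧ ¬ Commute z c
  noZZ : ∀ u ∈ E, ¬ ZZ D u
  max : ∀ w ∈ Z D (ce z), w ∉ E → gen D (𝐂(E) ⊓ ce w) = gen D (ce z)

private theorem gen_le_ce (hz : z ∈ Z D L) : gen D L ≤ ce z := fun g hg => mem_ce.2 (Z_le_cent hz g hg)

theorem BS.mem_Z_ce (h : BS D p) (hz : ZZ D z) : z ∈ Z D (ce z) := by
  have hg := h.good_ce hz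
  obtain ⟨x, hx, y, hy, -, hp, rfl⟩ := hz
  have h1 := h.sq_mem (h.good_gn hx hy) (hp.mem_P hx hy (left_mem_gn x y) (right_mem_gn x y))
  exact h.Z_mono hg (gen_le_ce h1) h1

theorem BS.comm_of_ZZ (h : BS D p) (hz : ZZ D z) (hu : ZZ D u) (hle : gen D (ce z) ≤ ce u)
    (hc : c ∈ D) (hcu : Commute u c) : Commute z c := by
  exact (mem_Z.1 (h.Z_mono (h.good_ce hu) hle (h.mem_Z_ce hz))).2 c hc (mem_ce.2 hcu.symm)

theorem BS.exists_cf (h : BS D p) (hx : x ∈ D) (hy : y ∈ D) (hm : y ∉ zpowers x) :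
    ∃ (E : Subgroup G) (z : G), Cf D E z := by
  obtain ⟨y', hy', hD, hp⟩ := h.par x hx y hy
  have hz : ZZ D ((x⁻¹ * y') ^ 2) := ⟨x, hx, y', hD, fun e => hm (by
    rw [h.zp_eq hy (e ▸ hy') (h.ne_one hx)]
    exact mem_zpowers y), hp, rfl⟩
  obtain ⟨E, -, ⟨z, h1, h2, h3, c, hc, hcE, hzc⟩, hmax⟩ := Finite.exists_le_maximal
    (p := fun E : Subgroup G => ∃ z, IsPGroup 2 E ∧ ZZ D z ∧ gen D (ce z) ≤ 𝐂(E) ∧
      ∃ c ∈ D, c ∈ 𝐂(E) ∧ ¬ Commute z c) (a := ⊥) ⟨_, IsPGroup.of_bot, hz,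
      by rw [H69.centralizer_bot]; exact le_top, by
        by_contra e
        refine (h.ZZ_ne hz).1 (h.faith _ fun c hc => ?_)
        by_contra k
        exact e ⟨c, hc, by rw [H69.centralizer_bot]; exact mem_top c, k⟩⟩
  refine ⟨E, z, h1, h2, h3, ⟨c, hc, hcE, hzc⟩, fun u hu hu' => hzc (h.comm_of_ZZ h2 hu'
    (h3.trans (H69.centralizer_anti (zpowers_le.2 hu))) hc (hcE u hu)), fun w hw hwE => ?_⟩
  have h4 : gen D (ce z) ≤ 𝐂(E) ⊓ ce w := le_inf h3 (gen_le_ce hw)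
  refine le_antisymm (gen_le_iff.2 fun v hv hl => mem_gen hv (mem_ce.2 (Commute.symm ?_))) (gen_le_gen h4)
  by_contra k
  have h5 : IsPGroup 2 (zpowers w) := IsPGroup.of_card_dvd_pow (n := 1) (by
    rw [Nat.card_zpowers, pow_one]
    exact orderOf_dvd_of_pow_eq_one (h.Z_sq (h.good_ce h2) hw))
  refine hwE (hmax (y := E ⊔ zpowers w) ⟨z, isPGroup_sup_of_le_normalizer_left h1 h5
    (le_normalizer_of_le_centralizer (zpowers_le.2 (h3 (P_le_gen (Z_le_P hw))))), h2, by rwa [cent_sup],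
    v, hv, by rwa [cent_sup], k⟩ le_sup_left (mem_sup_right (mem_zpowers w)))

theorem Cf.mem_E (hf : Cf D E z) (hw : w ∈ Z D (ce z)) (hc : c ∈ D) (hcE : c ∈ 𝐂(E))
    (hzc : ¬ Commute z c) (hwc : Commute w c) : w ∈ E := by
  by_contra e
  have k : c ∈ gen D (𝐂(E) ⊓ ce w) := mem_gen hc (mem_inf.2 ⟨hcE, mem_ce.2 hwc.symm⟩)
  rw [hf.max w hw e] at k
  exact hzc (mem_ce.1 (gen_le k)).symm

theorem Cf.norm (h : BS D p) (hf : Cf D E z) (hw : w ∈ Z D (ce z)) (hwE : w ∉ E) (hg : g ∈ 𝐂(E))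
    (hc : ⁅g, w⁆ ∈ E) : g ∈ 𝐍(gen D (ce z)) := by
  exact hf.max w hw hwE ▸ h.norm_gen (norm_of_comm_mem hg hc)

/-- a second good set `L`, mutually normalised by the centres -/
structure Cf2 (D : Set G) (E : Subgroup G) (z c : G) (L : Subgroup G) : Prop extends Cf D E z where
  cD : c ∈ D
  cL : c ∈ L
  zc : ¬ Commute z c
  good : Good D L
  leL : gen D L ≤ 𝐂(E)
  n1 : Z D (ce z) ≤ 𝐍(gen D L)
  n2 : Z D L ≤ 𝐍(gen D (ce z))

end H83.CYB
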