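import Mathlib
import Cfsg.Agent.Lib.CYB.F0

/-! See `blueprint/CYB/README.md`. -/

set_option autoImplicit false
set_option linter.unusedSectionVars false
set_option linter.unusedVariables false

namespace H83.CYB

open Subgroup H69 H45.DSC
open scoped commutatorElement

variable {G : Type} [Group G] [Finite G] {D : Set G} {p : ℕ} {L L' M M' E X N : Subgroup G}
  {x y w v u z t c g a b r : G}

private theorem f1_comm_left {Y : Subgroup G} (hr : r ∈ Y) (ha : a ∈ 𝐍(Y)) : ⁅r, a⁆ ∈ Y := by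
  have h1 : a * r⁻¹ * a⁻¹ ∈ Y := (mem_normalizer_iff.1 ha _).1 (Y.inv_mem hr)
  have : ⁅r, a⁆ = r * (a * r⁻¹ * a⁻¹) := by rw [commutatorElement_def]; group
  rw [this]; exact Y.mul_mem hr h1

private theorem f1_comm_right {Y : Subgroup G} (hr : r ∈ 𝐍(Y)) (ha : a ∈ Y) : ⁅r, a⁆ ∈ Y := by
  have h1 : r * a * r⁻¹ ∈ Y := (mem_normalizer_iff.1 hr _).1 ha
  rw [commutatorElement_def]; exact Y.mul_mem h1 (Y.inv_mem ha)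

private theorem f1_swap (h : ⁅r, a⁆ ∈ E) : ⁅a, r⁆ ∈ E := by
  rw [← commutatorElement_inv]; exact E.inv_mem h

private theorem f1_sq (hr : r ∈ 𝐂(E)) (h : ⁅r, a⁆ ∈ E) (h2 : ⁅r, a⁆ ^ 2 = 1) :
    ⁅a, r ^ 2⁆ ∈ E := by
  have h1 : ⁅r, a⁆ * r = r * ⁅r, a⁆ := hr _ h
  have h3 : ⁅r ^ 2, a⁆ = r * ⁅r, a⁆ * r⁻¹ * ⁅r, a⁆ := by
    simp only [commutatorElement_def, pow_two]; group
  apply f1_swap
  rw [h3, ← h1, mul_inv_cancel_right, ← pow_two, h2]; exact E.one_mem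

private theorem f1_of_cent {K : Subgroup G} (hr : r ∈ K) (h : r⁻¹ * z ∈ 𝐂(K)) : Commute r z := by
  have h1 : r * (r⁻¹ * z) = (r⁻¹ * z) * r := h r hr
  have h2 : z * r = r * (r⁻¹ * z * r) := by group
  show r * z = z * r
  rw [h2, ← h1]; group

theorem BS.exists_cf2 (h : BS D p) (hf : Cf D E z) : ∃ (c : G) (L : Subgroup G), Cf2 D E z c L := by
  have h0 := h.toBS0
  obtain ⟨c, hc, hcE, hzc⟩ := hf.out
  obtain ⟨x₀, hx₀, y₀, hy₀, hne₀, hp₀, hz₀⟩ := hf.zz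
  have hzx : Commute z x₀ := hz₀ ▸ h0.sq x₀ hx₀ y₀ hy₀ _ hp₀
  have hgz : Good D (ce z) := h.good_ce hf.zz
  have hzE : z ∈ 𝐂(E) := hf.le (P_le_gen (Z_le_P (h.mem_Z_ce hf.zz)))
  obtain ⟨-, -, r, hrP, hrZ, hrh⟩ := h0.dec hx₀ hc (h0.ZZ_ne hf.zz).2 hzx hzc
  have hc' : z * c * z⁻¹ ∈ D := h0.conj c hc z
  have hgl : Good D (gn c (z * c * z⁻¹)) := h0.good_gn hc hc'
  have hlE : gn c (z * c * z⁻¹) ≤ 𝐂(E) :=
    gn_le hcE (mul_mem (mul_mem hzE hcE) (inv_mem hzE))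
  have hrl : r ∈ gn c (z * c * z⁻¹) := gen_le (P_le_gen hrP)
  have hrE : r ∈ 𝐂(E) := hlE hrl
  have hz' : ZZ D (r ^ 2) := h0.ZZ_sq hgl hrP hrZ
  have hz'Z : r ^ 2 ∈ Z D (gn c (z * c * z⁻¹)) := h0.sq_mem hgl hrP
  have hz'c : Commute (r ^ 2) c := (mem_Z.1 hz'Z).2 c hc (left_mem_gn _ _)
  have hz'c' : Commute (r ^ 2) (z * c * z⁻¹) := (mem_Z.1 hz'Z).2 _ hc' (right_mem_gn _ _)
  have hrz : Commute r z := f1_of_cent hrl hrh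
  have hgL : Good D (𝐂(E) ⊓ ce (r ^ 2)) :=
    (h.good_ce hz').of_le (gen_le.trans inf_le_right)
  have hcL : c ∈ 𝐂(E) ⊓ ce (r ^ 2) := ⟨hcE, mem_ce.2 hz'c.symm⟩
  have hlL : gn c (z * c * z⁻¹) ≤ 𝐂(E) ⊓ ce (r ^ 2) :=
    le_inf hlE (gn_le (mem_ce.2 hz'c.symm) (mem_ce.2 hz'c'.symm))
  have hrPL : r ∈ P D (𝐂(E) ⊓ ce (r ^ 2)) := P_le_P (gen_le.trans hlL) hrP
  refine ⟨c, 𝐂(E) ⊓ ce (r ^ 2), hf, hc, hcL, hzc, hgL, gen_le.trans inf_le_left, ?_, ?_⟩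
  · have hrY : r ∈ 𝐍(Z D (ce z)) := norm_Z (h0.norm_gen (le_normalizer (mem_ce.2 hrz)))
    have haE : ∀ a ∈ Z D (ce z), a ∈ 𝐂(E) := fun a ha => hf.le (P_le_gen (Z_le_P ha))
    have key : ∀ a ∈ Z D (ce z), ⁅r, a⁆ ∈ E := by
      refine nn_zero (fun a ha => h0.Z_sq hgz ha) hrY (h0.pow4 hgL hrPL) fun a ha hk => ?_
      have hn : a ∈ 𝐍(P D (𝐂(E) ⊓ ce (r ^ 2))) :=
        norm_P (h0.norm_gen (norm_of_comm_mem (haE a ha) (f1_swap hk)))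
      have hY : ⁅r, a⁆ ∈ Z D (ce z) := f1_comm_right hrY ha
      have hZ : ⁅r, a⁆ ∈ Z D (𝐂(E) ⊓ ce (r ^ 2)) :=
        h0.om1 hgL (f1_comm_left hrPL hn) (h0.Z_sq hgz hY)
      exact hf.mem_E hY hc hcE hzc ((mem_Z.1 hZ).2 c hc hcL)
    intro a ha
    exact h0.norm_gen (norm_of_comm_mem (haE a ha)
      (f1_sq hrE (key a ha) (h0.Z_sq hgz (f1_comm_right hrY ha))))
  · obtain ⟨b, hb, hbz, hzb⟩ : ∃ b ∈ D, b ∈ ce z ∧ ¬ Commute (r ^ 2) b := by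
      by_contra hcon
      push Not at hcon
      exact hzc (h.comm_of_ZZ hf.zz hz'
        (gen_le_iff.2 fun b hb hbz => mem_ce.2 (hcon b hb hbz).symm) hc hz'c)
    obtain ⟨-, -, s, hsP, hsZ, hsh⟩ := h0.dec hc hb (h0.ZZ_ne hz').2 hz'c hzb
    have hb' : r ^ 2 * b * (r ^ 2)⁻¹ ∈ D := h0.conj b hb _
    have hr2z : r ^ 2 ∈ ce z := mem_ce.2 (hrz.pow_left 2)
    have hl1 : gn b (r ^ 2 * b * (r ^ 2)⁻¹) ≤ ce z :=
      gn_le hbz (mul_mem (mul_mem hr2z hbz) (inv_mem hr2z))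
    have hsl : s ∈ gn b (r ^ 2 * b * (r ^ 2)⁻¹) := gen_le (P_le_gen hsP)
    have hsPz : s ∈ P D (ce z) := P_le_P (gen_le.trans hl1) hsP
    have hsE : s ∈ 𝐂(E) := hf.le (P_le_gen hsPz)
    have hz1 : s ^ 2 ∈ Z D (ce z) := h0.sq_mem hgz hsPz
    have hz1E : s ^ 2 ∉ E := fun hm => hf.noZZ _ hm (h0.ZZ_sq (h0.good_gn hb hb') hsP hsZ)
    have hsz' : Commute s (r ^ 2) := f1_of_cent hsl hsh
    have hsL : s ∈ 𝐂(E) ⊓ ce (r ^ 2) := ⟨hsE, mem_ce.2 hsz'⟩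
    have hsY : s ∈ 𝐍(Z D (𝐂(E) ⊓ ce (r ^ 2))) := norm_Z (h0.norm_gen (le_normalizer hsL))
    have haE : ∀ a ∈ Z D (𝐂(E) ⊓ ce (r ^ 2)), a ∈ 𝐂(E) := fun a ha =>
      (gen_le (P_le_gen (Z_le_P ha))).1
    have key : ∀ a ∈ Z D (𝐂(E) ⊓ ce (r ^ 2)), ⁅s, a⁆ ∈ E := by
      refine nn_zero (fun a ha => h0.Z_sq hgL ha) hsY (h0.pow4 hgz hsPz) fun a ha hk => ?_
      have hn : a ∈ 𝐍(P D (ce z)) := norm_P (Cf.norm h hf hz1 hz1E (haE a ha) (f1_swap hk))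
      have hY : ⁅s, a⁆ ∈ Z D (𝐂(E) ⊓ ce (r ^ 2)) := f1_comm_right hsY ha
      have hZ : ⁅s, a⁆ ∈ Z D (ce z) := h0.om1 hgz (f1_comm_left hsPz hn) (h0.Z_sq hgL hY)
      exact hf.mem_E hZ hc hcE hzc ((mem_Z.1 hY).2 c hc hcL)
    intro a ha
    exact Cf.norm h hf hz1 hz1E (haE a ha)
      (f1_sq hsE (key a ha) (h0.Z_sq hgL (f1_comm_right hsY ha)))

end H83.CYB
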