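import Mathlib
import Cfsg.Agent.Lib.CYB.F0

/-! See `blueprint/CYB/README.md`. -/

set_option autoImplicit false
set_option linter.unusedSectionVars false
set_option linter.unusedVariables false

namespace H83.CYB

open Subgroup H69 H45.DSC
open scoped commutatorElement

variable {G : Type} [Group G] [Finite G] {D : Set G} {p : ℕ} {L L' M M' E X N : Subgroup G}
  {x y w v u z t c g a b r : G}

private theorem zp_two (h4 : g ^ 4 = 1) : IsPGroup 2 (zpowers g) := by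
  rintro ⟨_, n, rfl⟩
  refine ⟨2, Subtype.ext ?_⟩
  change (g ^ n) ^ 4 = 1
  rw [← zpow_natCast, ← zpow_mul, mul_comm, zpow_mul, zpow_natCast, h4, one_zpow]

private theorem cj_mem (hg : g ∈ 𝐍(X)) (ha : a ∈ X) : g * a * g⁻¹ ∈ X := (mem_normalizer_iff.1 hg a).1 ha

/-- `⁅r⁻¹ w, ω⁆ = ⁅w, ω⁆` if `r` commutes with `ω ^ w` -/
private theorem comm_left (hc : Commute (w * v * w⁻¹) r) : ⁅r⁻¹ * w, v⁆ = ⁅w, v⁆ := by
  rw [commutatorElement_def, commutatorElement_def,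
    show r⁻¹ * w * v * (r⁻¹ * w)⁻¹ * v⁻¹ = r⁻¹ * (w * v * w⁻¹ * r) * v⁻¹ by group, hc.eq]
  group

private theorem comm_mem_left (hg : g ∈ 𝐍(X)) (ha : a ∈ X) : ⁅g, a⁆ ∈ X := by
  rw [commutatorElement_def]; exact mul_mem (cj_mem hg ha) (inv_mem ha)

private theorem comm_mem_right (hg : g ∈ 𝐍(X)) (ha : a ∈ X) : ⁅a, g⁆ ∈ X := by
  rw [← commutatorElement_inv]; exact inv_mem (comm_mem_left hg ha)

theorem BS.inf_le (h : BS D p) (hf : Cf2 D E z c L) (ha : a ∈ P D L) (hz : a ∈ Z D (ce z)) :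
    a ∈ E :=
  hf.toCf.mem_E hz hf.cD (hf.leL (mem_gen hf.cD hf.cL)) hf.zc
    ((mem_Z.1 (h.om1 hf.good ha (h.Z_sq (h.good_ce hf.zz) hz))).2 c hf.cD hf.cL)

theorem BS.split (h : BS D p) (hf : Cf2 D E z c L) (hw : w ∈ Z D (ce z)) (hwE : w ∉ E) :
    ∃ r ∈ P D L, r ∉ Z D L ∧ r⁻¹ * w ∈ 𝐂(gen D L) := by
  have cG := mem_gen hf.cD hf.cL
  have wc : ¬ Commute w c := fun e => hwE (hf.toCf.mem_E hw hf.cD (hf.leL cG) hf.zc e)
  obtain ⟨x, hx, y, hy, -, hp, e⟩ := hf.zz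
  have xz : x ∈ ce z := mem_ce.2 (e ▸ (h.sq x hx y hy _ hp).symm)
  have w2 := h.Z_sq (h.good_ce hf.zz) hw
  obtain ⟨-, -, r, hr, rZ, hc⟩ := h.dec hx hf.cD w2 ((mem_Z.1 hw).2 x hx xz) wc
  have wN := hf.n1 hw
  have c' := h.conj c hf.cD w
  have rL : r ∈ P D L := P_le_P (gen_le.trans (gn_le hf.cL (gen_le (cj_mem wN cG)))) hr
  have rG := P_le_gen rL
  refine ⟨r, rL, fun f => rZ (h.cz (h.good_gn hf.cD c') hf.cD (left_mem_gn _ _) hr
    ((mem_Z.1 f).2 c hf.cD hf.cL)), ?_⟩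
  have rh : Commute r (r⁻¹ * w) := hc r (gen_le (P_le_gen hr))
  have rw' : Commute r⁻¹ w := by
    have := (Commute.refl r).mul_right rh
    rw [mul_inv_cancel_left] at this
    exact this.inv_left
  refine (h.cw (E := E) hf.good hf.cD hf.cL (hc c (left_mem_gn _ _)).symm
    (mul_mem (inv_mem (le_normalizer rG)) wN) (zp_two ?_) fun v hv => ?_).resolve_right ?_
  · rw [rw'.mul_pow, inv_pow, h.pow4 hf.good rL, show 4 = 2 * 2 from rfl, pow_mul, w2]; simp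
  · rw [comm_left (Z_le_cent (cj_mem (norm_Z wN) hv) r rG).symm]
    exact h.inf_le hf (Z_le_P (comm_mem_left (norm_Z wN) hv)) (comm_mem_right (norm_Z (hf.n2 hv)) hw)
  · rintro ⟨a, ha, aZ, aE⟩
    exact hf.noZZ _ aE (h.ZZ_sq hf.good ha aZ)

theorem BS.triv_act (h : BS D p) (hf : Cf2 D E z c L) (ha : a ∈ P D L)
    (hn : a ∈ 𝐍(gen D (ce z))) (hb : b ∈ D) (hbz : b ∈ ce z)
    (ht : b⁻¹ * (a * b * a⁻¹) ∈ P D (ce z)) : a ∈ Z D L := by
  have : Fact (Nat.Prime 2) := ⟨Nat.prime_two⟩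
  have gz := h.good_ce hf.zz
  have bG := mem_gen hb hbz
  have b' := h.conj b hb a
  obtain ⟨r, hr, e⟩ := h.conj_of_par hb b' (h.par_of_two hb b' gz (norm_P (le_normalizer bG)) ht)
  rw [← P_gn hb b'] at hr
  have rL : r ∈ P D (ce z) := P_le_P (gen_le.trans (gn_le hbz (gen_le (cj_mem hn bG)))) hr
  have rG := P_le_gen rL
  have hc : Commute (r⁻¹ * a) b := by
    rw [Commute, SemiconjBy, show r⁻¹ * a * b = r⁻¹ * (a * b * a⁻¹) * a by group, e]; group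
  have h2 : IsPGroup 2 (zpowers (r⁻¹ * a)) :=
    (IsPGroup.to_sup_of_normal_left' gz (zp_two (h.pow4 hf.good ha)) (zpowers_le.2 (norm_P hn))).to_le
      (zpowers_le.2 (mul_mem (mem_sup_left (inv_mem rL)) (mem_sup_right (mem_zpowers a))))
  have k := (h.cw (E := E) gz hb hbz hc (mul_mem (inv_mem (le_normalizer rG)) hn) h2 fun v hv => by
    rw [comm_left (Z_le_cent (cj_mem (norm_Z hn) hv) r rG).symm]
    exact h.inf_le hf (comm_mem_right (norm_P (hf.n1 hv)) ha) (comm_mem_left (norm_Z hn) hv)).resolve_right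
      fun ⟨a, ha, aZ, aE⟩ => hf.noZZ _ aE (h.ZZ_sq gz ha aZ)
  by_contra aZ
  have rk : Commute r (r⁻¹ * a) := k r rG
  have a2 : a ^ 2 ∈ 𝐂(gen D (ce z)) := by
    have := mul_mem (Z_le_cent (h.sq_mem gz rL)) (pow_mem k 2)
    rwa [← rk.mul_pow, mul_inv_cancel_left] at this
  exact hf.zc (h.comm_of_ZZ hf.zz (h.ZZ_sq hf.good ha aZ) (fun g hg => mem_ce.2 (a2 g hg)) hf.cD
    ((mem_Z.1 (h.sq_mem hf.good ha)).2 c hf.cD hf.cL))

end H83.CYB
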