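import Mathlib
import Cfsg.Agent.Lib.CYB.F1
import Cfsg.Agent.Lib.CYB.F2

/-! See `blueprint/CYB/README.md`. -/

set_option autoImplicit false
set_option linter.unusedSectionVars false
set_option linter.unusedVariables false

namespace H83.CYB

open Subgroup H69 H45.DSC
open scoped commutatorElement

variable {G : Type} [Group G] [Finite G] {D : Set G} {p : ℕ} {L L' M M' E X N : Subgroup G}
  {x y w v u z t c g a b r : G}

private theorem f3_of_cent {K : Subgroup G} (hr : r ∈ K) (h : r⁻¹ * z ∈ 𝐂(K)) : Commute r z := by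
  have h1 : r * (r⁻¹ * z) = (r⁻¹ * z) * r := h r hr
  have h2 : z * r = r * (r⁻¹ * z * r) := by group
  show r * z = z * r
  rw [h2, ← h1]; group

private theorem f3_inv (h : BS D p) (hf : Cf2 D E z c L) (ha : a ∈ P D L)
    (hna : a ∈ 𝐍(gen D (ce z))) (ha' : a ∉ Z D L) (hx : x ∈ D) (hxz : x ∈ ce z) :
    x * (a * x * a⁻¹) ∈ P D (ce z) := by
  have h0 := h.toBS0
  have hgz : Good D (ce z) := h.good_ce hf.zz
  have h2 : a ^ 2 ∈ Z D L := h0.sq_mem hf.good ha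
  have h3 : x⁻¹ * (a ^ 2 * x * (a ^ 2)⁻¹) ∈ P D (ce z) := by
    by_cases hc : Commute (a ^ 2) x
    · rw [hc.eq, mul_inv_cancel_right, inv_mul_cancel]; exact one_mem _
    · obtain ⟨-, hp, -⟩ := h0.dec hf.cD hx (h0.Z_sq hf.good h2)
        ((mem_Z.1 h2).2 c hf.cD hf.cL) hc
      exact hp.mem_P hx (h0.conj x hx _) hxz
        (gen_le ((mem_normalizer_iff.1 (pow_mem hna 2) _).1 (mem_gen hx hxz)))
  rcases h0.pm hgz hx hxz hna h3 with h4 | h4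
  · exact absurd (h.triv_act hf ha hna hx hxz h4) ha'
  · exact h4

theorem BS.mul_mem_Z (h : BS D p) (hf : Cf2 D E z c L) (ha : a ∈ P D L) (hb : b ∈ P D L)
    (hna : a ∈ 𝐍(gen D (ce z))) (hnb : b ∈ 𝐍(gen D (ce z))) (ha' : a ∉ Z D L)
    (hb' : b ∉ Z D L) : a * b ∈ Z D L := by
  have h0 := h.toBS0
  obtain ⟨x, hx, y, hy, -, hp, hz⟩ := hf.zz
  have hxz : x ∈ ce z := mem_ce.2 (hz ▸ h0.sq x hx y hy _ hp).symm
  have h1 := f3_inv h hf ha hna ha' hx hxz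
  have h2 := f3_inv h hf hb hnb hb' hx hxz
  refine h.triv_act hf (mul_mem ha hb) (mul_mem hna hnb) hx hxz ?_
  have hxn : x⁻¹ ∈ 𝐍(P D (ce z)) := norm_P (le_normalizer (inv_mem (mem_gen hx hxz)))
  have h3 := (mem_normalizer_iff.1 hxn _).1 (inv_mem h1)
  have h4 := (mem_normalizer_iff.1 (norm_P hna) _).1 h2
  have h5 : x⁻¹ * (a * b * x * (a * b)⁻¹) =
      x⁻¹ * (x * (a * x * a⁻¹))⁻¹ * x⁻¹⁻¹ * (a * (x * (b * x * b⁻¹)) * a⁻¹) := by group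
  rw [h5]; exact mul_mem h3 h4

theorem BS.idx_two (h : BS D p) (hf : Cf2 D E z c L) (hw : w ∈ Z D (ce z)) (hwE : w ∉ E)
    (hv : v ∈ Z D (ce z)) (hvE : v ∉ E) : w * v ∈ E := by
  obtain ⟨r, hr, hrZ, hrh⟩ := h.split hf hw hwE
  obtain ⟨s, hs, hsZ, hsh⟩ := h.split hf hv hvE
  have nr : ∀ {r w : G}, r ∈ P D L → w ∈ Z D (ce z) → w ∉ E → r⁻¹ * w ∈ 𝐂(gen D L) →
      r ∈ 𝐍(gen D (ce z)) := fun hr hw hwE hrh => by
    refine Cf.norm h hf.toCf hw hwE (hf.leL (P_le_gen hr)) ?_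
    rw [commutatorElement_eq_one_iff_commute.2 (f3_of_cent (P_le_gen hr) hrh)]
    exact one_mem _
  have hrs := h.mul_mem_Z hf hr hs (nr hr hw hwE hrh) (nr hs hv hvE hsh) hrZ hsZ
  have hcg : c ∈ gen D L := mem_gen hf.cD hf.cL
  refine hf.toCf.mem_E (mul_mem hw hv) hf.cD (hf.leL hcg) hf.zc ?_
  have h1 : s * (r⁻¹ * w) = (r⁻¹ * w) * s := hrh s (P_le_gen hs)
  have h2 : w * v = (r * s) * (r⁻¹ * w) * (s⁻¹ * v) := by
    rw [mul_assoc r s, h1]; group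
  have c1 : Commute (r * s) c := (mem_Z.1 hrs).2 c hf.cD hf.cL
  have c2 : Commute (r⁻¹ * w) c := (hrh c hcg).symm
  have c3 : Commute (s⁻¹ * v) c := (hsh c hcg).symm
  rw [h2]; exact (c1.mul_left c2).mul_left c3

private theorem f3_K (h : BS D p) (hf : Cf2 D E z c L) (ha : a ∈ P D (ce z))
    (hb : b ∈ P D (ce z)) (h1 : a ∉ Z D (ce z)) (h2 : b ∉ Z D (ce z))
    (h3 : a * b ∉ Z D (ce z)) : ⁅a, b⁆ ∉ E := by
  have h0 := h.toBS0
  have hgz : Good D (ce z) := h.good_ce hf.zz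
  have nE : ∀ {a : G}, a ∈ P D (ce z) → a ∉ Z D (ce z) → a ^ 2 ∉ E := fun ha h1 hm =>
    hf.noZZ _ hm (h0.ZZ_sq hgz ha h1)
  intro ht
  have h4 := h.idx_two hf (h0.sq_mem hgz ha) (nE ha h1) (h0.sq_mem hgz hb) (nE hb h2)
  have hZ := Z_le_cent (h0.comm_mem hgz ha hb)
  have ca : a * ⁅a, b⁆ = ⁅a, b⁆ * a := hZ a (P_le_gen ha)
  have cb : b * ⁅a, b⁆ = ⁅a, b⁆ * b := hZ b (P_le_gen hb)
  have h5 : a ^ 2 * b ^ 2 = a * (⁅a, b⁆ * b) * a * b := by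
    simp only [commutatorElement_def, pow_two]; group
  have h6 : a ^ 2 * b ^ 2 = (a * b) ^ 2 * ⁅a, b⁆ := by
    rw [h5, ← cb, pow_two (a * b)]
    calc a * (b * ⁅a, b⁆) * a * b = a * b * (⁅a, b⁆ * a) * b := by group
      _ = a * b * a * (⁅a, b⁆ * b) := by rw [← ca]; group
      _ = _ := by rw [← cb]; group
  refine nE (mul_mem ha hb) h3 ?_
  have := E.mul_mem h4 (E.inv_mem ht)
  rwa [h6, mul_inv_cancel_right] at this

theorem BS.four (h : BS D p) (hf : Cf D E z) (ha : a ∈ P D (ce z)) (hb : b ∈ P D (ce z))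
    (h1 : a ∉ Z D (ce z)) (h2 : b ∉ Z D (ce z)) (h3 : a * b ∉ Z D (ce z)) (hc : c ∈ P D (ce z)) :
    c ∈ Z D (ce z) ∨ a * c ∈ Z D (ce z) ∨ b * c ∈ Z D (ce z) ∨ a * b * c ∈ Z D (ce z) := by
  have h0 := h.toBS0
  have hgz : Good D (ce z) := h.good_ce hf.zz
  obtain ⟨c₀, L, hf2⟩ := h.exists_cf2 hf
  by_contra hcon
  push Not at hcon
  obtain ⟨k1, k2, k3, k4⟩ := hcon
  have e1 := f3_K h hf2 ha hb h1 h2 h3
  have e2 := f3_K h hf2 ha hc h1 k1 k2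
  have e3 := f3_K h hf2 ha (mul_mem hb hc) h1 k3 (by rwa [← mul_assoc])
  have z2 := h0.comm_mem hgz ha hc
  have cb : b * ⁅a, c⁆ = ⁅a, c⁆ * b := Z_le_cent z2 b (P_le_gen hb)
  have h5 : ⁅a, b * c⁆ = ⁅a, b⁆ * (b * ⁅a, c⁆) * b⁻¹ := by
    simp only [commutatorElement_def]; group
  refine e3 ?_
  rw [h5, cb, ← mul_assoc, mul_inv_cancel_right]
  exact h.idx_two hf2 (h0.comm_mem hgz ha hb) e1 z2 e2

end H83.CYB
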