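import Mathlib
import Cfsg.Agent.Lib.CYB.F3

/-! See `blueprint/CYB/README.md`. -/

set_option autoImplicit false
set_option linter.unusedSectionVars false
set_option linter.unusedVariables false

namespace H83.CYB

open Subgroup H69 H45.DSC
open scoped commutatorElement

variable {G : Type} [Group G] [Finite G] {D : Set G} {p : ℕ} {L L' M M' E X N : Subgroup G}
  {x y w v u z t c g a b r : G}

private theorem cj_Z (hg : g ∈ gen D L) (hz : z ∈ Z D L) : g * z * g⁻¹ = z := by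
  rw [mem_centralizer_iff.1 (Z_le_cent hz) g hg, mul_inv_cancel_right]

private theorem cj_P (hg : g ∈ gen D L) (ha : a ∈ P D L) : g * a * g⁻¹ ∈ P D L :=
  (mem_normalizer_iff.1 (norm_P (le_normalizer hg)) a).1 ha

private theorem cj_nZ (hg : g ∈ gen D L) (ha : a ∉ Z D L) : g * a * g⁻¹ ∉ Z D L := fun e => by
  have := cj_Z (inv_mem hg) e
  rw [show g⁻¹ * (g * a * g⁻¹) * g⁻¹⁻¹ = a by group] at this
  exact ha (this ▸ e)

private theorem nz (h : BS0 D p) (hg : Good D L) (hv : v ∈ D) (hl : v ∈ L) (ha : a ∈ P D L)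
    (hn : a ∉ Z D L) : a * (v * a * v⁻¹) ∉ Z D L := fun e => by
  refine hn (h.fpf hg hv hl ha ?_)
  have e1 := cj_Z (inv_mem (P_le_gen ha)) e
  have := mul_mem e (inv_mem (h.sq_mem hg ha))
  rw [← e1] at this
  convert this using 1
  rw [commutatorElement_def, pow_two]
  group

theorem BS0.small (h : BS0 D p) (hg : Good D L) (hx : x ∈ D) (hy : y ∈ D) (hxL : x ∈ L)
    (hyL : y ∈ L) (hm : y ∉ zpowers x)
    (h4 : ∀ a ∈ P D L, ∀ b ∈ P D L, a ∉ Z D L → b ∉ Z D L → a * b ∉ Z D L → ∀ c ∈ P D L,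
      c ∈ Z D L ∨ a * c ∈ Z D L ∨ b * c ∈ Z D L ∨ a * b * c ∈ Z D L) :
    p = 3 ∧ gen D L = gn x y := by
  obtain ⟨y', hm', hy', hp⟩ := h.par x hx y hy
  have ez : zpowers y' = zpowers y := h.zp_eq hy hm' (h.ne_one hy')
  have hne : x ≠ y' := by
    rintro rfl
    exact hm (ez ▸ mem_zpowers y)
  have hxG : x ∈ gen D L := mem_gen hx hxL
  obtain ⟨a, ea⟩ : ∃ a, a = x⁻¹ * y' := ⟨_, rfl⟩
  have haW : a ∈ W (gn x y) := by
    have : x⁻¹ * y' ∈ W (zpowers x ⊔ zpowers y') := hp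
    rwa [ez, ← ea] at this
  have ha : a ∈ P D L := ea ▸ hp.mem_P hx hy' hxL (zpowers_le.2 hyL hm')
  have haZ : a ∉ Z D L := fun e => h.sq_ne hx hy' hp hne (ea ▸ h.Z_sq hg e)
  have hb := cj_P hxG ha
  have hbZ := cj_nZ hxG haZ
  have hab := nz h hg hx hxL ha haZ
  have hbW : x * a * x⁻¹ ∈ W (gn x y) :=
    (mem_normalizer_iff.1 (norm_W _ (le_normalizer (left_mem_gn x y))) a).1 haW
  constructor
  · have hx2 : x * x ∈ D := h.pow x hx _ (mul_mem (mem_zpowers x) (mem_zpowers x)) fun e => by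
      have h1 : orderOf x ∣ 2 := orderOf_dvd_of_pow_eq_one (by rw [pow_two, e])
      rcases (Nat.dvd_prime Nat.prime_two).1 h1 with h2 | h2
      · exact h.ne_one hx (orderOf_eq_one_iff.1 h2)
      · have := h.odd_ord hx
        rw [h2] at this
        exact absurd this (by decide)
    have habc : a * (x * a * x⁻¹) * (x * (x * a * x⁻¹) * x⁻¹) ∈ Z D L := by
      rcases h4 a ha _ hb haZ hbZ hab _ (cj_P hxG hb) with e | e | e | e
      · exact absurd e (cj_nZ hxG hbZ)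
      · refine absurd ?_ (nz h hg hx2 (mul_mem hxL hxL) ha haZ)
        convert e using 1
        group
      · exact absurd e (nz h hg hx hxL hb hbZ)
      · exact e
    have e1 := cj_Z hxG habc
    have h3 : x ^ 3 = 1 := by
      by_contra h3
      refine haZ (h.fpf hg (h.pow x hx _ (pow_mem (mem_zpowers x) 3) h3) (pow_mem hxL 3) ha ?_)
      have := h.comm_mem hg (inv_mem (mul_mem hb (cj_P hxG hb))) ha
      convert this using 1
      simp only [commutatorElement_def]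
      calc x ^ 3 * a * (x ^ 3)⁻¹ * a⁻¹ = (x * a * x⁻¹ * (x * (x * a * x⁻¹) * x⁻¹))⁻¹ *
            (x * (a * (x * a * x⁻¹) * (x * (x * a * x⁻¹) * x⁻¹)) * x⁻¹) * a⁻¹ := by
            simp only [pow_succ, pow_zero, one_mul, mul_inv_rev, inv_inv, mul_assoc, inv_mul_cancel_left, mul_inv_cancel_left]
        _ = _ := by rw [e1]; group
    have := orderOf_dvd_of_pow_eq_one h3
    rw [h.ord x hx] at this
    exact (Nat.prime_dvd_prime_iff_eq h.pp Nat.prime_three).1 this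
  · refine le_antisymm (gen_le_iff.2 fun v hv hvL => ?_) (gn_le hxG (mem_gen hy hyL))
    obtain ⟨v', hm1, hv', hp1⟩ := h.par x hx v hv
    have hl' : v' ∈ L := zpowers_le.2 hvL hm1
    obtain ⟨r, hr, e⟩ := h.conj_of_par hx hv' hp1
    have hrP : r ∈ P D L :=
      commutator_mono (gn_le hxG (mem_gen hv' hl')) (gn_le hxG (mem_gen hv' hl')) hr
    obtain ⟨s, hs, hz⟩ : ∃ s ∈ W (gn x y), s * r ∈ Z D L := by
      rcases h4 a ha _ hb haZ hbZ hab r hrP with e | e | e | e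
      · exact ⟨1, one_mem _, by rwa [one_mul]⟩
      · exact ⟨_, haW, e⟩
      · exact ⟨_, hbW, e⟩
      · exact ⟨_, mul_mem haW hbW, e⟩
    have h1 : v' ∈ gn x y := by
      have e2 := mem_centralizer_iff.1 (Z_le_cent hz) x hxG
      have : v' = s⁻¹ * x * s := by
        calc v' = s⁻¹ * (s * r * x) * r⁻¹ := by rw [e]; group
          _ = _ := by rw [← e2]; group
      rw [this]
      exact mul_mem (mul_mem (inv_mem (W_le _ hs)) (left_mem_gn x y)) (W_le _ hs)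
    have h2 : v ∈ zpowers v' := by
      rw [h.zp_eq hv hm1 (h.ne_one hv')]
      exact mem_zpowers v
    exact zpowers_le.2 h1 h2

theorem BS.fin (h : BS D p) (hx : x ∈ D) (hy : y ∈ D) (hm : y ∉ zpowers x) :
    p = 3 ∧ ∃ x ∈ D, ∃ y ∈ D, y ∉ zpowers x ∧ ∃ z ∈ gn x y, z * z = 1 ∧ z ≠ 1 ∧
      ∀ v ∈ D, Commute z v ↔ v ∈ gn x y := by
  obtain ⟨E, z, hf⟩ := h.exists_cf hx hy hm
  obtain ⟨x0, hx0, y0, hy0, hne, hp, e⟩ := hf.zz
  have h0 := h.toBS0
  have c1 : Commute z x0 := e ▸ h0.sq x0 hx0 y0 hy0 _ hp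
  have c2 : Commute z y0 := by
    have : Commute z (x0 * (x0⁻¹ * y0)) := c1.mul_right (e ▸ (Commute.refl _).pow_left 2)
    rwa [mul_inv_cancel_left] at this
  have hn := h0.not_mem_of_par hx0 hy0 hp hne
  obtain ⟨h3, eg⟩ := h0.small (h.good_ce hf.zz) hx0 hy0 (mem_ce.2 c1.symm) (mem_ce.2 c2.symm) hn
    fun a ha b hb h1 h2 h3 c hc => h.four hf ha hb h1 h2 h3 hc
  refine ⟨h3, x0, hx0, y0, hy0, hn, z, e ▸ pow_mem (W_le _ hp) 2, ?_, (h0.ZZ_ne hf.zz).1,
    fun v hv => ⟨fun hc => eg ▸ mem_gen hv (mem_ce.2 hc.symm), fun hc => ?_⟩⟩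
  · rw [← pow_two]
    exact (h0.ZZ_ne hf.zz).2
  · rw [← eg] at hc
    exact (mem_ce.1 (gen_le hc)).symm

end H83.CYB
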