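import Mathlib
import Cfsg.Agent.Lib.CYB.BR2
import Cfsg.Agent.Lib.CYB.F4

/-! See `blueprint/CYB/README.md`. -/

set_option autoImplicit false
set_option linter.unusedSectionVars false
set_option linter.unusedVariables false

namespace H83.CYB

open Subgroup H69 H45.DSC
open scoped commutatorElement

variable {G : Type} [Group G] [Finite G] {D : Set G} {p : ℕ} {L L' M M' E X N : Subgroup G}
  {x y w v u z t c g a b r : G}

open H97.CYN MulAction

variable {Ω : Type} [MulAction G Ω] [Finite Ω] {Q : Ω → Subgroup G}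

theorem caseB (h : St p Q) (hB : CaseB Q) : p = 3 ∧ Zl Q := by
  have f := h.toFam
  have := h.nt
  obtain ⟨a0, b0, ab0⟩ := exists_pair_ne Ω
  obtain ⟨x0, hx0, x01⟩ := f.ex a0
  obtain ⟨y0, hy0, y01⟩ := f.ex b0
  obtain ⟨h3, x, ⟨x1, a, hx⟩, y, ⟨y1, b, hy⟩, hn, z, hz, z2, -, hc⟩ := (bs_of h hB).fin (x := x0) (y := y0)
    ⟨x01, a0, hx0⟩ ⟨y01, b0, hy0⟩ (by
      rw [← f.gen hx0 x01]
      exact fun e => ab0 (f.eq_of_mem e hy0 y01))
  refine ⟨h3, fun a' b' ab' => ?_⟩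
  have ab : a ≠ b := by
    rintro rfl
    exact hn (f.gen hx x1 ▸ hy)
  have e : gn x y = Kg Q a b := by
    unfold Kg
    rw [f.gen hx x1, f.gen hy y1]
  rw [e] at hz hc
  have key : ∀ c, z • c = c ↔ c ∈ Li Q a b := by
    intro c
    constructor
    · intro zc v hv
      by_cases v1 : v = 1
      · rw [v1]; exact one_mem _
      have t := h.tp (f.fix_of_comm hx x1 ((hc x ⟨x1, a, hx⟩).2 (left_mem_Li Q a b hx))).2
      exact (hc v ⟨v1, c, hv⟩).1 (t c zc v hv)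
    · intro hl
      obtain ⟨v, hv, v1⟩ := f.ex c
      exact (f.fix_of_comm hv v1 ((hc v ⟨v1, c, hv⟩).2 (hl hv))).1
  obtain ⟨g, rfl, rfl⟩ := h.two a b a' b' ab ab'
  refine ⟨g * z * g⁻¹, (f.K_cj g z a b).2 hz, ?_, fun c => ?_⟩
  · calc g * z * g⁻¹ * (g * z * g⁻¹) = g * (z * z) * g⁻¹ := by group
      _ = 1 := by rw [z2]; group
  · have := f.L_cj g a b (g⁻¹ • c)
    rw [smul_inv_smul] at this
    rw [this, ← key, mul_smul, mul_smul, smul_eq_iff_eq_inv_smul]

end H83.CYB
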